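import Cfsg.Agent.L.PG2

/-! H1.Baer: Baer's trick for class two groups of odd exponent. -/

open Subgroup Cfsg
open scoped commutatorElement

namespace H1

/-- data for Baer's trick. -/
structure BD (K : Type*) [Group K] (h : ℕ) : Prop where
  c : ∀ x y z : K, Commute ⁅x, y⁆ z
  e : ∀ x y : K, ⁅x, y⁆ ^ h * ⁅x, y⁆ ^ h = ⁅x, y⁆

/-- type synonym carrying Baer's abelian group structure. -/
def Baer {K : Type*} [Group K] {h : ℕ} (_ : BD K h) : Type _ := K

namespace BD
variable {K : Type*} [Group K] {h : ℕ} (d : BD K h)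
include d

theorem left (x y z : K) : ⁅x * y, z⁆ ^ h = ⁅x, z⁆ ^ h * ⁅y, z⁆ ^ h := by
  rw [L.commutatorElement_mul_left', ← (d.c y z x).eq, mul_inv_cancel_right, (d.c y z _).eq,
    (d.c x z _).mul_pow]

theorem right (x y z : K) : ⁅x, y * z⁆ ^ h = ⁅x, y⁆ ^ h * ⁅x, z⁆ ^ h := by
  rw [L.commutatorElement_mul_right', ← (d.c x z y).eq, mul_inv_cancel_right, (d.c x y _).mul_pow]

theorem cp (x y z : K) : Commute (⁅x, y⁆ ^ h) z := (d.c x y z).pow_left h

theorem l0 (x y z : K) : ⁅⁅x, y⁆ ^ h, z⁆ ^ h = 1 := by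
  rw [commutatorElement_eq_one_iff_commute.2 (d.cp x y z), one_pow]

theorem r0 (x y z : K) : ⁅z, ⁅x, y⁆ ^ h⁆ ^ h = 1 := by
  rw [commutatorElement_eq_one_iff_commute.2 (d.cp x y z).symm, one_pow]

theorem assoc (x y z : K) : x * y * ⁅y, x⁆ ^ h * z * ⁅z, x * y * ⁅y, x⁆ ^ h⁆ ^ h =
    x * (y * z * ⁅z, y⁆ ^ h) * ⁅y * z * ⁅z, y⁆ ^ h, x⁆ ^ h := by
  rw [d.right, d.right, d.r0, d.left, d.left, d.l0, mul_one, mul_one, mul_assoc (x * y),
    (d.cp y x z).eq]
  simp only [mul_assoc]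
  rw [(d.cp z y _).eq, mul_assoc]

theorem comm (x y : K) : x * y * ⁅y, x⁆ ^ h = y * x * ⁅x, y⁆ ^ h := by
  have : x * y = y * x * ⁅x, y⁆ := by rw [← (d.c x y _).eq, commutatorElement_def]; group
  rw [this, ← commutatorElement_inv x y, inv_pow, mul_assoc]
  nth_rewrite 1 [← d.e x y]
  rw [mul_inv_cancel_right]

instance grp : CommGroup (Baer d) where
  mul (x y : K) := (x * y * ⁅y, x⁆ ^ h : K)
  one := (1 : K)
  inv (x : K) := (x⁻¹ : K)
  mul_assoc := d.assoc
  one_mul (x : K) := show (1 * x * ⁅x, 1⁆ ^ h : K) = x by simp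
  mul_one (x : K) := show (x * 1 * ⁅(1 : K), x⁆ ^ h : K) = x by simp
  inv_mul_cancel (x : K) := show (x⁻¹ * x * ⁅x, x⁻¹⁆ ^ h : K) = 1 by simp [commutatorElement_def]
  mul_comm := d.comm

/-- the identity map. -/
def of (x : K) : Baer d := x

/-- the identity map. -/
def un (x : Baer d) : K := x

theorem of_pow (x : K) (n : ℕ) : d.of (x ^ n) = d.of x ^ n := by
  induction n with
  | zero => rw [pow_zero, pow_zero]; rfl
  | succ n ih =>
    rw [pow_succ (d.of x), ← ih]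
    change x ^ (n + 1) = x ^ n * x * ⁅x, x ^ n⁆ ^ h
    rw [commutatorElement_eq_one_iff_commute.2 (Commute.self_pow x n), one_pow, mul_one, pow_succ]

/-- endomorphisms of `K` are endomorphisms of the Baer group. -/
def hom (f : K →* K) : Baer d →* Baer d where
  toFun x := d.of (f (d.un x))
  map_one' := f.map_one
  map_mul' (x y : K) := show f (x * y * ⁅y, x⁆ ^ h) = f x * f y * ⁅f y, f x⁆ ^ h by
    rw [map_mul, map_mul, map_pow, map_commutatorElement]

end BD

/-- Thompson's lemma for class two groups of exponent `p`. -/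
theorem baer_pq {K A : Type*} [Group K] [Finite K] [Group A] [Finite A] {p h : ℕ} [hp : Fact p.Prime]
    (d : BD K h) (e : ∀ x : K, x ^ p = 1) (ρ : A →* MulAut K) {P Q : Subgroup A} (hP : IsPGroup p P)
    (hQ : (Nat.card Q).Coprime p) (hn : P ≤ normalizer (Q : Set A))
    (hc : ∀ x : K, (∀ u ∈ P, ρ u x = x) → ∀ a ∈ Q, ρ a x = x) : ∀ a ∈ Q, ∀ x : K, ρ a x = x := by
  classical
  haveI := Fintype.ofFinite Q
  haveI : Finite (Baer d) := (inferInstance : Finite K)
  let σ : A → Baer d →* Baer d := fun a => d.hom (ρ a).toMonoidHom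
  have hσ : ∀ a b x, σ a (σ b x) = σ (a * b) x := fun a b x => by
    change ρ a (ρ b (d.un x)) = ρ (a * b) (d.un x)
    rw [map_mul]; rfl
  let π : Baer d →* Baer d := ∏ a : Q, σ a
  have hπ : ∀ x, π x = ∏ a : Q, σ a x := fun x => MonoidHom.finsetProd_apply _ _ _
  have h1 : ∀ a ∈ Q, ∀ x, π (σ a x) = π x := fun a ha x => by
    rw [hπ, hπ]
    exact Fintype.prod_equiv (Equiv.mulRight (⟨a, ha⟩ : Q)) _ _ fun b => hσ _ _ _
  have h2 : ∀ u ∈ P, ∀ x, π (σ u x) = σ u (π x) := fun u hu x => by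
    rw [hπ, hπ, map_prod]
    refine Fintype.prod_equiv (Q.normalizerMonoidHom (⟨u, hn hu⟩⁻¹)).toEquiv _ _ fun b => ?_
    rw [hσ, hσ]; congr 2
    change _ = u * (u⁻¹ * b * u⁻¹⁻¹)
    group
  by_contra! H
  obtain ⟨a, ha, x, hx⟩ := H
  have h3 : p ∣ Nat.card π.ker := by
    have m : σ a (d.of x) * (d.of x)⁻¹ ∈ π.ker := by
      rw [MonoidHom.mem_ker, map_mul, map_inv, h1 a ha, mul_inv_cancel]
    have o : orderOf (σ a (d.of x) * (d.of x)⁻¹) = p := orderOf_eq_prime
      ((d.of_pow _ p).symm.trans (congrArg d.of (e _))) fun e =>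
        hx (show σ a (d.of x) = d.of x from mul_inv_eq_one.1 e)
    rw [← o]; exact π.ker.orderOf_dvd_natCard m
  letI : MulAction P π.ker :=
    { smul := fun u t => ⟨σ u t, by rw [MonoidHom.mem_ker, h2 _ u.2, t.2, map_one]⟩
      one_smul := fun t => Subtype.ext (by change ρ 1 _ = _; rw [map_one]; rfl)
      mul_smul := fun u v t => Subtype.ext (hσ _ _ _).symm }
  obtain ⟨t, t1, t2⟩ := hP.exists_fixed_point_of_prime_dvd_card_of_fixed_point π.ker h3
    (a := 1) fun u => Subtype.ext (map_one (σ u))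
  have h4 := hc (d.un t.1) fun u hu => congrArg Subtype.val (t1 ⟨u, hu⟩)
  have h5 : (t : Baer d) ^ Nat.card Q = 1 := by
    rw [← (MonoidHom.mem_ker.1 t.2), hπ, Finset.prod_congr rfl fun (a : Q) _ =>
      (show σ a t = t from h4 a a.2), Finset.prod_const, Finset.card_univ, Nat.card_eq_fintype_card]
  have h6 : (t : Baer d) ^ p = 1 := (d.of_pow _ p).symm.trans (congrArg d.of (e _))
  exact t2 (Subtype.ext (by
    have := pow_gcd_eq_one.2 ⟨h5, h6⟩
    rw [hQ, pow_one] at this; exact this.symm))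

end H1
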