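import Cfsg.Agent.H1.SylowIn
import Cfsg.Agent.H1.Cores

/-! H1.Cas: Casolo's formula for subnormalizers of `p`-subgroups (via Möbius functions). -/

open Subgroup Cfsg Pointwise Finset

namespace H1

theorem exists_mu {α : Type*} [PartialOrder α] [Fintype α] [DecidableEq α] [DecidableLE α] (H : α) :
    ∃ m : α → ℤ, m H = 1 ∧ ∀ B, H < B → ∑ K with H ≤ K ∧ K ≤ B, m K = 0 := by
  classical
  letI : LocallyFiniteOrder α := Fintype.toLocallyFiniteOrder
  refine ⟨IncidenceAlgebra.mu ℤ H, IncidenceAlgebra.mu_self H, fun B hB => ?_⟩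
  have := IncidenceAlgebra.sum_Icc_mu_right (𝕜 := ℤ) H B
  rw [if_neg hB.ne] at this
  rw [← this]
  exact sum_congr (by ext; simp) fun _ _ => rfl

theorem weisner {α : Type*} [Lattice α] [Fintype α] [DecidableEq α] [DecidableLE α] {H A : α}
    {m : α → ℤ} (hm : ∀ B, H < B → ∑ K with H ≤ K ∧ K ≤ B, m K = 0) (hA : H < A) (T : Finset α)
    (h1 : ∀ K ∈ T, H ≤ K) (h2 : ∀ K ∈ T, ∀ K', H ≤ K' → K' ≤ K → K' ∈ T)
    (h3 : ∀ K ∈ T, K ⊔ A ∈ T) : ∑ K ∈ T, m K = 0 := by
  classical
  have key : ∀ B, A ≤ B → ∑ K with H ≤ K ∧ K ⊔ A = B, m K = 0 := by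
    intro B
    induction B using WellFoundedLT.induction with
    | ind B ih =>
    intro hB
    have h := hm B (hA.trans_le hB)
    rw [← sum_filter_add_sum_filter_not _ (fun K => K ⊔ A = B),
      ← sum_fiberwise_of_maps_to (s := filter (fun K => ¬ K ⊔ A = B) _)
        (t := univ.filter fun C => A ≤ C ∧ C < B) (g := fun K => K ⊔ A) (fun K hK => by
          simp only [mem_filter, mem_univ, true_and] at hK ⊢
          exact ⟨le_sup_right, lt_of_le_of_ne (sup_le hK.1.2 hB) hK.2⟩),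
      sum_eq_zero (s := univ.filter fun C => A ≤ C ∧ C < B) fun C hC => ?_, add_zero] at h
    · rw [← h]
      refine sum_congr ?_ fun _ _ => rfl
      ext K
      simp only [mem_filter, mem_univ, true_and]
      exact ⟨fun h => ⟨⟨h.1, h.2 ▸ le_sup_left⟩, h.2⟩, fun h => ⟨h.1.1, h.2⟩⟩
    · simp only [mem_filter, mem_univ, true_and] at hC
      rw [← ih C hC.2 hC.1]
      refine sum_congr ?_ fun _ _ => rfl
      ext K
      simp only [mem_filter, mem_univ, true_and]
      exact ⟨fun h => ⟨h.1.1.1, h.2⟩, fun h => ⟨⟨⟨h.1, le_sup_left.trans (h.2.le.trans hC.2.le)⟩,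
        fun e => hC.2.ne (h.2.symm.trans e)⟩, h.2⟩⟩
  rw [← sum_fiberwise_of_maps_to (t := T.filter fun C => A ≤ C) (g := fun K => K ⊔ A)
    fun K hK => mem_filter.2 ⟨h3 K hK, le_sup_right⟩]
  refine sum_eq_zero fun C hC => ?_
  rw [mem_filter] at hC
  rw [← key C hC.2]
  refine sum_congr ?_ fun _ _ => rfl
  ext K
  simp only [mem_filter, mem_univ, true_and]
  exact ⟨fun h => ⟨h1 K h.1, h.2⟩, fun h => ⟨h2 C hC.1 K h.1 (h.2 ▸ le_sup_left), h.2⟩⟩

variable {G : Type*} [Group G] {p : ℕ}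

/-- `g` normalizes a `p`-subgroup containing `H`. -/
def Sbn (p : ℕ) (H : Subgroup G) (g : G) : Prop :=
  ∃ R : Subgroup G, H ≤ R ∧ IsPGroup p R ∧ g ∈ normalizer (R : Set G)

open Classical in
theorem casolo [Fintype G] [hp : Fact p.Prime] (L : Subgroup G) : ∀ P, IsSylowIn p P L →
    ∀ H ≤ L, IsPGroup p H → (univ.filter fun g => g ∈ L ∧ Sbn p H g).card =
      (univ.filter fun g => g ∈ L ∧ H ≤ MulAut.conj g • P).card := by
  haveI := Fintype.ofFinite (Subgroup G)
  induction L using WellFoundedLT.induction with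
  | ind L ih =>
  intro P hP H
  induction H using WellFoundedGT.induction with
  | ind H ih2 =>
  intro hL hH
  have sm : ∀ {Q M : Subgroup G}, IsSylowIn p Q M → ∀ g ∈ M, IsSylowIn p (MulAut.conj g • Q) M :=
    fun h g hg => h.smul (le_normalizer hg)
  by_cases h1 : L ≤ normalizer (H : Set G)
  · congr 1; ext g
    simp only [mem_filter, mem_univ, true_and]
    exact and_congr_right fun hg => iff_of_true ⟨H, le_rfl, hH, h1 hg⟩
      ((sm hP g hg).ge_of_normal hH hL ((sm hP g hg).le.trans h1))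
  by_cases h2 : IsSylowIn p H L
  · obtain ⟨x, hx, rfl⟩ := hP.conj h2
    refine card_bijective (· * x) (Equiv.mulRight x).bijective fun g => ?_
    simp only [mem_filter, mem_univ, true_and, L.mul_mem_cancel_right hx]
    refine and_congr_right fun hg => ?_
    rw [map_mul, mul_smul]
    constructor
    · rintro ⟨R, r1, r2, r3⟩
      have := h2.eq_of_le (r2.to_le inf_le_left) (le_inf r1 hL) inf_le_right
      rw [← this]
      exact (conj_smul_eq_self_iff.2 (le_normalizer_inf (zpowers_le_of_mem r3)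
        ((zpowers_le_of_mem hg).trans le_normalizer) (mem_zpowers g))).ge
    · intro h
      exact ⟨_, le_rfl, hH, conj_smul_eq_self_iff.1
        (h2.eq_of_le (sm h2 g hg).isPGroup h (sm h2 g hg).le)⟩
  set N := L ⊓ normalizer (H : Set G) with hN
  have hNL : N < L := lt_of_le_of_ne inf_le_left fun e => h1 (inf_eq_left.1 e)
  obtain ⟨P', hP'⟩ := exists_isSylowIn (p := p) N
  obtain ⟨m, m1, m2⟩ := exists_mu H
  set T := univ.filter fun K : Subgroup G => H ≤ K ∧ K ≤ N ∧ IsPGroup p K with hT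
  have ex : ∀ (r : Subgroup G → G → Prop) (M : Subgroup G),
      ∑ K ∈ T, m K * (univ.filter fun g => g ∈ M ∧ r K g).card =
        ∑ g with g ∈ M, ∑ K ∈ T with r K g, m K := fun r M => by
    simp only [sum_filter, card_filter, Nat.cast_sum, mul_sum]
    rw [sum_comm]
    refine sum_congr rfl fun g _ => ?_
    by_cases h : g ∈ M <;> simp [h]
  have t0 : ∀ Q : Subgroup G, IsPGroup p Q → (H ≤ Q → H < N ⊓ Q) → ∑ K ∈ T with K ≤ Q, m K = 0 := by
    intro Q hQ h
    by_cases h0 : H ≤ Q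
    · rw [← m2 _ (h h0)]
      refine sum_congr ?_ fun _ _ => rfl
      ext K
      simp only [hT, mem_filter, mem_univ, true_and, le_inf_iff (a := N)]
      exact ⟨fun h => ⟨h.1.1, h.1.2.1, h.2⟩, fun h => ⟨⟨h.1, h.2.1, hQ.to_le h.2.2⟩, h.2.2⟩⟩
    · refine sum_eq_zero fun K hK => ?_
      simp only [hT, mem_filter, mem_univ, true_and] at hK
      exact absurd (hK.1.1.trans hK.2) h0
  have lt : ∀ Q ≤ L, IsPGroup p Q → H < Q → H < N ⊓ Q := fun Q a b c =>
    (lt_normalizer_inf_of_isPGroup b c).trans_le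
      (le_inf (le_inf (inf_le_right.trans a) inf_le_left) inf_le_right)
  have a1 : ∑ K ∈ T, m K * (univ.filter fun g => g ∈ L ∧ K ≤ MulAut.conj g • P).card = 0 := by
    rw [ex (fun K g => K ≤ MulAut.conj g • P)]
    refine sum_eq_zero fun g hg => ?_
    have := sm hP g (by simpa using hg)
    exact t0 _ this.isPGroup fun h => lt _ this.le this.isPGroup
      (lt_of_le_of_ne h fun e => h2 (e ▸ this))
  have a2 : ∑ K ∈ T, m K * (univ.filter fun g => g ∈ N ∧ Sbn p K g).card = 0 := by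
    rw [sum_congr rfl fun K hK => by
      simp only [hT, mem_filter, mem_univ, true_and] at hK
      rw [ih N hNL P' hP' K hK.2.1 hK.2.2], ex (fun K g => K ≤ MulAut.conj g • P')]
    refine sum_eq_zero fun g hg => ?_
    have := sm hP' g (by simpa using hg)
    refine t0 _ this.isPGroup fun h => lt _ (this.le.trans inf_le_left) this.isPGroup
      (lt_of_le_of_ne h fun e => h2 ?_)
    obtain ⟨Q, q1, q2⟩ := exists_isSylowIn_ge hH hL
    by_contra h6
    have h5 := lt Q q1.le q1.isPGroup (lt_of_le_of_ne q2 fun e => h2 (e ▸ q1))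
    exact h5.ne' ((e ▸ this : IsSylowIn p H N).eq_of_le (q1.isPGroup.to_le inf_le_right) h5.le
      inf_le_left)
  have a3 : ∑ K ∈ T, m K * (univ.filter fun g => g ∈ L ∧ Sbn p K g).card = 0 := by
    rw [← a2, ex, ex]
    refine (sum_subset (fun g hg => by simp only [mem_filter, mem_univ, true_and] at hg ⊢; exact hg.1)
      fun g hg hg' => ?_).symm
    simp only [mem_filter, mem_univ, true_and] at hg hg'
    by_cases h0 : Sbn p H g
    · set M := sInf {R : Subgroup G | H ≤ R ∧ g ∈ normalizer (R : Set G)}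
      have M1 : H ≤ M := le_sInf fun R h => h.1
      have M2 : g ∈ normalizer (M : Set G) := mem_normalizer_fintype fun x hx =>
        mem_sInf.2 fun R h => (mem_normalizer_iff.1 h.2 x).1 (mem_sInf.1 hx R h)
      have M3 : IsPGroup p M := h0.elim fun R h => h.2.1.to_le (sInf_le ⟨h.1, h.2.2⟩)
      refine weisner m2 (lt M (sInf_le ⟨hL, le_normalizer hg⟩) M3 (lt_of_le_of_ne M1
        fun e => hg' ⟨hg, e ▸ M2⟩)) _ (fun K hK => ?_) (fun K hK K' a b => ?_) fun K hK => ?_ <;>
        simp only [hT, mem_filter, mem_univ, true_and] at hK ⊢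
      · exact hK.1.1
      · exact ⟨⟨a, b.trans hK.1.2.1, hK.1.2.2.to_le b⟩, hK.2.imp fun R h => ⟨b.trans h.1, h.2⟩⟩
      · obtain ⟨⟨a, b, -⟩, R, r1, r2, r3⟩ := hK
        have : K ⊔ N ⊓ M ≤ R := sup_le r1 (inf_le_right.trans (sInf_le ⟨a.trans r1, r3⟩))
        exact ⟨⟨a.trans le_sup_left, sup_le b inf_le_left, r2.to_le this⟩, R, this, r2, r3⟩
    · refine sum_eq_zero fun K hK => ?_
      simp only [hT, mem_filter, mem_univ, true_and] at hK
      exact absurd (hK.2.imp fun R h => ⟨hK.1.1.trans h.1, h.2⟩) h0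
  have hm : H ∈ T := by
    simp only [hT, mem_filter, mem_univ, true_and]; exact ⟨le_rfl, le_inf hL le_normalizer, hH⟩
  rw [← a1, ← add_sum_erase _ _ hm, ← add_sum_erase _ _ hm, sum_congr rfl fun K hK => by
    simp only [hT, mem_erase, mem_filter, mem_univ, true_and] at hK
    rw [ih2 K (lt_of_le_of_ne hK.2.1 hK.1.symm) (hK.2.2.1.trans inf_le_left) hK.2.2.2], m1] at a3
  simpa using a3

theorem card_smul_mem {X : Type*} [MulAction G X] [Finite G] (a : X) (S : Set X) :
    Nat.card {g : G // g • a ∈ S} =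
      Nat.card {x : X // x ∈ S ∧ ∃ g : G, x = g • a} * Nat.card (MulAction.stabilizer G a) := by
  classical
  rw [← Nat.card_prod]
  let c : {x : X // x ∈ S ∧ ∃ g : G, x = g • a} → G := fun x => x.2.2.choose
  have hc : ∀ x, c x • a = x := fun x => x.2.2.choose_spec.symm
  refine (Nat.card_congr (Equiv.ofBijective (fun y : _ × MulAction.stabilizer G a =>
    (⟨c y.1 * y.2, by rw [mul_smul, y.2.2, hc]; exact y.1.2.1⟩ : {g : G // g • a ∈ S})) ⟨?_, ?_⟩)).symm
  · rintro ⟨x, s⟩ ⟨y, t⟩ h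
    have h1 : c x * s = c y * t := congrArg Subtype.val h
    have h2 : x = y := Subtype.ext (by
      rw [← hc, ← hc y, ← s.2, ← mul_smul, h1, mul_smul, t.2, s.2])
    subst h2
    rw [Subtype.ext (mul_left_cancel h1)]
  · rintro ⟨g, hg⟩
    refine ⟨(⟨g • a, hg, g, rfl⟩, ⟨(c ⟨g • a, hg, g, rfl⟩)⁻¹ * g, ?_⟩), Subtype.ext (by simp)⟩
    rw [MulAction.mem_stabilizer_iff, mul_smul, inv_smul_eq_iff, hc]

end H1
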