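import Cfsg.Agent.H1.MC

/-! H1.Gs: Gauss sums of quadratic maps on elementary abelian 2-groups. -/

open Subgroup Finset

namespace H1

/-- sign character of `ZMod 2` -/
def sg (x : ZMod 2) : ℤ := if x = 0 then 1 else -1

theorem sg_add : ∀ x y : ZMod 2, sg (x + y) = sg x * sg y := by decide

theorem sg_mul_self : ∀ x : ZMod 2, sg x * sg x = 1 := by decide

theorem sum_sg_hom {W : Type*} [Group W] [Fintype W] (f : W → ZMod 2) (hf : ∀ a b, f (a * b) = f a + f b) :
    (Fintype.card W : ℤ) ∣ ∑ w, sg (f w) := by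
  by_cases h : ∀ w, f w = 0
  · simp [h, sg]
  push Not at h
  obtain ⟨a, ha⟩ := h
  have e : ∑ w, sg (f w) = ∑ w, sg (f (a * w)) := (Equiv.sum_comp (Equiv.mulLeft a) fun w => sg (f w)).symm
  have : sg (f a) = -1 := if_neg ha
  simp only [hf, sg_add, this, ← Finset.mul_sum] at e
  rw [show ∑ w, sg (f w) = 0 by linarith]
  exact dvd_zero _

theorem gauss_dvd {W : Type*} [Group W] [Fintype W] (q : W → ZMod 2)
    (hq : ∀ u w w', q (u * (w * w')) + q u + q (w * w') =
      (q (u * w) + q u + q w) + (q (u * w') + q u + q w')) :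
    Fintype.card W ∣ 4 * #{w | q w = 0} ^ 2 := by
  classical
  have h1 : (Fintype.card W : ℤ) ∣ (∑ w, sg (q w)) ^ 2 := by
    have e : ∀ w, ∑ u, sg (q u) = ∑ u, sg (q (u * w)) := fun w =>
      (Equiv.sum_comp (Equiv.mulRight w) fun u => sg (q u)).symm
    have : (∑ w, sg (q w)) ^ 2 = ∑ u, sg (q u) * ∑ w, sg (q (u * w) + q u + q w) := by
      rw [pow_two, Finset.mul_sum]
      simp only [Finset.mul_sum]
      rw [Finset.sum_comm (f := fun u w => sg (q u) * sg (q (u * w) + q u + q w))]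
      refine Finset.sum_congr rfl fun w _ => ?_
      rw [e w, Finset.sum_mul]
      refine Finset.sum_congr rfl fun u _ => ?_
      rw [sg_add, sg_add]
      linear_combination (-(sg (q (u * w)) * sg (q w))) * sg_mul_self (q u)
    rw [this]
    exact Finset.dvd_sum fun u _ => Dvd.dvd.mul_left (sum_sg_hom _ (hq u)) _
  have h2 : ∑ w, sg (q w) = 2 * (#{w | q w = 0} : ℤ) - Fintype.card W := by
    have : ∀ w, sg (q w) = 2 * (if q w = 0 then 1 else 0) - 1 := fun w => by
      unfold sg; split_ifs <;> rfl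
    simp only [this, Finset.sum_sub_distrib, ← Finset.mul_sum]
    simp
  rw [h2] at h1
  rw [← Int.natCast_dvd_natCast]
  push_cast
  have e : 4 * (#{w | q w = 0} : ℤ) ^ 2 = (2 * (#{w | q w = 0} : ℤ) - Fintype.card W) ^ 2 +
      Fintype.card W * (4 * (#{w | q w = 0} : ℤ) - Fintype.card W) := by ring
  rw [e]
  exact dvd_add h1 (Dvd.intro _ rfl)

theorem card_modEq_fix {W : Type*} [Fintype W] [DecidableEq W] (f : W → W) {r : ℕ} (hr : r.Prime)
    (hf : ∀ w, f^[r] w = w) (P : W → Prop) [DecidablePred P] (hP : ∀ w, P w → P (f w)) :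
    #{w | P w} ≡ #{w | P w ∧ f w = w} [MOD r] := by
  haveI := Fact.mk hr
  let g : Function.End {w // P w} := fun w => ⟨f w, hP _ w.2⟩
  have hg : ∀ n (w : {w // P w}), ((g ^ n) w : W) = f^[n] w := by
    intro n
    induction n with
    | zero => intro w; rfl
    | succ n ih => intro w; rw [pow_succ, Function.iterate_succ_apply]; exact ih (g w)
  have := Equiv.Perm.card_fixedPoints_modEq (f := g) (p := r) (n := 1)
    (funext fun w => Subtype.ext (by rw [pow_one, hg, hf]; rfl))
  rw [Fintype.card_subtype] at this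
  convert this using 1
  rw [← Fintype.card_subtype]
  exact Fintype.card_congr
    ⟨fun w => ⟨⟨w, w.2.1⟩, Subtype.ext w.2.2⟩, fun w => ⟨w.1, w.1.2, congrArg Subtype.val w.2⟩,
      fun _ => rfl, fun _ => rfl⟩

/-- an anisotropic pair of quadratic forms -/
structure AQ {W : Type*} [Group W] (s : W → ZMod 2 × ZMod 2) : Prop where
  sq : ∀ w : W, w * w = 1
  bil : ∀ u w w', s (u * (w * w')) + s u + s (w * w') = (s (u * w) + s u + s w) + (s (u * w') + s u + s w')
  an : ∀ w, s w = 0 ↔ w = 1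

variable {W : Type*} [Group W] [Fintype W] [DecidableEq W] {s : W → ZMod 2 × ZMod 2}

theorem AQ.sub (h : AQ s) (U : Subgroup W) : AQ fun u : U => s u :=
  ⟨fun w => Subtype.ext (h.sq w), fun u w w' => h.bil u w w', fun w => (h.an w).trans (by simp)⟩

theorem AQ.dvd (h : AQ s) {v : ZMod 2 × ZMod 2} (hv : v ≠ 0) :
    Fintype.card W ∣ 4 * (#{w | s w = v} + 1) ^ 2 := by
  have a : ∀ v y : ZMod 2 × ZMod 2, v ≠ 0 → (v.1 * y.2 + v.2 * y.1 = 0 ↔ y = v ∨ y = 0) := by decide
  have := gauss_dvd (fun w => v.1 * (s w).2 + v.2 * (s w).1) fun u w w' => by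
    have := h.bil u w w'
    have e1 := congrArg Prod.fst this
    have e2 := congrArg Prod.snd this
    simp only [Prod.fst_add, Prod.snd_add] at e1 e2
    linear_combination v.2 * e1 + v.1 * e2
  convert this using 3
  rw [← card_insert_of_notMem (a := (1 : W)) (by simp [(h.an 1).2 rfl, hv.symm])]
  congr 1
  ext w
  simp only [mem_insert, mem_filter, mem_univ, true_and, a v _ hv, h.an, or_comm]

theorem AQ.sum (h : AQ s) (P : W → Prop) [DecidablePred P] (h1 : P 1) :
    #{w | P w} = 1 + #{w | s w = (1, 0) ∧ P w} + #{w | s w = (0, 1) ∧ P w} + #{w | s w = (1, 1) ∧ P w} := by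
  rw [card_eq_sum_card_fiberwise (f := s) (t := univ) (fun _ _ => mem_univ _),
    show (univ : Finset (ZMod 2 × ZMod 2)) = {0, (1, 0), (0, 1), (1, 1)} by decide,
    sum_insert (by decide), sum_insert (by decide), sum_insert (by decide), sum_singleton]
  simp only [filter_filter, and_comm (a := P _)]
  rw [show ({w | s w = 0 ∧ P w} : Finset W) = {1} by
    ext w; simp only [mem_filter, mem_univ, true_and, h.an, mem_singleton]
    exact ⟨fun a => a.1, fun a => ⟨a, a ▸ h1⟩⟩, card_singleton]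
  ring

theorem AQ.sum' (h : AQ s) :
    Fintype.card W = 1 + #{w | s w = (1, 0)} + #{w | s w = (0, 1)} + #{w | s w = (1, 1)} := by
  simpa using h.sum (fun _ => True) trivial

theorem AQ.pow (h : AQ s) (U : Subgroup W) : ∃ n, Nat.card U = 2 ^ n := by
  haveI : Fact (Nat.Prime 2) := ⟨Nat.prime_two⟩
  exact IsPGroup.exists_card_eq fun x => ⟨1, Subtype.ext (by rw [pow_one, pow_two]; exact h.sq x)⟩

theorem AQ.card_le (h : AQ s) : ∃ n ≤ 4, Fintype.card W = 2 ^ n := by
  obtain ⟨n, hn⟩ := h.pow ⊤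
  rw [card_top, Nat.card_eq_fintype_card] at hn
  refine ⟨n, ?_, hn⟩
  by_contra hc
  have k : ∀ v, v ≠ 0 → 4 ∣ #{w | s w = v} + 1 := by
    intro v hv
    have := h.dvd hv
    rw [hn] at this
    have := (pow_dvd_pow 2 (show 5 ≤ n by omega)).trans this
    generalize #{w | s w = v} + 1 = m at this
    have a : m % 4 = 0 ∨ m % 4 = 1 ∨ m % 4 = 2 ∨ m % 4 = 3 := by omega
    obtain ⟨k, hk⟩ : ∃ k, m = 4 * k + m % 4 := ⟨m / 4, by omega⟩
    obtain ⟨c, hc⟩ := this
    rcases a with a | a | a | a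
    · omega
    all_goals
      rw [a] at hk; rw [hk] at hc; ring_nf at hc; omega
  have := h.sum'
  have a := k (1, 0) (by decide)
  have b := k (0, 1) (by decide)
  have c := k (1, 1) (by decide)
  have d : 4 ∣ Fintype.card W := hn ▸ (pow_dvd_pow 2 (show 2 ≤ n by omega))
  omega

theorem AQ.odd (h : AQ s) (h8 : 8 ∣ Fintype.card W) {v : ZMod 2 × ZMod 2} (hv : v ≠ 0) :
    #{w | s w = v} % 2 = 1 := by
  have := h8.trans (h.dvd hv)
  have e : 2 ∣ (#{w | s w = v} + 1) ^ 2 := Nat.dvd_of_mul_dvd_mul_left (show 0 < 4 by decide) this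
  have := Nat.prime_two.dvd_of_dvd_pow e
  omega

/-- a fixed-point-free automorphism of prime order `r ≥ 5` -/
theorem AQ.fpf (h : AQ s) [Nontrivial W] (f : W → W) {r : ℕ} (hr : r.Prime) (h5 : 5 ≤ r) (hf : ∀ w, f^[r] w = w)
    (hs : ∀ w, s (f w) = s w) (h0 : ∀ w, f w = w → w = 1) :
    r = 5 ∧ Fintype.card W = 16 ∧ ∀ v, v ≠ 0 → #{w | s w = v} = 5 := by
  have k : ∀ v, v ≠ 0 → r ∣ #{w | s w = v} := by
    intro v hv
    have := card_modEq_fix f hr hf (fun w => s w = v) (fun w hw => (hs w).trans hw)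
    rw [show ({w | s w = v ∧ f w = w} : Finset W) = ∅ from filter_eq_empty_iff.2 fun w _ hw =>
      hv (by rw [← hw.1, h.an, h0 w hw.2]), card_empty] at this
    exact (Nat.modEq_zero_iff_dvd).1 this
  obtain ⟨n, hn, hc⟩ := h.card_le
  have e := h.sum'
  obtain ⟨a, ha⟩ := k (1, 0) (by decide)
  obtain ⟨b, hb⟩ := k (0, 1) (by decide)
  obtain ⟨c, hc'⟩ := k (1, 1) (by decide)
  have h2 : 1 < Fintype.card W := Fintype.one_lt_card
  have h8 : 8 ∣ Fintype.card W := by
    have : r * (a + b + c) + 1 = 2 ^ n := by rw [← hc, e, ha, hb, hc']; ring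
    have : 5 ≤ r * (a + b + c) := h5.trans (Nat.le_mul_of_pos_right _ (by
      rcases Nat.eq_zero_or_pos (a + b + c) with z | z
      · rw [z, ← hc] at this; omega
      · exact z))
    rw [hc]
    interval_cases n <;> omega
  have oa := h.odd h8 (v := (1, 0)) (by decide)
  have ob := h.odd h8 (v := (0, 1)) (by decide)
  have oc := h.odd h8 (v := (1, 1)) (by decide)
  have la := Nat.le_of_dvd (by omega) (k (1, 0) (by decide))
  have lb := Nat.le_of_dvd (by omega) (k (0, 1) (by decide))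
  have lc := Nat.le_of_dvd (by omega) (k (1, 1) (by decide))
  have h16 : Fintype.card W ≤ 16 := hc ▸ Nat.pow_le_pow_right two_pos hn
  refine ⟨by omega, by omega, fun v hv => ?_⟩
  have : ∀ v : ZMod 2 × ZMod 2, v ≠ 0 → v = (1, 0) ∨ v = (0, 1) ∨ v = (1, 1) := by decide
  rcases this v hv with rfl | rfl | rfl <;> omega

theorem AQ.big (h : AQ s) (f : W →* W) {r : ℕ} (hr : r.Prime) (h5 : 5 ≤ r) (hf : ∀ w, f^[r] w = w)
    (hs : ∀ w, s (f w) = s w) {x : W} (hx : f x ≠ x) :
    r = 5 ∧ Fintype.card W = 16 ∧ ∀ v, v ≠ 0 → #{w | s w = v} = 5 := by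
  classical
  have hc : ∀ a b : W, a * b = b * a := fun a b => by
    have := h.sq (a * b)
    calc a * b = (a * a) * (b * a) * (b * b) * ((a * b) * (a * b))⁻¹ * (a * b) * (a * b) * (b * a)⁻¹ * (a * b) := by
          rw [h.sq a, h.sq b]; group
      _ = b * a := by
          rw [h.sq a, h.sq b, this, show (b * a)⁻¹ = a * b by
            rw [mul_inv_rev, inv_eq_of_mul_eq_one_right (h.sq a), inv_eq_of_mul_eq_one_right (h.sq b)]]
          rw [mul_assoc _ (a * b) (a * b), this, mul_assoc _ (a * b) (a * b), this]; group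
  let g : W →* W := MonoidHom.mk' (fun w => w * f w) fun a b => by
    rw [map_mul, mul_assoc, mul_assoc, ← mul_assoc b, hc b (f a), mul_assoc]
  have gf : ∀ w, f (g w) = g (f w) := fun w => map_mul f _ _
  have g0 : ∀ w, f (g w) = g w → g w = 1 := by
    intro w hw
    have e : f (f w) = w := by
      have : f w * f (f w) = w * f w := (map_mul f _ _).symm.trans hw
      rw [hc w] at this
      exact mul_left_cancel this
    obtain ⟨k, hk⟩ := hr.odd_of_ne_two (by omega)
    have : f w = w := by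
      have a := hf w
      rwa [hk, add_comm, Function.iterate_add_apply, Function.iterate_mul,
        Function.iterate_fixed (f := f^[2]) (by exact e)] at a
    show w * f w = 1
    rw [this, h.sq]
  let U := g.range
  let f' : U → U := fun u => ⟨f u, by obtain ⟨_, w, rfl⟩ := u; exact ⟨f w, (gf w).symm⟩⟩
  have it : ∀ n (u : U), (f'^[n] u : W) = f^[n] u := by
    intro n
    induction n with
    | zero => intro u; rfl
    | succ n ih => intro u; rw [Function.iterate_succ_apply, ih]; rfl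
  haveI : Nontrivial U := ⟨⟨⟨g x, x, rfl⟩, 1, fun e => hx (by
    have : x * f x = 1 := congrArg Subtype.val e
    rw [← h.sq x] at this; exact mul_left_cancel this)⟩⟩
  obtain ⟨a, b, c⟩ := (h.sub U).fpf f' hr h5 (fun u => Subtype.ext ((it r u).trans (hf u))) (fun u => hs u)
    (by rintro ⟨_, w, rfl⟩ e; exact Subtype.ext (g0 w (congrArg Subtype.val e)))
  obtain ⟨n, hn, hw⟩ := h.card_le
  have h16 : Fintype.card W ≤ 16 := hw ▸ Nat.pow_le_pow_right two_pos hn
  have hU : U = ⊤ := by
    rw [← Nat.card_eq_fintype_card] at b h16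
    exact eq_top_of_le_card U (by omega)
  have fp : ∀ w, f w = w → w = 1 := fun w e => by
    obtain ⟨y, rfl⟩ : w ∈ U := hU ▸ mem_top w
    exact g0 y e
  haveI : Nontrivial W := ⟨⟨x, f x, hx.symm⟩⟩
  exact h.fpf f hr h5 hf hs fp

theorem AQ.three (h : AQ s) (h16 : Fintype.card W = 16) (h5 : ∀ v, v ≠ 0 → #{w | s w = v} = 5) (f : W →* W)
    (hf : ∀ w, f^[3] w = w) (hs : ∀ w, s (f w) = s w) (x : W) : f x = x := by
  classical
  have k : ∀ v, v ≠ 0 → 2 ≤ #{w | s w = v ∧ f w = w} := by
    intro v hv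
    have := card_modEq_fix f Nat.prime_three hf (fun w => s w = v) (fun w hw => (hs w).trans hw)
    rw [h5 v hv, Nat.ModEq] at this
    omega
  have e := h.sum (fun w => f w = w) (map_one f)
  have a := k (1, 0) (by decide)
  have b := k (0, 1) (by decide)
  have c := k (1, 1) (by decide)
  have m := card_modEq_fix f Nat.prime_three hf (fun _ => True) (fun _ _ => trivial)
  simp only [true_and, filter_true, card_univ, h16, Nat.ModEq] at m
  obtain ⟨n, hn⟩ := h.pow (f.eqLocus (MonoidHom.id W))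
  have e2 : Nat.card (f.eqLocus (MonoidHom.id W)) = #{w | f w = w} := by
    rw [Nat.card_eq_fintype_card, Fintype.card_subtype]
    exact congrArg _ (filter_congr fun _ _ => Iff.rfl)
  have l : #{w | f w = w} ≤ 16 := h16 ▸ card_le_univ _
  have : #{w | f w = w} = 16 := by
    rw [e2] at hn
    have : n ≤ 4 := (Nat.pow_le_pow_iff_right (show 1 < 2 by decide)).1 (hn ▸ l)
    interval_cases n <;> omega
  have := eq_univ_of_card _ (this.trans h16.symm)
  have hx : x ∈ ({w | f w = w} : Finset W) := by rw [this]; exact mem_univ x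
  exact (mem_filter.1 hx).2

end H1
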