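import Cfsg.Agent.H1.FF4
import Cfsg.Agent.H1.PN2
import Cfsg.Agent.H9.Qd

/-! H1.HPQ: Hall `{p,q}`-subgroups of `p`-solvable groups, Thompson factorization when `6 ∤ |G|`. -/

open Cfsg Subgroup H9
open scoped commutatorElement

namespace H1

universe u

section
variable {G : Type*} [Group G] [Finite G] {p : ℕ} [hp : Fact p.Prime]

theorem psol_min (h : PSol p (⊤ : Subgroup G)) {N : Subgroup G} [N.Normal] (h0 : N ≠ ⊥)
    (hm : ∀ K : Subgroup G, K.Normal → K ≤ N → K = ⊥ ∨ K = N) : IsPGroup p N ∨ (Nat.card N).Coprime p := by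
  obtain ⟨M, -, m1, m2, m3⟩ := h N ⊥ le_top (bot_lt_iff_ne_bot.2 h0) (top_le_normalizer ⊥ |>.trans' le_top)
  rcases m3 with m3 | m3
  · left
    have a := (Ores_le_iff_relIndex m2).2 m3
    refine isPGroup_of_Ores_eq_bot ((hm _ (normal_of_top_le (normalizer_Ores (top_le_normalizer N)))
      (Ores_le p N)).resolve_right fun e => m1.not_ge (e.ge.trans a))
  · right
    obtain ⟨P, hP⟩ := exists_syl (p := p) N
    have k : ∀ g : G, cj g P ≤ M := fun g =>
      SN.le_of_not_dvd (SN.of_normal m1.le m2) (cop_iff.1 m3) (hP.cj g).isP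
        ((cj_mono g hP.le).trans (cj_eq_of_normal g N).le)
    have : M.normalCore = ⊥ := (hm _ inferInstance (M.normalCore_le.trans m1.le)).resolve_right
      fun e => m1.not_ge (e.ge.trans M.normalCore_le)
    exact hP.eq_bot_iff.1 (eq_bot_iff.2 fun x hx => this ▸ fun g => k g (conj_mem_cj hx))

theorem tf_of_not_six (hs : PSol p (⊤ : Subgroup G)) (o : Op' p (⊤ : Subgroup G) = ⊥) (h6 : ¬ 6 ∣ Nat.card G) :
    TF p (⊤ : Subgroup G) := by
  by_contra hnf
  have hV := VZ_elem (centralizer_Op_le_of_PLay (PLay_eq_bot_of_psol hs) o)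
  have n := normalizer_VZ (p := p) (Subgroup.le_normalizer (H := (⊤ : Subgroup G)))
  obtain ⟨Γ, _, _, i, f, h⟩ := exists_hol (VZ p (⊤ : Subgroup G))
  obtain ⟨k, g⟩ := h.fp_J hV le_top n hs (Opm_VZ_le _)
  obtain ⟨A, t⟩ := g.exists fun e => hnf ((tf_iff o).2 (h.kr_f ▸ (im_eq_bot_iff f (le_top.trans n)).1 e))
  obtain ⟨θ, -, h2⟩ := k.hom t g
  have a := card_im_dvd θ (Ea p (im f (JE p ⊤)) A)
  rw [h2, card_top, card_sl2] at a
  refine h6 (Dvd.dvd.trans ?_ (a.trans ((card_dvd_of_le t.E_le).trans ((card_im_dvd f _).trans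
    (card_subgroup_dvd_card _)))))
  rcases k.p23 t with rfl | rfl <;> decide

end

theorem tf_of_not_six' {G : Type u} [Group G] [Finite G] {p : ℕ} [hp : Fact p.Prime] {L : Subgroup G}
    (hs : PSol p L) (h6 : ¬ 6 ∣ Nat.card L) : TF p L := by
  let f := QuotientGroup.mk' (pPrimeCore p L)
  have e : (⊤ : Subgroup L).map f = ⊤ := map_top_of_surjective f (QuotientGroup.mk'_surjective _)
  have s : PSol p (⊤ : Subgroup L) := PSol.of_map_injective L.subtype_injective (by
    rwa [← MonoidHom.range_eq_map, range_subtype])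
  refine tf_iff'.2 (tf_top_iff.1 ((tf_map_iff f (by
    rw [QuotientGroup.ker_mk', inf_top_eq]; exact pPrimeCore_cop p)).1 ?_))
  rw [e]
  exact tf_of_not_six (e ▸ s.map f) (by rw [Op'_top, pPrimeCore_quotient])
    fun h => h6 (h.trans (card_quotient_dvd_card _))

theorem hallpq {p q : ℕ} [hp : Fact p.Prime] [hq : Fact q.Prime] (n : ℕ) :
    ∀ (G : Type u) [Group G] [Finite G], Nat.card G = n → PSol p (⊤ : Subgroup G) →
      ∃ L : Subgroup G, IsPiNum {p, q} (Nat.card L) ∧ IsPiNum {p, q}ᶜ L.index := by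
  induction n using Nat.strong_induction_on with
  | _ n ih =>
  intro G _ _ hn hs
  rcases subsingleton_or_nontrivial G with hG | hG
  · exact ⟨⊥, by rw [card_bot]; exact isPiNum_one _, by
      rw [index_bot, Nat.card_of_subsingleton (1 : G)]; exact isPiNum_one _⟩
  have quot : ∀ (R : Subgroup G) [R.Normal], R ≠ ⊥ → ∃ L : Subgroup G, R ≤ L ∧
      IsPiNum {p, q} (R.relIndex L) ∧ IsPiNum {p, q}ᶜ L.index := by
    intro R _ h0
    have fs := QuotientGroup.mk'_surjective R
    obtain ⟨L, l1, l2⟩ := ih _ (by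
      rw [← hn, card_eq_card_quotient_mul_card_subgroup R]
      exact lt_mul_of_one_lt_right Nat.card_pos ((one_lt_card_iff_ne_bot R).2 h0)) (G ⧸ R) rfl
      (map_top_of_surjective _ fs ▸ hs.map (QuotientGroup.mk' R))
    refine ⟨L.comap (QuotientGroup.mk' R), (QuotientGroup.ker_mk' R).ge.trans (ker_le_comap _ _), ?_,
      by rwa [index_comap_of_surjective L fs]⟩
    have e := relIndex_ker (L.comap (QuotientGroup.mk' R)) (QuotientGroup.mk' R)
    rw [QuotientGroup.ker_mk', map_comap_eq_self_of_surjective fs] at e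
    rwa [e]
  have lift : ∀ (R : Subgroup G) [R.Normal], R ≠ ⊥ → IsPiNum {p, q} (Nat.card R) →
      ∃ L : Subgroup G, IsPiNum {p, q} (Nat.card L) ∧ IsPiNum {p, q}ᶜ L.index := by
    intro R _ h0 h1
    obtain ⟨L, l1, l2, l3⟩ := quot R h0
    exact ⟨L, H1.card_mul_relIndex l1 ▸ h1.mul l2, l3⟩
  obtain ⟨N, m1, m2, -, m4⟩ := exists_minimal_normal_le (⊤ : Subgroup G) top_ne_bot
  rcases psol_min hs m2 m4 with h | h
  · exact lift N m2 ((isPGroup_iff_isPiNum.1 h).mono (by simp))
  obtain ⟨Q, hQ⟩ := exists_syl (p := q) N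
  have pi : ∀ X : Subgroup G, Q ≤ X → X ≤ N → IsPiNum {p, q}ᶜ (X.relIndex N) := fun X a b r hr hd => by
    rintro (rfl | rfl)
    · exact cop_iff.1 h (hd.trans (relIndex_dvd_card X N))
    · exact hQ.not_dvd_of_le' a hd
  by_cases e : normalizer (Q : Set G) = ⊤
  · haveI := normalizer_eq_top_iff.1 e
    by_cases e0 : Q = ⊥
    swap
    · exact lift Q e0 ((isPGroup_iff_isPiNum.1 hQ.isP).mono (by simp))
    have c := pi ⊥ e0.le bot_le
    rw [relIndex_bot_left] at c
    obtain ⟨L, l1, l2, l3⟩ := quot N m2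
    obtain ⟨A, a1, -, -, a4⟩ := exists_complement_rel l1 le_normalizer_of_normal (l2.coprime c).symm
    refine ⟨A, a4 ▸ l2, ?_⟩
    rw [← relIndex_mul_index a1]
    refine IsPiNum.mul ?_ l3
    have e1 := H1.card_mul_relIndex a1
    rw [← H1.card_mul_relIndex l1, ← a4, mul_comm] at e1
    rwa [Nat.eq_of_mul_eq_mul_right Nat.card_pos e1]
  · set X := normalizer (Q : Set G)
    obtain ⟨L, l1, l2⟩ := ih _ (by rw [← hn, ← card_top (G := G)]; exact card_lt_of_lt (lt_top_iff_ne_top.2 e))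
      X rfl (PSol.of_map_injective X.subtype_injective (hs.mono le_top))
    refine ⟨L.map X.subtype, by rwa [card_map_of_injective X.subtype_injective], ?_⟩
    rw [index_map_subtype]
    refine l2.mul ?_
    have fr := hQ.frattini le_top (top_le_normalizer N)
    rw [top_inf_eq, sup_comm] at fr
    rw [← relIndex_top_right, ← fr, relIndex_sup_of_le le_rfl le_normalizer_of_normal, ← inf_relIndex_right]
    exact pi _ (le_inf Subgroup.le_normalizer hQ.le) inf_le_right

theorem hallpq_rel {G : Type u} [Group G] [Finite G] {p q : ℕ} [hp : Fact p.Prime] [hq : Fact q.Prime]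
    {X P : Subgroup G} (hs : PSol p X) (hP : Syl p P X) :
    ∃ L ≤ X, P ≤ L ∧ IsPiNum {p, q} (Nat.card L) ∧ ∃ Q ≤ L, Syl q Q X := by
  obtain ⟨L, l1, l2⟩ := hallpq (p := p) (q := q) _ X rfl (PSol.of_map_injective X.subtype_injective (by
    rwa [← MonoidHom.range_eq_map, range_subtype]))
  have e : (L.map X.subtype).relIndex X = L.index := by
    rw [relIndex, subgroupOf, comap_map_eq_self_of_injective X.subtype_injective]
  obtain ⟨S, hS⟩ := exists_syl (p := p) (L.map X.subtype)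
  obtain ⟨Q, hQ⟩ := exists_syl (p := q) (L.map X.subtype)
  have s := hS.trans_index (map_subtype_le L) fun d => l2 p hp.out (e ▸ d) (by simp)
  have t := hQ.trans_index (map_subtype_le L) fun d => l2 q hq.out (e ▸ d) (by simp)
  obtain ⟨g, hg, rfl⟩ := s.conj hP
  refine ⟨cj g (L.map X.subtype), (cj_mono g (map_subtype_le L)).trans (cj_eq_of_mem hg).le, cj_mono g hS.le, ?_,
    cj g Q, cj_mono g hQ.le, t.cj_of_mem (Subgroup.le_normalizer hg)⟩
  rwa [card_cj, card_map_of_injective X.subtype_injective]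

end H1
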