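import Cfsg.Agent.H1.Tr2
import Cfsg.Agent.H2.Fus13

/-! H1.HW: the Hall-Wielandt transfer theorem. -/

open Pointwise Cfsg Subgroup
open scoped commutatorElement

namespace H1

universe u

variable {G : Type u} [Group G] [Finite G] {p : ℕ} [hp : Fact p.Prime]

theorem Op_eq_of_inf_eq {P H : Subgroup G} (hP : H2.IsSylowIn p P H)
    (h : P ⊓ H2.Op p H = P ⊓ H2.Op p ⊤) : H2.Op p H = H2.Op p ⊤ ⊓ H := by
  refine le_antisymm (le_inf (H2.Op_mono p le_top) (H2.Op_le p H)) ?_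
  have hn : (H2.Op p (⊤ : Subgroup G)).Normal := by rw [H2.Op_top]; infer_instance
  have h1 : H2.IsSylowIn p (P ⊓ (H2.Op p ⊤ ⊓ H)) (H2.Op p ⊤ ⊓ H) :=
    hP.inf_of_le_normalizer inf_le_right
      (le_normalizer_inf le_normalizer_of_normal (le_normalizer_of_le hP.le))
  rw [← h1.Op_sup]
  refine sup_le (H2.Op_mono p inf_le_right) ?_
  rw [← inf_assoc, ← h]
  exact inf_le_left.trans inf_le_right

theorem hw_aux (P : Sylow p G) {Q : Subgroup G} (hQ : IsWeaklyClosed Q (P : Subgroup G))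
    (h : ∀ u ∈ (P : Subgroup G), ∀ z ∈ Q, (fun y : G => y⁻¹ * z⁻¹ * y * z)^[p - 1] u = 1)
    {A : Type*} [CommGroup A] (hA : ∀ a : A, a ^ p = 1) {θ : G → A}
    {H : Subgroup G} (hH : H = normalizer (Q : Set G)) (hθ : H2.HomOn H θ) [Fintype (G ⧸ H)]
    (h1 : ∀ x ∈ (P : Subgroup G), ∏ y, θ (H2.hc H x y) = 1) :
    ∀ x ∈ (P : Subgroup G), θ x = 1 := by
  classical
  have hPH : (P : Subgroup G) ≤ H := hH ▸ le_normalizer.trans (H2.weaklyClosed_normalizer hQ)
  have hS := H2.sylow_isSylowIn P hPH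
  have hcj : ∀ g ∈ H, ∀ x ∈ H, θ (g * x * g⁻¹) = θ x := fun g hg x hx => by
    rw [hθ.map_conj hg hx, mul_comm (θ g), mul_inv_cancel_right]
  by_contra hcon
  push Not at hcon
  have h3 : ∃ n, ∃ x ∈ (P : Subgroup G), θ x ≠ 1 ∧ orderOf x = n :=
    hcon.elim fun x hx => ⟨_, x, hx.1, hx.2, rfl⟩
  obtain ⟨u, hu, hu1, hu2⟩ := Nat.find_spec h3
  have hmin : ∀ x ∈ H, (∃ k, orderOf x = p ^ k) → orderOf x < orderOf u → θ x = 1 :=
    fun x hx hk hlt => by
      by_contra h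
      obtain ⟨g, hg, hgx⟩ := (IsSylowIn.mk hS.le hS.pgroup hS.not_dvd).exists_conj_mem hx hk
      exact Nat.find_min h3 (hu2 ▸ hlt) ⟨_, hgx, by rwa [hcj g hg x hx], orderOf_conj _ _⟩
  set D := zpowers u ⊔ Q with hD
  have hDP : D ≤ P := sup_le (zpowers_le.2 hu) hQ.1
  have hDp : IsPGroup p D := P.isPGroup'.to_le hDP
  have hfix : ∀ y : G ⧸ H, (∀ d ∈ Q, d • y = y) → y = ((1 : G) : G ⧸ H) := by
    intro y hy
    obtain ⟨g, rfl⟩ := QuotientGroup.mk_surjective y
    have h4 : H2.cj g⁻¹ Q ≤ H := H2.cj_le_iff_forall.2 fun d hd => by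
      simpa using H2.smul_coe_eq_iff.1 (hy d hd)
    obtain ⟨k, hk, h5⟩ := hS.exists_cj_le (H2.isPGroup_cj (P.isPGroup'.to_le hQ.1) g⁻¹) h4
    rw [← H2.cj_mul] at h5
    have h6 : k * g⁻¹ ∈ H := hH ▸ H2.cj_eq_iff.1 (hQ.2 _ h5)
    rw [QuotientGroup.eq]
    simpa using mul_mem (inv_mem hk) h6
  have c : H2.Cocy (⊤ : Subgroup G) Finset.univ (fun g (y : G ⧸ H) => θ (H2.hc H g y)) :=
    ⟨fun _ _ _ _ => Finset.mem_univ _, fun d _ e _ y _ => by
      rw [H2.hc_mul, hθ _ (H2.hc_mem _ _ _) _ (H2.hc_mem _ _ _)]⟩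
  have hone : ∀ d ∈ H, d • ((1 : G) : G ⧸ H) = ((1 : G) : G ⧸ H) := fun d hd =>
    H2.smul_coe_eq_iff.2 (by simpa using hd)
  have e := h1 u hu
  rw [← Finset.mul_prod_erase _ _ (Finset.mem_univ ((1 : G) : G ⧸ H)),
    H2.hc_of_fix (hone u (hPH hu))] at e
  have hout : ((1 : G) : G ⧸ H).out ∈ H := by
    have := QuotientGroup.eq.1 (QuotientGroup.out_eq' ((1 : G) : G ⧸ H)).symm
    simpa using this
  have e2 := hcj _ (inv_mem hout) u (hPH hu)
  rw [inv_inv] at e2
  rw [e2] at e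
  obtain ⟨D₁, d1, d2, d3, l, hl, d5, a, ha, hne⟩ := H2.yoshida_core hDp
    (Y₁ := Finset.univ.erase ((1 : G) : G ⧸ H))
    (c.mono le_top (Finset.subset_univ _) fun d hd y hy => by
      simp only [Finset.mem_erase, Finset.mem_univ, and_true] at hy ⊢
      intro h'
      exact hy (by rw [← inv_smul_smul d y, h', hone _ (inv_mem (hPH (hDP hd)))]))
    (fun y hy h' => (Finset.mem_erase.1 hy).1 (hfix y fun d hd => h' d (mem_sup_right hd)))
    (u := u) (mem_sup_left (mem_zpowers u)) (fun h' => hu1 (by rwa [h', mul_one] at e))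
    (fun w hw hlt y _ hy => by
      rw [H2.hc_of_fix hy]
      refine hmin _ (H2.smul_eq_iff_out.1 hy) ?_ ?_
      · rw [orderOf_conj']; exact exists_orderOf_eq_pow hDp hw
      · rwa [orderOf_conj'])
  -- replace `a` by an element of `Q`
  have hlc : ∀ d ∈ D₁, ∀ x ∈ D₁, l (d⁻¹ * x * d) = l x := fun d hd x hx => by
    have := hl.map_conj (inv_mem hd) hx
    rwa [inv_inv, mul_comm (l d⁻¹), mul_inv_cancel_right] at this
  obtain ⟨z, hz, hza⟩ : ∃ z ∈ Q, z⁻¹ * a ∈ D₁ := by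
    have : D₁ ⊔ Q = D := le_antisymm (sup_le d1 le_sup_right)
      (sup_le (le_sup_of_le_left (zpowers_le.2 d5)) le_sup_right)
    rw [← this, sup_comm] at ha
    obtain ⟨z, hz, d, hd, rfl⟩ := (mem_sup_of_le_normalizer_right (le_sup_right.trans d3)).1 ha
    exact ⟨z, hz, by simpa using hd⟩
  have hzD : z ∈ D := mem_sup_right hz
  have hconj : ∀ i : ℕ, ∀ x ∈ D₁, (z ^ i)⁻¹ * x * z ^ i ∈ D₁ := fun i x hx =>
    conj_mem_of_mem_normalizer' (d3 (pow_mem hzD i)) hx
  have hzi : ∀ i : ℕ, (z ^ i)⁻¹ * a ^ i ∈ D₁ := fun i => by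
    induction i with
    | zero => simp
    | succ i ih =>
      have := mul_mem (conj_mem_of_mem_normalizer' (d3 hzD) ih) hza
      convert this using 1
      rw [pow_succ, pow_succ]; group
  have hne' : ∏ i ∈ Finset.range p, l ((z ^ i)⁻¹ * u * z ^ i) ≠ 1 := by
    convert hne using 2 with i
    rw [← hlc _ (hzi i) _ (hconj i u d5)]
    congr 1; group
  let c : G → G := fun y => y⁻¹ * z⁻¹ * y * z
  have hc : ∀ n, c^[n] u ∈ D₁ := fun n => by
    induction n with
    | zero => exact d5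
    | succ n ih =>
      rw [Function.iterate_succ_apply']
      have := mul_mem (inv_mem ih) (conj_mem_of_mem_normalizer' (d3 hzD) ih)
      simpa [c, mul_assoc] using this
  have hv : ∀ n, (fun i => l ((z ^ i)⁻¹ * c^[n] u * z ^ i)) =
      (fun (w : ℕ → A) i => (w i)⁻¹ * w (i + 1))^[n] fun i => l ((z ^ i)⁻¹ * u * z ^ i) := fun n => by
    induction n with
    | zero => rfl
    | succ n ih =>
      rw [Function.iterate_succ_apply', Function.iterate_succ_apply', ← ih]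
      ext i
      rw [← hl.map_inv (hconj i _ (hc n)), ← hl _ (D₁.inv_mem (hconj i _ (hc n))) _ (hconj _ _ (hc n))]
      congr 1
      simp only [c, pow_succ']; group
  have := congrFun (hv (p - 1)) 0
  rw [H2.norm_eq_iter hA, show c^[p - 1] u = 1 from h u hu z hz] at this
  exact hne' (by rw [← this]; simpa using hl.map_one)

/-- Hall-Wielandt -/
theorem hall_wielandt (P : Sylow p G) {Q : Subgroup G} (hQ : IsWeaklyClosed Q (P : Subgroup G))
    (h : ∀ u ∈ (P : Subgroup G), ∀ z ∈ Q, (fun y : G => y⁻¹ * z⁻¹ * y * z)^[p - 1] u = 1) :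
    H2.Op p (normalizer (Q : Set G)) = H2.Op p ⊤ ⊓ normalizer (Q : Set G) := by
  classical
  set H := normalizer (Q : Set G) with hH
  have hPH : (P : Subgroup G) ≤ H := le_normalizer.trans (H2.weaklyClosed_normalizer hQ)
  have hS := H2.sylow_isSylowIn P hPH
  refine Op_eq_of_inf_eq hS (H2.tate_group' (H2.isSylowIn_top P) hPH le_top fun x hx => ?_)
  have hn : H ≤ normalizer ((H2.Op p H ⊔ ⁅H, H⁆ : Subgroup G) : Set G) :=
    le_normalizer_sup (le_normalizer.trans (H2.normalizer_le_normalizer_Op p H))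
      (le_normalizer_commutator le_normalizer le_normalizer)
  obtain ⟨A, _, θ, hθ, hk, hs⟩ := H2.exists_abq (S := H)
    (L := H2.Phi (P : Subgroup G) ⊔ (H2.Op p H ⊔ ⁅H, H⁆)) (le_sup_right.trans le_sup_right)
  have hA : ∀ a : A, a ^ p = 1 := fun a => by
    obtain ⟨g, hg, rfl⟩ := hs a
    rw [← hS.Op_sup] at hg
    obtain ⟨c, hc, u, hu, rfl⟩ := (mem_sup_of_le_normalizer_left (hPH.trans
      (le_normalizer.trans (H2.normalizer_le_normalizer_Op p H)))).1 hg
    have hc' := H2.Op_le p H hc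
    rw [hθ _ hc' _ (hPH hu), (hk c hc').2 (mem_sup_right (mem_sup_left hc)), one_mul,
      ← hθ.map_pow (hPH hu), hk _ (pow_mem (hPH hu) p)]
    exact mem_sup_left (H2.pow_mem_Phi P.isPGroup' hu)
  have := Fintype.ofFinite (G ⧸ H)
  have c : ∀ {θ : G → A}, H2.HomOn H θ →
      H2.Cocy (⊤ : Subgroup G) Finset.univ (fun g (y : G ⧸ H) => θ (H2.hc H g y)) := fun hθ =>
    ⟨fun _ _ _ _ => Finset.mem_univ _, fun d _ e _ y _ => by
      rw [H2.hc_mul, hθ _ (H2.hc_mem _ _ _) _ (H2.hc_mem _ _ _)]⟩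
  let V : G →* A := MonoidHom.mk' (fun g => ∏ y, θ (H2.hc H g y)) fun a b =>
    (c hθ).prod_mul trivial trivial
  have hV : H2.HomOn H V := fun a _ b _ => V.map_mul a b
  have hθ' : H2.HomOn H (fun x => θ x ^ H.index * (V x)⁻¹) := fun x hx y hy => by
    simp only [hθ x hx y hy, map_mul, mul_pow, mul_inv]; ac_rfl
  have key := hw_aux P hQ h hA hH hθ' (fun g _ => by
    rw [Finset.prod_mul_distrib, Finset.prod_pow, Finset.prod_inv_distrib,
      (c hV).prod_eq_pow V (fun a _ b _ => V.map_mul a b) (fun d _ y _ hy => by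
        rw [H2.hc_of_fix hy, map_mul, map_mul, map_inv, mul_comm (V _)⁻¹, inv_mul_cancel_right])
        (d := g) trivial, Finset.card_univ, ← Nat.card_eq_fintype_card]
    exact mul_inv_cancel _) x hx.1
  have hVx : V x = 1 := H2.pResidual_le_ker (fun a => ⟨1, by simpa using hA a⟩) V
    (by rw [← H2.Op_top]; exact hx.2)
  rw [hVx, inv_one, mul_one] at key
  have hi : ¬ p ∣ H.index := fun hd => P.not_dvd_index (hd.trans (index_dvd_of_le hPH))
  have hx1 : θ x = 1 := H2.eq_one_of_pow_of_coprime (n := H.index) (k := 1) (by simpa using key)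
    (((Nat.Prime.coprime_iff_not_dvd hp.out).2 hi).coprime_dvd_left
      (orderOf_dvd_of_pow_eq_one (hA _)))
  have h5 := mem_inf.2 ⟨(hk x (hPH hx.1)).1 hx1, hx.1⟩
  rw [dedekind_left (H2.Phi_le _) (Or.inl (((H2.Phi_le _).trans hPH).trans hn)), inf_comm,
    hS.inf_Op_sup_commutator, ← hS.inf_commutator] at h5
  exact h5

theorem engel_mem_lcs {P : Subgroup G} {u z : G} (hu : u ∈ P) (hz : z ∈ P) (n : ℕ) :
    (fun y : G => y⁻¹ * z⁻¹ * y * z)^[n] u ∈ P.lowerCentralSeries n := by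
  induction n with
  | zero => exact hu
  | succ n ih =>
    rw [Function.iterate_succ_apply']
    simpa [commutatorElement_def] using commutator_mem_commutator (inv_mem ih) (inv_mem hz)

end H1
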