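import Cfsg.Agent.H1.ES

/-! H1.Heis: Heisenberg groups. -/

open Pointwise Cfsg Subgroup Matrix
open scoped commutatorElement

namespace H1

variable {G : Type*} [Group G] {p m : ℕ} {Q : Subgroup G} {z : G}

theorem XP.map {G' : Type*} [Group G'] (h : XP p m Q z) {f : G →* G'} (hf : Function.Injective f) :
    XP p m (Q.map f) (f z) := by
  refine ⟨⟨mem_map_of_mem f h.mem, by rw [orderOf_injective f hf, h.ord], ?_, ?_⟩, ?_,
    by rw [card_map_of_injective hf, h.cd]⟩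
  · rintro _ ⟨x, hx, rfl⟩
    exact (h.cen x hx).map f
  · rintro _ ⟨x, hx, rfl⟩ _ ⟨y, hy, rfl⟩
    rw [← map_commutatorElement, ← MonoidHom.map_zpowers]
    exact mem_map_of_mem f (h.comm x hx y hy)
  · rintro _ ⟨x, hx, rfl⟩ h1
    rw [← MonoidHom.map_zpowers]
    exact mem_map_of_mem f (h.nd x hx fun y hy => (h1 _ (mem_map_of_mem f hy)).of_map hf)

theorem heis [hp : Fact p.Prime] (hz : (Fin m → ZMod p) → (Fin m → ZMod p) → ZMod p → G)
    (h1 : ∀ a b c a' b' c', hz a b c * hz a' b' c' = hz (a + a') (b + b') (c + c' + a ⬝ᵥ b'))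
    (h2 : ∀ a b c a' b' c', hz a b c = hz a' b' c' → a = a' ∧ b = b' ∧ c = c')
    (hQ : ∀ g, g ∈ Q ↔ ∃ a b c, g = hz a b c) :
    XP p m Q (hz 0 0 1) ∧ (p ≠ 2 → ∀ g ∈ Q, g ^ p = 1) := by
  have h0 : hz 0 0 0 = 1 := mul_left_cancel (a := hz 0 0 0) (by rw [h1]; simp)
  have h3 : ∀ a b c (k : ℕ), hz a b c ^ k = hz (k • a) (k • b) (k * c + k.choose 2 * a ⬝ᵥ b) := by
    intro a b c k
    induction k with
    | zero => simp [h0]
    | succ k ih =>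
      rw [pow_succ, ih, h1, succ_nsmul, succ_nsmul, Nat.choose_succ_succ', smul_dotProduct]
      congr 1
      simp; ring
  have h4 : ∀ a b c a' b' c', ⁅hz a b c, hz a' b' c'⁆ = hz 0 0 (a ⬝ᵥ b' - a' ⬝ᵥ b) := by
    intro a b c a' b' c'
    rw [commutatorElement_def, mul_inv_eq_iff_eq_mul, mul_inv_eq_iff_eq_mul, h1, h1, h1]
    congr 1 <;> simp <;> ring
  have h5 : ∀ c, hz 0 0 c ∈ zpowers (hz 0 0 1) := fun c =>
    ⟨c.val, (zpow_natCast _ _).trans (by simp [h3])⟩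
  refine ⟨⟨⟨(hQ _).2 ⟨_, _, _, rfl⟩, orderOf_eq_prime (by simp [h3, h0]) fun e => one_ne_zero
    (h2 _ _ _ _ _ _ (e.trans h0.symm)).2.2, fun x hx => ?_, fun x hx y hy => ?_⟩, fun x hx h6 => ?_,
    ?_⟩, fun h6 x hx => ?_⟩
  · obtain ⟨a, b, c, rfl⟩ := (hQ x).1 hx
    rw [← cm_iff, h4]; simp [h0]
  · obtain ⟨a, b, c, rfl⟩ := (hQ x).1 hx
    obtain ⟨a', b', c', rfl⟩ := (hQ y).1 hy
    exact h4 .. ▸ h5 _
  · obtain ⟨a, b, c, rfl⟩ := (hQ x).1 hx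
    have h7 := fun a' b' => (h2 _ _ _ _ _ _ ((h4 ..).symm.trans ((cm_iff.2 (h6 _ ((hQ _).2
      ⟨a', b', 0, rfl⟩))).trans h0.symm))).2.2
    obtain rfl : a = 0 := funext fun i => by simpa using h7 0 (Pi.single i 1)
    obtain rfl : b = 0 := funext fun i => by simpa using h7 (Pi.single i 1) 0
    exact h5 c
  · rw [← Nat.card_congr (Equiv.ofBijective (fun x : (Fin m → ZMod p) × (Fin m → ZMod p) × ZMod p =>
      (⟨hz x.1 x.2.1 x.2.2, (hQ _).2 ⟨_, _, _, rfl⟩⟩ : Q)) ⟨fun x y e => by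
        obtain ⟨e1, e2, e3⟩ := h2 _ _ _ _ _ _ (congrArg Subtype.val e)
        exact Prod.ext e1 (Prod.ext e2 e3), fun ⟨x, hx⟩ => by
        obtain ⟨a, b, c, rfl⟩ := (hQ x).1 hx
        exact ⟨(a, b, c), rfl⟩⟩)]
    simp; ring
  · obtain ⟨a, b, c, rfl⟩ := (hQ x).1 hx
    rw [h3, (ZMod.natCast_eq_zero_iff _ _).2 (L.dvd_choose_two (hp.out.odd_of_ne_two h6)), ← h0]
    congr 1 <;> simp [funext_iff]

end H1
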