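import Cfsg.Agent.H1.Q5
import Cfsg.Agent.H1.Q1
import Cfsg.Agent.H1.Q4

/-! H1.KJ: the Konvisser-Jonah counting theorem for elementary abelian subgroups of rank four. -/

open Pointwise Cfsg Subgroup H9
open scoped commutatorElement

namespace H1

universe u

variable {G : Type u} [Group G] [Finite G] {p : ℕ} [hp : Fact p.Prime]

theorem card_le_cent {C W : Subgroup G} {x : G} (h : ∀ g ∈ C, ⁅x, g⁆ ∈ W) :
    Nat.card C ≤ Nat.card (C ⊓ centralizer {x} : Subgroup G) * Nat.card W := by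
  have c := relIndex_mul_relIndex ⊥ (C ⊓ centralizer {x}) C bot_le inf_le_left
  rw [inf_relIndex_left, relIndex_bot_left, relIndex_bot_left] at c
  exact c ▸ Nat.mul_le_mul_left _ (L.relIndex_centralizer_le h)

theorem kj_step (hG : IsPGroup p (⊤ : Subgroup G)) (he : ∀ x : G, x ^ p = 1) {Z : Subgroup G} (h : ∀ x y : G, ⁅x, y⁆ ∈ Z)
    (k : ℕ) : ∀ Y C : Subgroup G, Y ≤ C → Y ≤ centralizer (C : Set G) → Nat.card Y * p ^ k = p ^ 4 →
    p ^ 4 * Nat.card Z ^ k ≤ Nat.card C * Nat.card Z → ∃ A : Subgroup G, IsMulCommutative A ∧ Nat.card A = p ^ 4 := by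
  induction k with
  | zero => exact fun Y C h1 h2 h3 _ => ⟨Y, L.comm_of_le_centralizer (h2.trans (centralizer_le h1)), by simpa using h3⟩
  | succ k ih =>
    intro Y C h1 h2 h3 h4
    have z : 0 < Nat.card Z := Nat.card_pos
    rw [pow_succ (Nat.card Z), ← mul_assoc] at h4
    have h5 := Nat.le_of_mul_le_mul_right h4 z
    obtain ⟨x, hx, x1⟩ := exists_not_mem_of_card (A := Y) (B := C) (lt_of_lt_of_le (h3 ▸ lt_mul_of_one_lt_right
      Nat.card_pos (Nat.one_lt_pow k.succ_ne_zero hp.out.one_lt)) ((Nat.le_mul_of_pos_right _ (by positivity)).trans h5))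
    have xc : x ∈ centralizer (Y : Set G) := le_centralizer_iff.1 h2 hx
    refine ih (Y ⊔ zpowers x) (C ⊓ centralizer {x}) (sup_le (le_inf h1 fun y hy => mem_centralizer_singleton_iff.2
      (xc y hy)) (zpowers_le.2 ⟨hx, mem_centralizer_singleton_iff.2 rfl⟩)) (sup_le (h2.trans (centralizer_le inf_le_left))
      (zpowers_le.2 fun y hy => mem_centralizer_singleton_iff.1 hy.2)) ?_ (h5.trans (card_le_cent fun g _ => h x g))
    rw [card_sup_zp hG le_top trivial (Subgroup.centralizer_le_normalizer _ xc) (he x ▸ one_mem _) x1, ← h3]; ring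

theorem kj_key (hG : IsPGroup p (⊤ : Subgroup G)) (he : ∀ x : G, x ^ p = 1) {Z : Subgroup G} (h : ∀ x y : G, ⁅x, y⁆ ∈ Z)
    (hZ : Z ≤ centralizer ((⊤ : Subgroup G) : Set G)) (h3 : Nat.card Z < p ^ 4) (h7 : p ^ 7 ≤ Nat.card G * Nat.card Z) :
    ∃ A : Subgroup G, IsMulCommutative A ∧ Nat.card A = p ^ 4 := by
  have p1 := hp.out.one_lt
  obtain ⟨z, hz⟩ := L.exists_card_eq_pow (hG.to_le (le_top (a := Z)))
  obtain ⟨n, hn⟩ := L.exists_card_eq_pow hG
  have hn' := hn
  rw [card_top] at hn'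
  rw [hz, Nat.pow_lt_pow_iff_right p1] at h3
  rw [hz, hn', ← pow_add, Nat.pow_le_pow_iff_right p1] at h7
  by_cases c : 4 + z * (4 - z) ≤ n + z
  · refine kj_step hG he h (4 - z) Z ⊤ le_top hZ (by rw [hz, ← pow_add]; congr 1; omega) ?_
    rw [hz, hn, ← pow_mul, ← pow_add, ← pow_add]
    exact Nat.pow_le_pow_right p1.le c
  obtain ⟨rfl, rfl⟩ : z = 2 ∧ n = 5 := by interval_cases z <;> omega
  obtain ⟨W, w1, w2⟩ := L.exists_le_card (hG.to_le (le_top (a := Z))) 1 (hz ▸ Nat.pow_le_pow_right p1.le one_le_two)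
  have : W.Normal := ⟨fun w hw g => by rw [hZ (w1 hw) g trivial, mul_inv_cancel_right]; exact hw⟩
  obtain ⟨z, z1, z2⟩ := exists_not_mem_of_card (A := W) (B := Z) (by rw [w2, hz]; exact Nat.pow_lt_pow_right p1 one_lt_two)
  have e : W ⊔ zpowers z = Z := eq_of_le_of_card_ge (sup_le w1 (zpowers_le.2 z1)) (by
    rw [card_sup_zp hG le_top trivial (nrm ⊤ W trivial) (he z ▸ one_mem _) z2, w2, hz, ← pow_succ])
  have l : ∀ y ∈ Z, (y : G ⧸ W) ∈ zpowers (z : G ⧸ W) := fun y hy => by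
    have : Z.map (QuotientGroup.mk' W) ≤ zpowers (z : G ⧸ W) := by
      rw [← e, Subgroup.map_sup, QuotientGroup.map_mk'_self, bot_sup_eq, MonoidHom.map_zpowers]; rfl
    exact this ⟨y, hy, rfl⟩
  have ws : WS p (⊤ : Subgroup (G ⧸ W)) z := by
    refine ⟨trivial, orderOf_eq_prime (by rw [← QuotientGroup.mk_pow, he]; rfl)
      (mt (QuotientGroup.eq_one_iff z).1 z2), fun x _ => ?_, fun x _ y _ => ?_⟩
    · obtain ⟨x, rfl⟩ := QuotientGroup.mk_surjective x
      exact congrArg (QuotientGroup.mk (s := W)) (hZ z1 x trivial)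
    · obtain ⟨x, rfl⟩ := QuotientGroup.mk_surjective x
      obtain ⟨y, rfl⟩ := QuotientGroup.mk_surjective y
      exact l _ (h x y)
  obtain ⟨u, u1, u2⟩ : ∃ u : G, (∀ y : G ⧸ W, Commute (u : G ⧸ W) y) ∧ u ∉ Z := by
    by_contra t
    push Not at t
    obtain ⟨r, hr⟩ := ws.card
    have c := card_eq_card_quotient_mul_card_subgroup W
    rw [ws.Z_eq fun x _ hx => by
      obtain ⟨x, rfl⟩ := QuotientGroup.mk_surjective x
      exact l x (t x fun y => hx y trivial), ws.card_zp, card_top] at hr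
    rw [hr, w2, hn', ← pow_succ', ← pow_add] at c
    have := Nat.pow_right_injective p1 c
    omega
  have c := card_le_cent (C := ⊤) (W := W) (x := u) fun g _ => (QuotientGroup.eq_one_iff _).1
    (commutatorElement_eq_one_iff_commute.2 (u1 g))
  have uc : u ∈ centralizer (Z : Set G) := le_centralizer_iff.1 hZ trivial
  refine kj_step hG he h 1 (Z ⊔ zpowers u) (⊤ ⊓ centralizer {u}) (sup_le (le_inf le_top fun y hy =>
    mem_centralizer_singleton_iff.2 (uc y hy)) (zpowers_le.2 ⟨trivial, mem_centralizer_singleton_iff.2 rfl⟩))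
    (sup_le (hZ.trans (centralizer_le inf_le_left)) (zpowers_le.2 fun y hy => mem_centralizer_singleton_iff.1 hy.2)) ?_ ?_
  · rw [card_sup_zp hG le_top trivial (Subgroup.centralizer_le_normalizer _ uc) (he u ▸ one_mem _) u2, hz]; ring
  · rw [hn, w2, pow_one, pow_succ p 4] at c
    rw [pow_one (Nat.card Z)]
    exact Nat.mul_le_mul_right _ (Nat.le_of_mul_le_mul_right c p1.le)

theorem kj_line (hp2 : p ≠ 2) {A B N : Subgroup G} (hA : FT.El p 4 A ⊤) (hB : FT.El p 4 B ⊤)
    (h1 : A ≤ normalizer (B : Set G)) (h2 : B ≤ normalizer (A : Set G)) (h3 : A ⊓ B ≤ N) (h4 : N ≤ A ⊔ B)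
    (h5 : Nat.card (A ⊔ B : Subgroup G) ≤ p * Nat.card N) : ∃ C, FT.El p 4 C N := by
  by_cases e : A ≤ B
  · exact ⟨A, hA.of_le ((le_inf le_rfl e).trans h3)⟩
  have c1 : A ⊓ B ≤ centralizer ((A ⊔ B : Subgroup G) : Set G) := le_centralizer_iff.1 (sup_le
    (hA.le_centralizer.trans (centralizer_le inf_le_left)) (hB.le_centralizer.trans (centralizer_le inf_le_right)))
  have n1 := normalizer_inf Subgroup.le_normalizer h1
  have n2 := normalizer_inf h2 Subgroup.le_normalizer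
  have c0 : ⁅A, B⁆ ≤ A ⊓ B := le_inf (commutator_le_left' h2) ((commutator_comm _ _).le.trans (commutator_le_left' h1))
  have c2 : ⁅A ⊔ B, A ⊔ B⁆ ≤ A ⊓ B := H9.commutator_sup_le n1 n2
    (commutator_sup_le' n1 n2 ((commutator_eq_bot_iff_le_centralizer.2 hA.le_centralizer).le.trans bot_le) c0)
    (commutator_sup_le' n1 n2 ((commutator_comm _ _).le.trans c0)
      ((commutator_eq_bot_iff_le_centralizer.2 hB.le_centralizer).le.trans bot_le))
  have ex : ∀ x ∈ N, x ^ p = 1 := fun x hx => L.omegaOne_exp_class2 (hp.out.odd_of_ne_two hp2)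
    (commutator_eq_bot_iff_le_centralizer.2 (c2.trans c1))
    (sup_le (hA.of_le le_sup_left).le_omegaOne (hB.of_le le_sup_right).le_omegaOne (h4 hx))
  have cz : Nat.card ((A ⊓ B).subgroupOf N) = Nat.card (A ⊓ B : Subgroup G) :=
    Nat.card_congr (subgroupOfEquivOfLe h3).toEquiv
  obtain ⟨C, k1, k2⟩ := kj_key (G := N) (p := p) (Z := (A ⊓ B).subgroupOf N) (fun x => ⟨1, Subtype.ext (Subtype.ext (by
    rw [pow_one]; exact ex _ x.1.2))⟩) (fun x => Subtype.ext (ex x x.2))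
    (fun x y => c2 (commutator_mem_commutator (h4 x.2) (h4 y.2))) (fun x hx y _ => Subtype.ext (c1 hx y (h4 y.2)))
    (by
      rw [cz, ← hA.card]
      exact card_lt_of_lt (lt_of_le_of_ne inf_le_left fun t => e (t.ge.trans inf_le_right)))
    (by
      have := (fac_of_normalizer (.inl h1)).card
      rw [hA.card, hB.card] at this
      refine Nat.le_of_mul_le_mul_left ?_ hp.out.pos
      rw [cz, ← mul_assoc]
      exact le_trans (le_of_eq (by rw [this]; ring)) (Nat.mul_le_mul_right _ h5))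
  exact ⟨C.map N.subtype, map_subtype_le _, ⟨inferInstance, fun x hx => ex x (map_subtype_le _ hx)⟩,
    (card_map_of_injective N.subtype_injective).trans k2⟩

theorem exists_hom_zp {Q : Type*} [Group Q] [Finite Q] (hQ : IsPGroup p Q) {R : Subgroup Q} (h : R ≠ ⊤) :
    ∃ ψ : Q →* Multiplicative (ZMod p), R ≤ ψ.ker ∧ ψ ≠ 1 := by
  obtain ⟨N, h1, h2⟩ := (eq_top_or_exists_le_coatom R).resolve_left h
  have := hQ.isNilpotent
  have := Subgroup.NormalizerCondition.normal_of_coatom N Group.normalizerCondition_of_isNilpotent h1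
  have h3 := prime_index_of_normal_coatom h1
  obtain ⟨n, h4⟩ := hQ.index N
  have h5 : N.index = p := by
    rw [h4] at h3 ⊢; rw [h3.eq_one_of_pow, pow_one]
  have e := mulEquivOfPrimeCardEq (G := Q ⧸ N) (G' := Multiplicative (ZMod p)) (p := p) h5 (by simp)
  have h6 : (e.toMonoidHom.comp (QuotientGroup.mk' N)).ker = N := by ext; simp
  exact ⟨_, h6.symm ▸ h2, fun t => h1.1 (by rw [← h6, t, MonoidHom.ker_one])⟩

theorem exists_nrm_of_card {H : Subgroup G} (hH : IsPGroup p H) (S : Subgroup G → Prop)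
    (h : ∀ g ∈ H, ∀ A, S A → S (cj g A)) (hc : ¬ p ∣ Nat.card {A // S A}) : ∃ A, S A ∧ H ≤ normalizer (A : Set G) := by
  let _ : MulAction H {A // S A} :=
    { smul := fun g A => ⟨cj g A.1, h g g.2 _ A.2⟩
      one_smul := fun A => Subtype.ext (cj_one _)
      mul_smul := fun g k A => Subtype.ext (cj_mul _ _ _) }
  obtain ⟨A, hA⟩ := hH.nonempty_fixed_point_of_prime_not_dvd_card {A // S A} hc
  exact ⟨A.1, A.2, fun g hg => mem_normalizer_iff_cj.2 (congrArg Subtype.val (hA ⟨g, hg⟩))⟩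

theorem kj_count (hp2 : p ≠ 2) (H : Subgroup G) (hH : IsPGroup p H) (h0 : ∃ A, FT.El p 4 A H) :
    (Nat.card {A // FT.El p 4 A H} : ZMod p) = 1 := by
  classical
  induction H using WellFoundedLT.induction with | _ H ih
  by_cases e : FT.El p 4 H H
  · rw [(Nat.card_eq_one_iff_exists (α := {A // FT.El p 4 A H})).2 ⟨⟨H, e⟩, fun A => Subtype.ext (A.2.eq_of_le e A.2.le)⟩,
      Nat.cast_one]
  have fin : Finite (H →* Multiplicative (ZMod p)) := Finite.of_injective _ DFunLike.coe_injective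
  have := Fintype.ofFinite (H →* Multiplicative (ZMod p))
  have := Fintype.ofFinite {A // FT.El p 4 A H}
  have dv : ∀ S : Subgroup (H →* Multiplicative (ZMod p)), S ≠ ⊥ → (Nat.card S : ZMod p) = 0 := fun S t => by
    obtain ⟨n, hn⟩ := L.exists_card_eq_pow (p := p) (P := S) fun φ => ⟨1, Subtype.ext (MonoidHom.ext fun x => by
      rw [pow_one]; exact (by simpa using pow_card_eq_one' (x := φ.1 x) : φ.1 x ^ p = 1))⟩
    rcases n with _ | n
    · exact absurd (eq_bot_of_card_eq _ hn) t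
    · rw [hn, pow_succ, Nat.cast_mul, ZMod.natCast_self, mul_zero]
  have lt : ∀ φ : H →* Multiplicative (ZMod p), φ ≠ 1 → kr φ < H := fun φ t => lt_of_le_of_ne (kr_le φ) fun s =>
    t (MonoidHom.ext fun x => (coe_mem_kr φ).1 (s.ge x.2))
  have k1 : kr (1 : H →* Multiplicative (ZMod p)) = H := le_antisymm (kr_le _) fun x hx => (mem_kr _).2 ⟨hx, rfl⟩
  have km : ∀ φ ψ : H →* Multiplicative (ZMod p), kr φ ⊓ kr ψ ≤ kr (φ * ψ) := fun φ ψ x hx => by
    obtain ⟨h, e1⟩ := (mem_kr _).1 hx.1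
    obtain ⟨_, e2⟩ := (mem_kr _).1 hx.2
    exact (mem_kr _).2 ⟨h, by rw [MonoidHom.mul_apply, e1, e2, one_mul]⟩
  have ki : ∀ φ : H →* Multiplicative (ZMod p), kr φ ≤ kr φ⁻¹ := fun φ x hx =>
    let ⟨h, e1⟩ := (mem_kr _).1 hx; (mem_kr _).2 ⟨h, by rw [MonoidHom.inv_apply, e1, inv_one]⟩
  let S : {A // FT.El p 4 A H} → Subgroup (H →* Multiplicative (ZMod p)) := fun A =>
    { carrier := {φ | A.1 ≤ kr φ}
      one_mem' := A.2.le.trans k1.ge
      mul_mem' := fun a b => (le_inf a b).trans (km _ _)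
      inv_mem' := fun a => a.trans (ki _) }
  have nS : ∀ A, S A ≠ ⊥ := fun A t => by
    obtain ⟨ψ, a, b⟩ := exists_hom_zp hH (R := A.1.subgroupOf H) fun s =>
      e (by have := A.2; rwa [le_antisymm A.2.le (subgroupOf_eq_top.1 s)] at this)
    exact b (t.le (show ψ ∈ S A from fun x hx => (mem_kr _).2 ⟨A.2.le hx, a hx⟩))
  have nr : ∀ φ : H →* Multiplicative (ZMod p), φ ≠ 1 → (∃ A, FT.El p 4 A (kr φ)) →
      ∃ A, FT.El p 4 A (kr φ) ∧ H ≤ normalizer (A : Set G) := fun φ t s =>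
    exists_nrm_of_card hH _ (fun g hg A hA => hA.cj_of_mem (le_normalizer_kr φ hg)) fun d =>
      zero_ne_one (((ZMod.natCast_eq_zero_iff _ _).2 d).symm.trans (ih _ (lt φ t) (hH.to_le (kr_le φ)) s))
  let Y : Subgroup (H →* Multiplicative (ZMod p)) :=
    { carrier := {φ | ∃ A, FT.El p 4 A (kr φ)}
      one_mem' := by simpa only [Set.mem_setOf_eq, k1] using h0
      inv_mem' := fun ⟨A, a⟩ => ⟨A, a.mono (ki _)⟩
      mul_mem' := fun {φ ψ} a b => by
        by_cases e1 : φ = 1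
        · rwa [e1, one_mul]
        by_cases e2 : ψ = 1
        · rwa [e2, mul_one]
        obtain ⟨A, a1, a2⟩ := nr φ e1 a
        obtain ⟨B, b1, b2⟩ := nr ψ e2 b
        have lA := a1.le.trans (kr_le φ)
        have lB := b1.le.trans (kr_le ψ)
        obtain ⟨C, hC⟩ := kj_line hp2 (N := kr (φ * ψ) ⊓ (A ⊔ B)) (a1.mono le_top) (b1.mono le_top) (lA.trans b2)
          (lB.trans a2) (le_inf ((inf_le_inf a1.le b1.le).trans (km _ _)) (inf_le_left.trans le_sup_left)) inf_le_right (by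
            rw [card_eq_card_im_mul (φ * ψ) (sup_le lA lB)]
            exact Nat.mul_le_mul_right _ ((card_le_card_group _).trans (by simp)))
        exact ⟨C, hC.mono inf_le_left⟩ }
  have s1 : ∑ φ : H →* Multiplicative (ZMod p), (Nat.card {A // FT.El p 4 A (kr φ)} : ZMod p) = 0 := by
    calc _ = ∑ φ : H →* Multiplicative (ZMod p), ∑ A, if φ ∈ S A then (1 : ZMod p) else 0 := by
          refine Finset.sum_congr rfl fun φ _ => ?_
          rw [Finset.sum_boole, ← Fintype.card_subtype, ← Nat.card_eq_fintype_card]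
          exact congrArg _ (Nat.card_congr ⟨fun A => ⟨⟨A.1, A.2.mono (kr_le φ)⟩, A.2.le⟩,
            fun A => ⟨A.1.1, A.1.2.of_le A.2⟩, fun _ => rfl, fun _ => rfl⟩)
      _ = 0 := by
          rw [Finset.sum_comm]
          refine Finset.sum_eq_zero fun A _ => ?_
          rw [Finset.sum_boole, ← Fintype.card_subtype, ← Nat.card_eq_fintype_card]
          exact dv _ (nS A)
  have s2 : ∑ φ : H →* Multiplicative (ZMod p), (if φ ∈ Y then (1 : ZMod p) else 0) = 0 := by
    rw [Finset.sum_boole, ← Fintype.card_subtype, ← Nat.card_eq_fintype_card]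
    obtain ⟨A, hA⟩ := h0
    exact dv _ fun t => nS ⟨A, hA⟩ (le_bot_iff.1 (le_trans (fun φ s => show φ ∈ Y from ⟨A, hA.of_le s⟩) t.le))
  rw [← Finset.add_sum_erase _ _ (Finset.mem_univ 1)] at s1 s2
  rw [k1] at s1
  rw [if_pos Y.one_mem, Finset.sum_congr rfl (g := fun φ => (Nat.card {A // FT.El p 4 A (kr φ)} : ZMod p))
    fun φ hφ => ?_] at s2
  · exact add_right_cancel (s1.trans s2.symm)
  split_ifs with t
  · exact (ih _ (lt φ (Finset.ne_of_mem_erase hφ)) (hH.to_le (kr_le φ)) t).symm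
  · exact ((congrArg Nat.cast (Nat.card_eq_zero.2 (.inl ⟨fun A => t ⟨A.1, A.2⟩⟩))).trans Nat.cast_zero).symm

theorem kj (hp2 : p ≠ 2) {H E : Subgroup G} (hH : IsPGroup p H) (h : FT.El p 4 E H) :
    ∃ A, FT.El p 4 A H ∧ H ≤ normalizer (A : Set G) :=
  exists_nrm_of_card hH _ (fun _ hg _ hA => hA.cj_of_mem (Subgroup.le_normalizer hg)) fun d =>
    zero_ne_one (((ZMod.natCast_eq_zero_iff _ _).2 d).symm.trans (kj_count hp2 H hH ⟨E, h⟩))

end H1
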