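import Cfsg.Agent.H1.Sol2
import Cfsg.Agent.H1.FC

/-! Linear algebra for groups with three automorphism orbits. -/

namespace H1
open Polynomial Module

section
variable {p q : ℕ} [hp : Fact p.Prime] [hq : Fact q.Prime] {V : Type*} [AddCommGroup V] [Module (ZMod p) V]
  [Finite V] {T : End (ZMod p) V}

theorem aeval_conj {A : V ≃ₗ[ZMod p] V} {S : End (ZMod p) V} (h : ∀ v, A (T v) = S (A v))
    (f : (ZMod p)[X]) (v : V) : A (aeval T f v) = aeval S f (A v) := by
  induction f using Polynomial.induction_on generalizing v with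
  | C a => simp
  | add f g h1 h2 => simp [h1, h2]
  | monomial n a ih =>
    rw [pow_succ, ← mul_assoc, map_mul, map_mul (aeval S), aeval_X, aeval_X, End.mul_apply, End.mul_apply, ih, h]

theorem aeval_cyclotomic (h1 : T ^ q = 1) (h2 : ∀ v, T v = v → v = 0) :
    aeval T (cyclotomic q (ZMod p)) = 0 := by
  ext v
  have e := congrArg (fun f => aeval T f v) (cyclotomic_prime_mul_X_sub_one (ZMod p) q)
  simp only [mul_comm (cyclotomic q (ZMod p)), map_mul, map_sub, aeval_X, map_one, map_pow, h1, sub_self,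
    End.mul_apply, LinearMap.sub_apply, End.one_apply, LinearMap.zero_apply] at e
  exact h2 _ (sub_eq_zero.1 e)

theorem orderOf_unit (hpq : p ≠ q) : orderOf (ZMod.unitOfCoprime (p ^ 1)
    (((Nat.coprime_primes hp.out hq.out).2 hpq).pow_left 1)) = orderOf (p : ZMod q) := by
  rw [← orderOf_units]; simp

theorem orderOf_of_trans [Nontrivial V] (hpq : p ≠ q) (h1 : T ^ q = 1) (h2 : ∀ v, T v = v → v = 0)
    (ha : ∀ k, 0 < k → k < q → ∃ A : V ≃ₗ[ZMod p] V, ∀ v, A (T v) = (T ^ k) (A v))
    (hb : ∀ v w : V, v ≠ 0 → w ≠ 0 → ∃ (A : V ≃ₗ[ZMod p] V) (k : ℕ), A v = w ∧ 0 < k ∧ k < q ∧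
      ∀ v, A (T v) = (T ^ k) (A v)) : orderOf (p : ZMod q) = q - 1 := by
  have hT : IsIntegral (ZMod p) T := Algebra.IsIntegral.isIntegral T
  set μ := minpoly (ZMod p) T with hμ
  have hd : μ ∣ cyclotomic q (ZMod p) := minpoly.dvd _ _ (aeval_cyclotomic h1 h2)
  obtain ⟨f, hf, g, hg⟩ := WfDvdMonoid.exists_irreducible_factor (minpoly.not_isUnit (ZMod p) T)
    (minpoly.ne_zero hT)
  have hg0 : aeval T g ≠ 0 := fun e => by
    have h3 := minpoly.dvd _ _ e
    rw [hg] at h3
    have h4 : g ≠ 0 := fun e => minpoly.ne_zero hT (by rw [hg, e, mul_zero])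
    exact hf.not_isUnit (isUnit_of_dvd_one ((mul_dvd_mul_iff_right h4).1 (by rwa [one_mul])))
  obtain ⟨v, hv⟩ : ∃ v, aeval T g v ≠ 0 := by
    by_contra hc
    push Not at hc
    exact hg0 (LinearMap.ext hc)
  have hfv : aeval T f (aeval T g v) = 0 := by
    rw [← End.mul_apply, ← map_mul, ← hg, minpoly.aeval, LinearMap.zero_apply]
  obtain ⟨w, hw⟩ := Module.exists_ker_toSpanSingleton_eq_annihilator (R := (ZMod p)[X])
    (M := Module.AEval' T)
  rw [Module.AEval.annihilator_eq_ker_aeval] at hw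
  have hw' : ∀ r : (ZMod p)[X], aeval T r ((Module.AEval'.of T).symm w) = 0 → aeval T r = 0 := fun r hr =>
    hw.le (show r • w = 0 from hr)
  have key : ∀ k, 0 < k → k < q → ∀ r : (ZMod p)[X], aeval T r = 0 ↔ aeval (T ^ k) r = 0 := by
    intro k k0 kq r
    obtain ⟨A, hA⟩ := ha k k0 kq
    constructor
    · intro h
      ext x
      obtain ⟨x, rfl⟩ := A.surjective x
      rw [← aeval_conj hA, h]; simp
    · intro h
      ext x
      apply A.injective
      rw [aeval_conj hA, h]; simp
  obtain ⟨A, k, hA, k0, kq, hA'⟩ := hb (aeval T g v) ((Module.AEval'.of T).symm w) hv fun e => by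
    have := hw' 1 (by rw [e, map_zero])
    rw [map_one] at this
    exact one_ne_zero this
  have h5 : aeval T f = 0 := by
    rw [key k k0 kq, ← aeval_X (R := ZMod p) T, ← map_pow, ← aeval_comp]
    apply hw'
    rw [aeval_comp, map_pow, aeval_X, ← hA, ← aeval_conj hA', hfv, map_zero]
  have hirr : Irreducible μ :=
    (associated_of_dvd_dvd (Dvd.intro _ hg.symm) (minpoly.dvd _ _ h5)).irreducible hf
  rw [← orderOf_unit hpq, ← natDegree_of_dvd_cyclotomic_of_irreducible (f := 1) (by simp)
    ((Nat.coprime_primes hp.out hq.out).2 hpq) hd hirr]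
  apply le_antisymm
  · have := natDegree_le_of_dvd hd (cyclotomic_ne_zero _ _)
    rwa [natDegree_cyclotomic, Nat.totient_prime hq.out] at this
  · classical
    haveI := Fact.mk hirr
    haveI : NeZero (q : ZMod p) := ⟨fun e => hpq ((Nat.prime_dvd_prime_iff_eq hp.out hq.out).1
      ((ZMod.natCast_eq_zero_iff _ _).1 e))⟩
    haveI : NeZero (q : AdjoinRoot μ) := NeZero.of_injective (algebraMap (ZMod p) (AdjoinRoot μ)).injective
    have hζ : IsPrimitiveRoot (AdjoinRoot.root μ) q := by
      rw [← isRoot_cyclotomic_iff, ← map_cyclotomic q (algebraMap (ZMod p) (AdjoinRoot μ)), IsRoot.def,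
        eval_map_algebraMap, AdjoinRoot.aeval_eq, AdjoinRoot.mk_eq_zero]
      exact hd
    have h6 : (Finset.Ioo 0 q).image (AdjoinRoot.root μ ^ ·) ⊆ (μ.aroots (AdjoinRoot μ)).toFinset := by
      intro y hy
      obtain ⟨k, hk, rfl⟩ := Finset.mem_image.1 hy
      rw [Finset.mem_Ioo] at hk
      rw [Multiset.mem_toFinset, mem_aroots]
      refine ⟨hirr.ne_zero, ?_⟩
      have : μ ∣ μ.comp (X ^ k) := minpoly.dvd _ _ (by
        rw [aeval_comp, map_pow, aeval_X, ← key k hk.1 hk.2]; exact minpoly.aeval _ _)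
      rw [← AdjoinRoot.mk_eq_zero, ← AdjoinRoot.aeval_eq, aeval_comp, map_pow, aeval_X] at this
      exact this
    have h7 := (Finset.card_le_card h6).trans ((Multiset.toFinset_card_le _).trans (card_roots' _))
    rw [Finset.card_image_of_injOn (fun a ha b hb e => hζ.pow_inj (Finset.mem_Ioo.1 ha).2
      (Finset.mem_Ioo.1 hb).2 e), Nat.card_Ioo, natDegree_map] at h7
    exact h7

theorem trans_of_orderOf (hpq : p ≠ q) (h1 : T ^ q = 1) (h2 : ∀ v, T v = v → v = 0)
    (ho : orderOf (p : ZMod q) = q - 1) :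
    (∀ k, ¬ q ∣ k → ∃ A : V ≃+ V, ∀ v, A (T v) = (T ^ k) (A v)) ∧
    ∀ v w : V, v ≠ 0 → w ≠ 0 → ∃ A : V ≃+ V, A v = w ∧ ∀ v, A (T v) = T (A v) := by
  have hirr : Irreducible (cyclotomic q (ZMod p)) :=
    irreducible_of_dvd_cyclotomic_of_natDegree (f := 1) (by simp) ((Nat.coprime_primes hp.out hq.out).2 hpq)
      dvd_rfl (by rw [orderOf_unit hpq, ho, natDegree_cyclotomic, Nat.totient_prime hq.out])
  haveI := Fact.mk hirr
  let K := AdjoinRoot (cyclotomic q (ZMod p))
  let φ : K →+* End (ZMod p) V := Ideal.Quotient.lift _ (aeval T).toRingHom fun a ha => by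
    obtain ⟨c, rfl⟩ := Ideal.mem_span_singleton'.1 ha
    simp [aeval_cyclotomic h1 h2]
  letI : Module K V := Module.compHom V φ
  have hζ : ∀ v : V, (AdjoinRoot.root _ : K) • v = T v := fun v => by
    show aeval T (X : (ZMod p)[X]) v = _
    rw [aeval_X]
  have hk : ∀ (k : ℕ) (v : V), (AdjoinRoot.root _ ^ k : K) • v = (T ^ k) v := fun k v => by
    induction k generalizing v with
    | zero => simp
    | succ k ih => rw [pow_succ, mul_smul, hζ, ih, pow_succ, End.mul_apply]
  haveI : Module.Finite K V := Module.Finite.of_finite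
  constructor
  · intro k hk'
    haveI := (cyclotomic.monic q (ZMod p)).finite_adjoinRoot
    haveI : Finite K := Module.finite_of_finite (ZMod p)
    haveI : CharP K p := charP_of_injective_algebraMap (algebraMap (ZMod p) K).injective p
    have hp0 : (p : ZMod q) ≠ 0 := fun e => hpq ((Nat.prime_dvd_prime_iff_eq hq.out hp.out).1
      ((ZMod.natCast_eq_zero_iff _ _).1 e)).symm
    have hk0 : (k : ZMod q) ≠ 0 := fun e => hk' ((ZMod.natCast_eq_zero_iff _ _).1 e)
    have : Subgroup.zpowers (Units.mk0 _ hp0) = ⊤ := Subgroup.eq_top_of_card_eq _ (by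
      rw [Nat.card_zpowers, ← orderOf_units, Units.val_mk0, ho, Nat.card_eq_fintype_card, ZMod.card_units])
    obtain ⟨j, hj⟩ := mem_powers_iff_mem_zpowers.2 (this.ge (Subgroup.mem_top (Units.mk0 _ hk0)))
    have hj' : p ^ j ≡ k [MOD q] := by
      rw [← ZMod.natCast_eq_natCast_iff]
      simpa using congrArg Units.val hj
    let σ : K ≃+* K := iterateFrobeniusEquiv K p j
    let b := (Module.finBasis K V).equivFun
    refine ⟨(b.toAddEquiv.trans (AddEquiv.piCongrRight fun _ => σ.toAddEquiv)).trans b.symm.toAddEquiv,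
      fun v => ?_⟩
    rw [pow_eq_pow_of_modEq hj'.symm h1, ← hk, ← hζ]
    show b.symm (fun i => σ (b (_ • v) i)) = _ • b.symm fun i => σ (b v i)
    rw [← map_smul, map_smul]
    congr 1
    ext i
    simp only [Pi.smul_apply, smul_eq_mul, map_mul]
    rfl
  · intro v w hv hw
    obtain ⟨A, hA⟩ := Submodule.exists_linearEquiv_restrict_eq
      ((LinearEquiv.toSpanNonzeroSingleton K V v hv).symm.trans (LinearEquiv.toSpanNonzeroSingleton K V w hw))
    refine ⟨A.toAddEquiv, ?_, fun x => ?_⟩
    · have := hA ⟨v, Submodule.mem_span_singleton_self v⟩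
      refine this.symm.trans ?_
      rw [← LinearEquiv.toSpanNonzeroSingleton_one K V v hv, LinearEquiv.trans_apply,
        LinearEquiv.symm_apply_apply, LinearEquiv.toSpanNonzeroSingleton_one]
    · rw [← hζ, ← hζ]
      exact map_smul A _ _

end

open Subgroup
variable {G : Type*} [Group G] [Finite G]

theorem same_orbit
    (h : Nat.card (MulAction.orbitRel.Quotient (MulAut G) G) ≤ (Nat.card G).primeFactors.card + 1)
    {x y : G} (e : orderOf x = orderOf y) : ∃ α : MulAut G, α x = y := by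
  classical
  haveI := Fintype.ofFinite (MulAction.orbitRel.Quotient (MulAut G) G)
  let o : MulAction.orbitRel.Quotient (MulAut G) G → ℕ := Quotient.lift orderOf (by
    rintro a b ⟨α, rfl⟩
    exact orderOf_injective α.toMonoidHom α.injective _)
  have h1 : insert 1 (Nat.card G).primeFactors ⊆ Finset.univ.image o := fun n hn => by
    obtain ⟨g, hg⟩ := exists_orderOf_of_mem_insert hn
    exact Finset.mem_image.2 ⟨Quotient.mk _ g, Finset.mem_univ _, hg⟩
  have h2 := Finset.card_le_card h1
  rw [Finset.card_insert_of_notMem (one_notMem_primeFactors _)] at h2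
  have h3 := (Finset.card_image_iff (s := Finset.univ) (f := o)).1 (le_antisymm Finset.card_image_le (by
    rw [Finset.card_univ, ← Nat.card_eq_fintype_card]; exact h.trans h2))
  exact Quotient.exact (h3 (Finset.mem_univ (Quotient.mk _ y)) (Finset.mem_univ (Quotient.mk _ x)) e.symm)

theorem aut_of_pair {P : Subgroup G} [P.Normal] {x : G} (hc : IsComplement' P (zpowers x)) (A : MulAut P)
    {k : ℕ} (hk : k.Coprime (orderOf x))
    (h : ∀ u : P, (A (MulAut.conjNormal x u) : G) = x ^ k * A u * (x ^ k)⁻¹) :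
    ∃ α : MulAut G, α x = x ^ k ∧ ∀ u : P, α u = A u := by
  let f₂ : zpowers x →* G := MonoidHom.mk' (fun y => (y : G) ^ k) fun a b =>
    Commute.mul_pow (congrArg Subtype.val (mul_comm' a b)) k
  have h2 : ∀ (i : ℕ) (u : P), (A (MulAut.conjNormal (x ^ i) u) : G) = (x ^ i) ^ k * A u * ((x ^ i) ^ k)⁻¹ := by
    intro i
    induction i with
    | zero => simp
    | succ i ih =>
      intro u
      rw [pow_succ', map_mul, MulAut.mul_apply, h, ih, (Commute.self_pow x i).mul_pow]
      group
  let e := SemidirectProduct.mulEquivSubgroup hc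
  let φ := (SemidirectProduct.lift (φ := (P.normalizerMonoidHom).comp (inclusion (P.normalizer_eq_top ▸ le_top)))
    (P.subtype.comp A.toMonoidHom) f₂ (by
      rintro ⟨y, hy⟩
      obtain ⟨i, rfl⟩ := mem_powers_iff_mem_zpowers.2 hy
      ext u
      exact h2 i u)).comp e.symm.toMonoidHom
  have e1 : ∀ u : P, φ u = A u := fun u => by
    have : e.symm u = SemidirectProduct.inl u := e.symm_apply_eq.2 (by simp [e])
    simp [φ, this]
  have e2 : φ x = x ^ k := by
    have : e.symm x = SemidirectProduct.inr ⟨x, mem_zpowers x⟩ := e.symm_apply_eq.2 (by simp [e])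
    simp [φ, this, f₂]
  have hs : Function.Surjective φ := by
    rw [← MonoidHom.range_eq_top, eq_top_iff, ← hc.sup_eq_top]
    refine sup_le (fun u hu => ⟨A.symm ⟨u, hu⟩, by rw [e1]; simp⟩) (zpowers_le.2 ?_)
    obtain ⟨j, hj⟩ := exists_pow_eq_self_of_coprime hk
    exact ⟨x ^ j, by rw [map_pow, e2, hj]⟩
  exact ⟨MulEquiv.ofBijective φ (Finite.surjective_iff_bijective.1 hs), e2, e1⟩

end H1
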