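import Cfsg.Agent.H1.ES
import Cfsg.Agent.H5.SL2Tor
import Cfsg.Agent.H9.Sec

/-! H1.PX3: Sylow subgroups `p^{1+2}` with radical planes; action of the normalizer on the projective line. -/

set_option autoImplicit false

namespace H1.PX

open Matrix OnePoint Multiplicative H5

theorem L1 {P N : Type*} [Group P] [Group N] {p : ℕ} [Fact p.Prime] (π : P →* Multiplicative (Fin 2 → ZMod p))
    (hs : Function.Surjective π) (ρ : N →* MulAut P) (hk : ∀ n u, π u = 1 → π (ρ n u) = 1) :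
    ∃ φ : N →* GL2 (ZMod p), ∀ n u, toAdd (π (ρ n u)) = (φ n : Matrix _ _ _) *ᵥ toAdd (π u) := by
  have ex : ∀ n, ∃ M : Matrix (Fin 2) (Fin 2) (ZMod p), ∀ u, toAdd (π (ρ n u)) = M *ᵥ toAdd (π u) := fun n =>
    ⟨LinearMap.toMatrix' ((AddMonoidHom.toMultiplicative.symm (π.liftOfSurjective hs
      ⟨π.comp (ρ n).toMonoidHom, fun u hu => hk n u hu⟩)).toZModLinearMap p), fun u => by
      rw [LinearMap.toMatrix'_mulVec]; simp⟩
  choose M hM using ex
  have un : ∀ A B : Matrix (Fin 2) (Fin 2) (ZMod p), (∀ u, A *ᵥ toAdd (π u) = B *ᵥ toAdd (π u)) → A = B :=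
    fun A B h => Matrix.toLin'.injective (LinearMap.ext fun v => by
      obtain ⟨u, hu⟩ := hs (ofAdd v)
      simpa [hu] using h u)
  exact ⟨MonoidHom.toHomUnits ⟨⟨M, un _ _ fun u => by rw [← hM, map_one, one_mulVec]; rfl⟩, fun a b => un _ _ fun u => by
    rw [← hM, ← mulVec_mulVec, ← hM, ← hM, map_mul]; rfl⟩, hM⟩

section
variable {F : Type*} [Field F] {v w : Fin 2 → F}

open Classical in
noncomputable def pt (v : Fin 2 → F) : OnePoint F := if v 1 = 0 then ∞ else (v 0 / v 1 : F)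

theorem ne0 (hv : v ≠ 0) (z : v 1 = 0) : v 0 ≠ 0 := fun e => hv (by ext i; fin_cases i <;> simp [e, z])

theorem pt_fix (M : GL2 F) (hv : v ≠ 0) {μ : F} (e : (M : Matrix _ _ _) *ᵥ v = μ • v) : mkG M • pt v = pt v := by
  obtain ⟨a, b, c, d, h, rfl⟩ := exists_gl2 M
  change pg a b c d h • _ = _
  have e0 := congrFun e 0
  have e1 := congrFun e 1
  simp [mulVec, dotProduct, Fin.sum_univ_two] at e0 e1
  unfold pt
  split_ifs with z
  · rw [pg_infty_eq_iff]
    simpa [z, ne0 hv z] using e1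
  · rw [pg_coe_eq_iff]
    field_simp
    linear_combination v 1 * e0 - v 0 * e1

theorem pt_eq (hv : v ≠ 0) (e : pt v = pt w) : ∃ t : F, w = t • v := by
  unfold pt at e
  split_ifs at e with a b b
  · exact ⟨w 0 / v 0, by ext i; fin_cases i <;> simp [a, b, ne0 hv a]⟩
  · exact absurd e (infty_ne_coe _)
  · exact absurd e (coe_ne_infty _)
  · have := coe_eq_coe.1 e
    refine ⟨w 1 / v 1, ?_⟩
    ext i; fin_cases i
    · simp only [Fin.zero_eta, Pi.smul_apply, smul_eq_mul]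
      field_simp at this ⊢
      linear_combination -this
    · simp [a]

theorem pt_smul {t : F} (ht : t ≠ 0) : pt (t • v) = pt v := by
  unfold pt
  by_cases e : v 1 = 0
  · simp [e]
  · simp [e, ht, mul_div_mul_left]

theorem pt_surj (x : OnePoint F) : ∃ v : Fin 2 → F, v ≠ 0 ∧ pt v = x := by
  induction x using OnePoint.rec with
  | infty => exact ⟨![1, 0], fun e => by simpa using congrFun e 0, by simp [pt]⟩
  | coe t => exact ⟨![t, 1], fun e => by simpa using congrFun e 1, by simp [pt]⟩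

variable [Fintype F] {W : Subgroup (PG F)}

theorem no_dih {n : ℕ} {T D : Subgroup (PG F)} (h : IsTor n T D) (hW : W ≤ D) {x : Fin 3 → OnePoint F}
    (hx : Function.Injective x) {g : Fin 3 → PG F} (h1 : ∀ i, g i ∈ W) (h2 : ∀ i, g i • x i = x i)
    (h3 : ∀ i, g i ^ 2 ≠ 1) : False := by
  have t : ∀ i, g i ∈ T := fun i => by_contra fun e => h3 i (by rw [pow_two]; exact h.inv _ (hW (h1 i)) e)
  haveI := h.cyc
  have c : ∀ i j, g i * g j = g j * g i := fun i j =>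
    congrArg Subtype.val (h.cyc.commGroup.mul_comm ⟨_, t i⟩ ⟨_, t j⟩)
  have f : ∀ i, g 0 ^ 2 • x i = x i := fun i => by
    have a : ∀ y : OnePoint F, g i • y = y → g i • g 0 • y = g 0 • y := fun y e => by rw [← mul_smul, c, mul_smul, e]
    rw [pow_two, mul_smul]
    by_contra e
    refine h3 i (by
      rw [pg_three (g i) (x i) (g 0 • x i) (g 0 • g 0 • x i) (fun e' => e (by rw [← e', ← e'])) (Ne.symm e)
        (fun e' => e (by rw [← e', ← smul_left_cancel _ e'])) (h2 i) (a _ (h2 i)) (a _ (a _ (h2 i))), one_pow])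
  exact h3 0 (pg_three _ _ _ _ (hx.ne (by decide : (0 : Fin 3) ≠ 1)) (hx.ne (by decide : (0 : Fin 3) ≠ 2))
    (hx.ne (by decide : (1 : Fin 3) ≠ 2)) (f 0) (f 1) (f 2))

end

theorem s4 : ∀ s : S4, s ^ 3 = 1 ∨ s ^ 4 = 1 := by decide +kernel
theorem a4 : ∀ s : S4, Equiv.Perm.sign s = 1 → s ^ 2 = 1 ∨ s ^ 3 = 1 := by decide +kernel
theorem a5 : ∀ s : Equiv.Perm (Fin 5), Equiv.Perm.sign s = 1 → s ^ 2 = 1 ∨ s ^ 3 = 1 ∨ s ^ 5 = 1 := by
  decide +kernel
theorem s4c : (Finset.univ.filter fun s : S4 => s ^ 2 = 1 ∧ Equiv.Perm.sign s = 1).card = 4 := by decide +kernel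

theorem pw {G H : Type*} [Group G] [Group H] {W : Subgroup G} (e : W ≃* H) {g : G} (h : g ∈ W) {k : ℕ}
    (a : e ⟨g, h⟩ ^ k = 1) : g ^ k = 1 := by
  rw [← map_pow, e.map_eq_one_iff] at a
  exact congrArg Subtype.val a

theorem fin3 {p : ℕ} [hp : Fact p.Prime] {W : Subgroup (PG (ZMod p))} (hW : ¬ p ∣ Nat.card W)
    {x : Fin 3 → OnePoint (ZMod p)} (hx : Function.Injective x)
    (h : ∀ i, ∃ g ∈ W, g • x i = x i ∧ ∀ k, g ^ k = 1 → p - 1 ∣ 3 * k) : p ≤ 13 ∧ p ≠ 11 := by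
  choose g h1 h2 h3 using h
  by_contra c
  have k : ∀ i k, 0 < k → k ≤ 5 → g i ^ k ≠ 1 := fun i k a b e => by
    have d := h3 i k e
    have := Nat.le_of_dvd (by omega) d
    have : p = 11 ∨ p = 14 ∨ p = 15 ∨ p = 16 := by omega
    rcases this with rfl | rfl | rfl | rfl
    · omega
    all_goals exact absurd hp.out (by norm_num)
  rcases dickson_ss' p hW with ⟨n, T, D, a, b⟩ | ⟨⟨e⟩⟩ | ⟨⟨e⟩⟩ | ⟨⟨e⟩⟩
  · exact no_dih a b hx h1 h2 fun i => k i 2 (by omega) (by omega)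
  · rcases a4 _ (e ⟨_, h1 0⟩).2 with a | a <;> exact k 0 _ (by omega) (by omega) (pw e (h1 0) (Subtype.ext a))
  · rcases s4 (e ⟨_, h1 0⟩) with a | a <;> exact k 0 _ (by omega) (by omega) (pw e (h1 0) a)
  · rcases a5 _ (e ⟨_, h1 0⟩).2 with a | a | a <;> exact k 0 _ (by omega) (by omega) (pw e (h1 0) (Subtype.ext a))

theorem finAll {p : ℕ} [hp : Fact p.Prime] {W : Subgroup (PG (ZMod p))} (hW : ¬ p ∣ Nat.card W)
    (h : ∀ x : OnePoint (ZMod p), ∃ g ∈ W, g • x = x ∧ ∀ k, g ^ k = 1 → p - 1 ∣ 3 * k) : p ≤ 7 := by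
  classical
  have hx : Function.Injective (![∞, ((0 : ZMod p) : OnePoint (ZMod p)),
      ((1 : ZMod p) : OnePoint (ZMod p))] : Fin 3 → _) := by
    intro i j; fin_cases i <;> fin_cases j <;> simp
  obtain ⟨a, b⟩ := fin3 hW hx fun i => h _
  by_contra c
  obtain rfl : p = 13 := by
    have := hp.out
    interval_cases p <;> first | rfl | exact absurd rfl b | exact absurd this (by norm_num)
  choose g h1 h2 h3 using h
  have k : ∀ i k, ¬ 4 ∣ k → g i ^ k ≠ 1 := fun i k a e => by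
    have d := h3 i k e
    omega
  rcases dickson_ss' 13 hW with ⟨n, T, D, a, b⟩ | ⟨⟨e⟩⟩ | ⟨⟨e⟩⟩ | ⟨⟨e⟩⟩
  · exact no_dih a b hx (fun i => h1 _) (fun i => h2 _) fun i => k _ 2 (by omega)
  · rcases a4 _ (e ⟨_, h1 ∞⟩).2 with a | a <;> exact k ∞ _ (by omega) (pw e (h1 ∞) (Subtype.ext a))
  · obtain ⟨s, -, hs⟩ := Finset.exists_lt_card_fiber_of_mul_lt_card_of_maps_to (s := Finset.univ)
      (t := Finset.univ.filter fun s : S4 => s ^ 2 = 1 ∧ Equiv.Perm.sign s = 1) (n := 2)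
      (f := fun x : ZMod 13 => e ⟨_, h1 x⟩ ^ 2) (fun x _ => by
        rcases s4 (e ⟨_, h1 x⟩) with a | a
        · exact absurd (pw e (h1 x) a) (k _ _ (by omega))
        · simp [← pow_mul, a]) (by rw [s4c]; simp)
    obtain ⟨x, y, z, a1, a2, a3, b1, b2, b3⟩ := Finset.two_lt_card_iff.1 hs
    have m : ∀ {u v : ZMod 13}, e ⟨_, h1 u⟩ ^ 2 = s → e ⟨_, h1 v⟩ ^ 2 = s → g u ^ 2 • (v : OnePoint (ZMod 13)) = v :=
      fun {u v} a b => by
      have := a.trans b.symm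
      rw [← map_pow, ← map_pow] at this
      rw [show g u ^ 2 = g v ^ 2 from congrArg Subtype.val (e.injective this), pow_two, mul_smul, h2, h2]
    simp only [Finset.mem_filter, Finset.mem_univ, true_and] at a1 a2 a3
    exact k x 2 (by omega) (pg_three _ _ _ _ (coe_injective.ne b1) (coe_injective.ne b2) (coe_injective.ne b3)
      (m a1 a1) (m a1 a2) (m a1 a3))
  · rcases a5 _ (e ⟨_, h1 ∞⟩).2 with a | a | a <;> exact k ∞ _ (by omega) (pw e (h1 ∞) (Subtype.ext a))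

open Subgroup H9
open scoped commutatorElement

variable {G : Type*} [Group G] [Finite G] {p : ℕ} [hp : Fact p.Prime] {P : Subgroup G} {z a : G}

def Rad (z a : G) : Prop := ∃ h : G, h * a * h⁻¹ = a ∧ h * z * h⁻¹ = z * a

theorem tri (hP : Syl p P ⊤) (h : XP p 1 P z) (he : ∀ x ∈ P, x ^ p = 1) (ha : a ∈ P) (h1 : a ∉ zpowers z)
    (hr : Rad z a) {r s : ℕ} (e : (r + 1) * (s + 1) ≡ 1 [MOD p]) :
    ∃ n ∈ normalizer (P : Set G), n * z * n⁻¹ = z ^ (r + 1) ∧ ∃ w ∈ zpowers z, n * a * n⁻¹ = w * a ^ (s + 1) := by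
  obtain ⟨t, t1, t2⟩ := hr
  obtain ⟨y, hy, ey⟩ := h.pair' ha h1
  have c : Commute z a := (h.cen a ha).symm
  let f : G →* MulAut G := MulAut.conj
  have u1 : f y⁻¹ z = z := by
    change y⁻¹ * z * y⁻¹⁻¹ = z
    rw [(h.cen _ (inv_mem hy)).eq, mul_inv_cancel_right]
  have u2 : f y⁻¹ a = z * a := by
    change y⁻¹ * a * y⁻¹⁻¹ = z * a
    rw [← u1, ← ey, commutatorElement_def]
    have := (h.cen _ (inv_mem hy)).eq
    rw [← ey, commutatorElement_def] at this
    change _ = y⁻¹ * _ * y⁻¹⁻¹ * a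
    have k := c.eq
    rw [← ey, commutatorElement_def] at k
    rw [this, mul_inv_cancel_right, k]
    calc _ = y⁻¹ * (a * y * a⁻¹ * y⁻¹) * (y * a) := by group
      _ = _ := by rw [this, k.symm]; group
  have v1 : ∀ k : ℕ, f (t ^ k) a = a := fun k => by
    induction k with
    | zero => simp
    | succ k ih => rw [pow_succ, map_mul, MulAut.mul_apply, show f t a = a from t1, ih]
  have v2 : ∀ k : ℕ, f (t ^ k) z = z * a ^ k := fun k => by
    induction k with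
    | zero => simp
    | succ k ih => rw [pow_succ, map_mul, MulAut.mul_apply, show f t z = z * a from t2, map_mul, ih, v1, pow_succ,
        mul_assoc]
  obtain ⟨g, g1, g2⟩ : ∃ g : G, g * z * g⁻¹ = z ^ (r + 1) ∧ g * a * g⁻¹ = z * a ^ (s + 1) := by
    refine ⟨t ^ s * y⁻¹ * t ^ r, ?_, ?_⟩
    · change f _ z = _
      have : a ^ (s + (s + 1) * r) = 1 := by
        rw [← pow_eq_pow_of_modEq (x := a) (n := p) (a := 0) ?_ (he a ha), pow_zero]
        refine Nat.ModEq.add_right_cancel' 1 ?_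
        rw [show s + (s + 1) * r + 1 = (r + 1) * (s + 1) by ring]
        exact e.symm
      simp only [map_mul, map_pow (f _), MulAut.mul_apply, v2, u1, u2, v1]
      rw [mul_assoc z _ a, ← pow_succ, (c.pow_right _).mul_pow, ← pow_mul, mul_assoc, ← mul_assoc (a ^ s),
        (c.pow_pow r s).symm.eq, mul_assoc, ← pow_add, this, mul_one, pow_succ']
    · change f _ a = _
      simp only [map_mul, MulAut.mul_apply, v2, u2, v1]
      rw [pow_succ, mul_assoc]
  set Z := zpowers z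
  set A := Z ⊔ zpowers a
  have AP : A ≤ P := sup_le h.zle (zpowers_le.2 ha)
  have nZ : H9.cj g Z = Z := eq_of_le_of_card_ge (by rw [cj_zpowers, g1]; exact zpowers_le.2 (pow_mem (mem_zpowers z) _))
    (H9.card_cj g Z).ge
  have mA : z * a ^ (s + 1) ∈ A := mul_mem (mem_sup_left (mem_zpowers z)) (mem_sup_right (pow_mem (mem_zpowers a) _))
  have nA : H9.cj g A = A := eq_of_le_of_card_ge (by
    rw [cj_sup, nZ, cj_zpowers, g2]; exact sup_le le_sup_left (zpowers_le.2 mA)) (H9.card_cj g A).ge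
  have cP : P ≤ centralizer (Z : Set G) := by
    rw [H9.centralizer_zpowers]; exact fun x hx => mem_centralizer_singleton_iff.2 (h.cen x hx)
  have cP' : H9.cj g P ≤ centralizer (Z : Set G) := by
    rw [← nZ, ← cj_centralizer]; exact cj_mono g cP
  have kP : ⁅P, A⁆ ≤ Z := commutator_le.2 fun x hx y hy => h.comm x hx y (AP hy)
  have kP' : ⁅H9.cj g P, A⁆ ≤ Z := by
    rw [← nA, ← cj_commutator, ← nZ]; exact cj_mono g kP
  have s' := hP.cj g
  rw [cj_eq_of_normal g ⊤] at s'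
  obtain ⟨k, k1, k2⟩ := (s'.mono le_sup_right le_top).conj (hP.mono le_sup_left le_top)
  have k3 : k * z = z * k := (sup_le cP cP' k1 z (mem_zpowers z)).symm
  have k4 := H9.commutator_sup_le (cP.trans (Subgroup.centralizer_le_normalizer _))
    (cP'.trans (Subgroup.centralizer_le_normalizer _)) kP kP' (commutator_mem_commutator k1 mA)
  refine ⟨k * g, mem_normalizer_iff_cj.2 (by rw [H9.cj_mul, k2]), ?_, _, mul_mem k4 (mem_zpowers z), ?_⟩
  · rw [show k * g * z * (k * g)⁻¹ = k * (g * z * g⁻¹) * k⁻¹ by group, g1, (Commute.pow_right k3 _).eq,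
      mul_inv_cancel_right]
  · rw [show k * g * a * (k * g)⁻¹ = k * (g * a * g⁻¹) * k⁻¹ by group, g2, commutatorElement_def]
    group

theorem core (hP : Syl p P ⊤) (h : XP p 1 P z) (he : ∀ x ∈ P, x ^ p = 1) :
    ∃ (W : Subgroup (PG (ZMod p))) (q : P → OnePoint (ZMod p)), ¬ p ∣ Nat.card W ∧
      (∀ a : P, a.1 ∉ zpowers z → Rad z a.1 → ∃ g ∈ W, g • q a = q a ∧ ∀ k, g ^ k = 1 → p - 1 ∣ 3 * k) ∧
      (∀ a b : P, a.1 ∉ zpowers z → q a = q b → b.1 ∈ zpowers z ⊔ zpowers a.1) ∧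
      ∀ x, ∃ a : P, a.1 ∉ zpowers z ∧ ∀ b : P, b ∈ zpowers a → b ≠ 1 → q b = x := by
  obtain ⟨x, hx, x1⟩ := h.exists_nc
  obtain ⟨y, hy, e⟩ := h.pair' hx x1
  have ε : zpowers z ≃* Multiplicative (ZMod p) := mulEquivOfPrimeCardEq h.card_zp (by simp)
  let B : P → P → ZMod p := fun u v => toAdd (ε ⟨⁅u.1, v.1⁆, h.comm _ u.2 _ v.2⟩)
  have B1 : ∀ u v w, B (u * v) w = B u w + B v w := fun u v w => by
    rw [add_comm, ← toAdd_mul, ← map_mul]
    exact congrArg (fun t => toAdd (ε t)) (Subtype.ext (cm_mul rfl (h.cc u.2 v.2 w.2)))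
  have B2 : ∀ u v, B u v = - B v u := fun u v => by
    rw [← toAdd_inv, ← map_inv]
    exact congrArg (fun t => toAdd (ε t)) (Subtype.ext (commutatorElement_inv _ _).symm)
  have B0 : ∀ u v, B u v = 0 ↔ Commute u.1 v.1 := fun u v => by
    rw [toAdd_eq_zero, ε.map_eq_one_iff, ← cm_iff, Subtype.ext_iff]; rfl
  let π : P →* Multiplicative (Fin 2 → ZMod p) := MonoidHom.mk' (fun u => ofAdd ![B u ⟨x, hx⟩, B u ⟨y, hy⟩])
    fun u v => by rw [← ofAdd_add, B1, B1]; simp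
  have k : ∀ u, π u = 1 ↔ u.1 ∈ zpowers z := fun u => by
    rw [← (h.CC hx hy e).zero, mem_CC, ← B0 u ⟨x, hx⟩, ← B0 u ⟨y, hy⟩]
    change ofAdd _ = 1 ↔ _
    rw [ofAdd_eq_one]
    simp
  have hs : Function.Surjective π := by
    have c := card_eq_card_quotient_mul_card_subgroup π.ker
    rw [Nat.card_congr (QuotientGroup.quotientKerEquivRange π).toEquiv, h.cd,
      show π.ker = (zpowers z).subgroupOf P from Subgroup.ext k,
      Nat.card_congr (subgroupOfEquivOfLe h.zle).toEquiv, h.card_zp, pow_succ] at c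
    refine MonoidHom.range_eq_top.1 (eq_top_of_card_eq _ ?_)
    rw [← Nat.eq_of_mul_eq_mul_right hp.out.pos c]
    simp
  have nZ : normalizer (P : Set G) ≤ normalizer (zpowers z : Set G) := by
    rw [← h.Z_eq h.nd]; exact H1.le_normalizer_inf le_rfl (normalizer_centralizer le_rfl)
  obtain ⟨φ, hφ⟩ := L1 π hs P.normalizerMonoidHom fun n u hu =>
    (k _).2 (conj_mem_of_le_normalizer nZ n.2 ((k u).1 hu))
  have B3 : ∀ u u' (s : ℕ) v, toAdd (π u') = s • toAdd (π u) → B u' v = s * B u v := fun u u' s v a => by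
    have b : π (u' * (u ^ s)⁻¹) = 1 := by
      rw [map_mul, map_inv, map_pow, mul_inv_eq_one]; exact toAdd.injective a
    have c : ∀ n : ℕ, B (u ^ n) v = n * B u v := fun n => by
      induction n with
      | zero => simpa using (B0 1 v).2 (Commute.one_left _)
      | succ n ih => rw [pow_succ, B1, ih]; push_cast; ring
    rw [← inv_mul_cancel_right u' (u ^ s), B1, c, (B0 _ v).2 (cm_of_zp (h.cen _ v.2) ((k _).1 b)).symm, zero_add]
  refine ⟨(mkG.comp φ).range, fun u => pt (toAdd (π u)), ?_, fun a a1 a2 => ?_, fun a b a1 e => ?_, fun x => ?_⟩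
  · refine fun d => hP.not_dvd ?_
    rw [← index_ker] at d
    have l : P.subgroupOf (normalizer (P : Set G)) ≤ (mkG.comp φ).ker := fun n hn => by
      have : φ n = 1 := Units.ext (Matrix.toLin'.injective (LinearMap.ext fun v => by
        obtain ⟨u, hu⟩ := hs (ofAdd v)
        have a := hφ n u
        have b : π (P.normalizerMonoidHom n u * u⁻¹) = 1 := (k _).2 (h.comm _ hn _ u.2)
        rw [map_mul, map_inv, mul_inv_eq_one] at b
        rw [b, hu] at a
        simpa using a.symm))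
      rw [MonoidHom.mem_ker, MonoidHom.comp_apply, this, map_one]
    rw [relIndex_top_right]
    exact (d.trans (index_dvd_of_le l)).trans (Dvd.intro _ (relIndex_mul_index Subgroup.le_normalizer))
  · obtain ⟨l, hl⟩ := IsCyclic.exists_ofOrder_eq_natCard (α := (ZMod p)ˣ)
    rw [Nat.card_eq_fintype_card, ZMod.card_units] at hl
    have ex : ∀ l : (ZMod p)ˣ, ∃ r : ℕ, ((r + 1 : ℕ) : ZMod p) = l := fun l =>
      ⟨(l : ZMod p).val - 1, by
        rw [Nat.sub_add_cancel (Nat.pos_of_ne_zero ((ZMod.val_ne_zero _).2 l.ne_zero)), ZMod.natCast_zmod_val]⟩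
    obtain ⟨r, hr⟩ := ex l
    obtain ⟨s, hs'⟩ := ex l⁻¹
    obtain ⟨n, n1, n2, w, w1, n3⟩ := tri hP h he a.2 a1 a2 (r := r) (s := s)
      ((ZMod.natCast_eq_natCast_iff _ _ _).1 (by rw [Nat.cast_mul, hr, hs', Units.mul_inv, Nat.cast_one]))
    have v0 : toAdd (π a) ≠ 0 := fun e => a1 ((k a).1 e)
    have ev : (φ ⟨n, n1⟩ : Matrix _ _ _) *ᵥ toAdd (π a) = ((l⁻¹ : (ZMod p)ˣ) : ZMod p) • toAdd (π a) := by
      rw [← hφ, show P.normalizerMonoidHom ⟨n, n1⟩ a = ⟨w, h.zle w1⟩ * a ^ (s + 1) from Subtype.ext n3, map_mul,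
        (k _).2 w1, one_mul, map_pow, toAdd_pow, ← hs', Nat.cast_smul_eq_nsmul]
    refine ⟨_, ⟨⟨n, n1⟩, rfl⟩, pt_fix _ v0 ev, fun j hj => ?_⟩
    rw [← map_pow] at hj
    obtain ⟨c, _, _, _, d, hd⟩ := exists_gl2 (φ (⟨n, n1⟩ ^ j))
    rw [MonoidHom.comp_apply, hd] at hj
    obtain ⟨rfl, rfl, rfl⟩ := pg_eq_one_iff.1 hj
    have sc : ∀ u, toAdd (π (P.normalizerMonoidHom (⟨n, n1⟩ ^ j) u)) = c.val • toAdd (π u) := fun u => by
      rw [hφ, hd, ← Nat.cast_smul_eq_nsmul (ZMod p), ZMod.natCast_zmod_val]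
      ext i; fin_cases i <;> simp [mulVec, dotProduct, Fin.sum_univ_two]
    have e1 : ∀ j : ℕ, ((φ ⟨n, n1⟩ : Matrix _ _ _) ^ j) *ᵥ toAdd (π a) =
        ((l⁻¹ ^ j : (ZMod p)ˣ) : ZMod p) • toAdd (π a) := fun j => by
      induction j with
      | zero => simp
      | succ j ih => rw [pow_succ, ← mulVec_mulVec, ev, mulVec_smul, ih, smul_smul, pow_succ', Units.val_mul]
    have e2 : c = (l⁻¹ ^ j : (ZMod p)ˣ) := by
      have := sc a
      rw [hφ, map_pow, Units.val_pow_eq_pow_val, e1, ← Nat.cast_smul_eq_nsmul (ZMod p), ZMod.natCast_zmod_val] at this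
      exact (smul_left_injective _ v0 this).symm
    have e3 : ∀ j : ℕ, n ^ j * z * (n ^ j)⁻¹ = z ^ (r + 1) ^ j := fun j => by
      induction j with
      | zero => simp
      | succ j ih =>
        rw [pow_succ' n, show n * n ^ j * z * (n * n ^ j)⁻¹ = n * (n ^ j * z * (n ^ j)⁻¹) * n⁻¹ by group, ih,
          ← conj_pow, n2, ← pow_mul, pow_succ']
    have e4 : B (P.normalizerMonoidHom (⟨n, n1⟩ ^ j) ⟨x, hx⟩) (P.normalizerMonoidHom (⟨n, n1⟩ ^ j) ⟨y, hy⟩) =
        (l ^ j : (ZMod p)ˣ) * B ⟨x, hx⟩ ⟨y, hy⟩ := by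
      rw [Units.val_pow_eq_pow_val, ← hr, ← Nat.cast_pow, ← nsmul_eq_mul, ← toAdd_pow, ← map_pow]
      refine congrArg (fun t => toAdd (ε t)) (Subtype.ext ?_)
      change ⁅n ^ j * x * (n ^ j)⁻¹, n ^ j * y * (n ^ j)⁻¹⁆ = ⁅x, y⁆ ^ _
      rw [← conjugate_commutatorElement, e, e3]
    rw [B3 _ _ _ _ (sc _), B2, B3 _ _ _ _ (sc _), B2 ⟨y, hy⟩, ZMod.natCast_zmod_val, e2] at e4
    have b0 : B ⟨x, hx⟩ ⟨y, hy⟩ ≠ 0 := fun c => h.ne (e ▸ cm_iff.2 ((B0 _ _).1 c))
    rw [← hl, orderOf_dvd_iff_pow_eq_one]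
    have : l⁻¹ ^ j * l⁻¹ ^ j = l ^ j := Units.ext (mul_right_cancel₀ b0 (by rw [← e4]; push_cast; ring))
    rw [show l ^ (3 * j) = l ^ j * (l ^ j * l ^ j) by rw [← pow_add, ← pow_add]; congr 1; ring]
    nth_rewrite 1 [← this]
    group
  · obtain ⟨t, ht⟩ := pt_eq (fun e => a1 ((k a).1 e)) e
    have c : π (b * (a ^ t.val)⁻¹) = 1 := by
      rw [map_mul, map_inv, map_pow, mul_inv_eq_one]
      refine toAdd.injective ?_
      rw [toAdd_pow, ← Nat.cast_smul_eq_nsmul (ZMod p), ZMod.natCast_zmod_val]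
      exact ht
    rw [← inv_mul_cancel_right b (a ^ t.val)]
    exact mul_mem (mem_sup_left ((k _).1 c)) (mem_sup_right (pow_mem (mem_zpowers _) _))
  · obtain ⟨v, v0, rfl⟩ := pt_surj x
    obtain ⟨a, ha⟩ := hs (ofAdd v)
    refine ⟨a, fun c => v0 (ha.symm.trans ((k a).2 c)), fun b hb b1 => ?_⟩
    obtain ⟨j, rfl⟩ := (mem_powers_iff_mem_zpowers.2 hb)
    simp only at b1 ⊢
    rw [map_pow, ha, toAdd_pow, toAdd_ofAdd, ← Nat.cast_smul_eq_nsmul (ZMod p)]
    refine pt_smul fun c => b1 ?_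
    obtain ⟨i, rfl⟩ := (ZMod.natCast_eq_zero_iff j p).1 c
    rw [pow_mul, show a ^ p = 1 from Subtype.ext (he _ a.2), one_pow]

end H1.PX
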