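import Cfsg.Agent.H1.KJ

/-! H1.Q7: sectional rank. -/

open Pointwise Cfsg Subgroup H9
open scoped commutatorElement

namespace H1

variable {G : Type*} [Group G] [Finite G] {p k : ℕ} [hp : Fact p.Prime]

/-- `R / D` is elementary abelian. -/
structure EQ (p : ℕ) (R D : Subgroup G) : Prop where
  le : D ≤ R
  cm : ⁅R, R⁆ ≤ D
  pw : ∀ x ∈ R, x ^ p ∈ D

omit hp in
theorem EQ.nm {R D : Subgroup G} (h : EQ p R D) : R ≤ normalizer (D : Set G) :=
  H9.le_normalizer_of_commutator_le h.cm h.le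

omit hp in
theorem EQ.sup {R D R' D' : Subgroup G} (h : EQ p R D) (h' : EQ p R' D') (c : R ≤ centralizer (R' : Set G)) :
    EQ p (R ⊔ R') (D ⊔ D') := by
  have n1 := normalizer_sup h.nm ((c.trans (centralizer_anti h'.le)).trans (Subgroup.centralizer_le_normalizer _))
  have n2 := normalizer_sup (((le_centralizer_iff.1 c).trans (centralizer_anti h.le)).trans
    (Subgroup.centralizer_le_normalizer _)) h'.nm
  have c0 := commutator_eq_bot_iff_le_centralizer.2 c
  refine ⟨sup_le_sup h.le h'.le, H9.commutator_sup_le n1 n2 (commutator_sup_le' n1 n2 (h.cm.trans le_sup_left)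
    (c0.le.trans bot_le)) (commutator_sup_le' n1 n2 (((commutator_comm _ _).trans c0).le.trans bot_le)
    (h'.cm.trans le_sup_right)), fun x hx => ?_⟩
  obtain ⟨a, ha, b, hb, rfl⟩ := (fac_of_normalizer (.inl (c.trans (Subgroup.centralizer_le_normalizer _)))).ex x hx
  rw [(show Commute a b from (c ha b hb).symm).mul_pow]
  exact mul_mem_sup (h.pw a ha) (h'.pw b hb)

omit hp in
theorem EQ.cj {R D : Subgroup G} (h : EQ p R D) (g : G) : EQ p (cj g R) (cj g D) :=
  ⟨cj_mono g h.le, by rw [← H9.cj_commutator]; exact cj_mono g h.cm, by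
    rintro _ ⟨x, hx, rfl⟩; exact ⟨_, h.pw x hx, map_pow _ _ _⟩⟩

theorem eq_Phi {P : Subgroup G} (hP : IsPGroup p P) : EQ p P (L.Phi P) :=
  ⟨L.Phi_le P, L.commutator_le_Phi hP, fun _ => L.pow_mem_Phi hP⟩

omit hp in
theorem EQ.card_le (hr : SectionalPRankLE p k G) {R D : Subgroup G} (h : EQ p R D) :
    Nat.card R ≤ Nat.card D * p ^ k := by
  have : (D.subgroupOf R).Normal := (normal_subgroupOf_iff_le_normalizer h.le).2 h.nm
  have := hr R (D.subgroupOf R) ⊤ ⟨⟨fun a b => Subtype.ext (by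
      obtain ⟨a, -⟩ := a
      obtain ⟨b, -⟩ := b
      obtain ⟨a, rfl⟩ := QuotientGroup.mk_surjective a
      obtain ⟨b, rfl⟩ := QuotientGroup.mk_surjective b
      exact commutatorElement_eq_one_iff_mul_comm.1 ((QuotientGroup.eq_one_iff ⁅a, b⁆).2
        (h.cm (commutator_mem_commutator a.2 b.2))))⟩⟩ fun a _ => by
    obtain ⟨a, rfl⟩ := QuotientGroup.mk_surjective a
    exact (QuotientGroup.eq_one_iff (a ^ p)).2 (h.pw a a.2)
  rw [card_top] at this
  rw [card_eq_card_quotient_mul_card_subgroup (D.subgroupOf R), Nat.card_congr (subgroupOfEquivOfLe h.le).toEquiv, mul_comm]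
  exact Nat.mul_le_mul_left _ this

omit hp in
theorem sr_of {P : Subgroup G} (h : ∀ R ≤ P, ∀ D, EQ p R D → Nat.card R ≤ Nat.card D * p ^ k) :
    SectionalPRankLE p k P := fun H N _ A a1 a2 => by
  let f := P.subtype.comp H.subtype
  have hf : Function.Injective f := Subtype.val_injective.comp Subtype.val_injective
  have l : N ≤ A.comap (QuotientGroup.mk' N) := fun x hx => by
    rw [mem_comap, QuotientGroup.mk'_apply, (QuotientGroup.eq_one_iff x).2 hx]; exact one_mem _
  have := h ((A.comap (QuotientGroup.mk' N)).map f) (by rintro _ ⟨x, -, rfl⟩; exact x.1.2) (N.map f) ⟨map_mono l, by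
    rw [← Subgroup.map_commutator]
    exact map_mono (commutator_le.2 fun x hx y hy => (QuotientGroup.eq_one_iff _).1
      (commutatorElement_eq_one_iff_mul_comm.2 (ab_comm a1 hx hy))), by
    rintro _ ⟨x, hx, rfl⟩
    exact ⟨x ^ p, (QuotientGroup.eq_one_iff _).1 (a2 _ hx), map_pow _ _ _⟩⟩
  rw [card_map_of_injective hf, card_map_of_injective hf, ← relIndex_bot_left (H := comap _ _),
    ← relIndex_mul_relIndex ⊥ N _ bot_le l, relIndex_bot_left] at this
  have e := relIndex_ker (A.comap (QuotientGroup.mk' N)) (QuotientGroup.mk' N)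
  rw [QuotientGroup.ker_mk', map_comap_eq_self_of_surjective (QuotientGroup.mk'_surjective N)] at e
  exact e ▸ Nat.le_of_mul_le_mul_left this Nat.card_pos

theorem Zc_le_of_ne {P U : Subgroup G} (hP : IsPGroup p P) (h : Nat.card (Zc P) = p) (h1 : U ≤ P)
    (h2 : P ≤ normalizer (U : Set G)) (h0 : U ≠ ⊥) : Zc P ≤ U :=
  ((L.eq_or_eq_of_relIndex_prime (N := ⊥) (by rw [relIndex_bot_left, h]; exact hp.out) bot_le
    (inf_le_inf_right _ h1)).resolve_left (inf_centralizer_ne_bot_of_p (hP.to_le h1) hP h2 h0)).ge.trans inf_le_left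

theorem two_comm (hG : IsPGroup p G) (hr : SectionalPRankLE p 4 G) {X P Q : Subgroup G} (lP : P ≤ X) (lQ : Q ≤ X)
    (nP : X ≤ normalizer (P : Set G)) (nQ : X ≤ normalizer (Q : Set G)) (aP : ¬ IsMulCommutative P)
    (aQ : ¬ IsMulCommutative Q) (zP : Nat.card (Zc P) = p) (zQ : Nat.card (Zc Q) = p) (ne : Zc P ≠ Zc Q) :
    ⁅P, Q⁆ = ⊥ ∧ P ⊓ Q = ⊥ ∧ X ⊓ centralizer ((P ⊔ Q : Subgroup G) : Set G) ≤ Zc P ⊔ Zc Q := by
  have d : P ⊓ Q = ⊥ := by
    by_contra t
    have n := normalizer_inf nP nQ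
    have := inf_centralizer_ne_bot_of_p (hG.to_subgroup _) (hG.to_subgroup X) n t
    have k : ∀ {R : Subgroup G}, P ⊓ Q ≤ R → R ≤ X → Nat.card (Zc R) = p → Zc R = P ⊓ Q ⊓ centralizer (X : Set G) :=
      fun h1 h2 h3 => ((L.eq_or_eq_of_relIndex_prime (N := ⊥) (by rw [relIndex_bot_left, h3]; exact hp.out) bot_le
        (inf_le_inf h1 (centralizer_anti h2))).resolve_left this).symm
    exact ne ((k inf_le_left lP zP).trans (k inf_le_right lQ zQ).symm)
  have c0 : ⁅P, Q⁆ = ⊥ := le_bot_iff.1 ((le_inf (commutator_le_left' (lQ.trans nP))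
    ((commutator_comm _ _).le.trans (commutator_le_left' (lP.trans nQ)))).trans d.le)
  have c := commutator_eq_bot_iff_le_centralizer.1 c0
  have n := c.trans (Subgroup.centralizer_le_normalizer _)
  have z : (P ⊔ Q) ⊓ centralizer ((P ⊔ Q : Subgroup G) : Set G) ≤ Zc P ⊔ Zc Q := fun x hx => by
    obtain ⟨a, ha, b, hb, rfl⟩ := (fac_of_normalizer (.inl n)).ex x hx.1
    refine mul_mem_sup ⟨ha, ?_⟩ ⟨hb, ?_⟩
    · exact (mul_mem_cancel_right (le_centralizer_iff.1 c hb)).1 (centralizer_anti le_sup_left hx.2)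
    · exact (mul_mem_cancel_left (c ha)).1 (centralizer_anti le_sup_right hx.2)
  refine ⟨c0, d, le_trans (le_inf ?_ inf_le_right) z⟩
  by_contra t
  obtain ⟨x, hx, x1, x2, -⟩ := L.exists_central_mod_pow (hG.to_subgroup (X ⊓ centralizer ((P ⊔ Q : Subgroup G) : Set G)))
    (inf_lt_left.2 t) le_rfl (normalizer_inf Subgroup.le_normalizer
      (inf_le_right.trans (Subgroup.centralizer_le_normalizer _))) Subgroup.le_normalizer
  have ph : ∀ {R : Subgroup G}, ¬ IsMulCommutative R → Nat.card (Zc R) = p →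
      Zc R ≤ L.Phi R ∧ Nat.card (L.Phi R) * p ^ 2 ≤ Nat.card R := fun {R} h1 h2 => by
    have hR := hG.to_subgroup R
    refine ⟨Zc_le_of_ne hR h2 (L.Phi_le R) (L.normalizer_Phi Subgroup.le_normalizer) fun t => h1
      (L.comm_of_le_centralizer (commutator_eq_bot_iff_le_centralizer.1 (le_bot_iff.1 (t ▸ L.commutator_le_Phi hR)))), ?_⟩
    rw [← relIndex_bot_left (H := R), ← relIndex_mul_relIndex ⊥ _ R bot_le (L.Phi_le R), relIndex_bot_left]
    exact Nat.mul_le_mul_left _ (L.sq_le_relIndex_of_le_Phi hR le_rfl fun _ => h1 IsCyclic.isMulCommutative)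
  have e := ((eq_Phi (hG.to_subgroup P)).sup (eq_Phi (hG.to_subgroup Q)) c).sup (R' := zpowers x) (D' := zpowers (x ^ p))
    ⟨zpowers_le.2 (npow_mem_zpowers x p), (commutator_eq_bot_iff_le_centralizer.2
      (L.le_centralizer_of_comm inferInstance)).le.trans bot_le, by
        rintro _ ⟨k, rfl⟩; exact ⟨k, by simp only [← zpow_natCast, ← zpow_mul, mul_comm]⟩⟩
    (le_centralizer_iff.1 (zpowers_le.2 hx.2))
  have := e.card_le hr
  rw [sup_eq_left.2 (zpowers_le.2 (sup_le_sup (ph aP zP).1 (ph aQ zQ).1 (z ⟨x2.2, x2.1.2⟩))),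
    card_sup_zp (hG.to_subgroup ⊤) le_top trivial (Subgroup.centralizer_le_normalizer _ hx.2) x2.2 fun s => x1 ⟨hx, s⟩,
    card_sup_of_disjoint n d, card_sup_of_disjoint ((L.Phi_le P).trans (L.normalizer_Phi n))
      (le_bot_iff.1 ((inf_le_inf (L.Phi_le P) (L.Phi_le Q)).trans d.le))] at this
  have h1 := (Nat.mul_le_mul_right p (Nat.mul_le_mul (ph aP zP).2 (ph aQ zQ).2)).trans this
  rw [show ∀ a b : ℕ, a * p ^ 2 * (b * p ^ 2) * p = a * b * p ^ 5 from fun a b => by ring] at h1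
  exact absurd ((Nat.pow_le_pow_iff_right hp.out.one_lt).1 (Nat.le_of_mul_le_mul_left h1
    (Nat.mul_pos Nat.card_pos Nat.card_pos))) (by norm_num)

end H1
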