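import Cfsg.Agent.H1.Sol2
import Cfsg.Agent.H1.Schmidt
import Cfsg.Agent.H1.Invol
import Cfsg.Agent.H1.Section

/-! Groups whose non-abelian subgroups are self-normalizing. -/

namespace H1
open Subgroup Cfsg
open scoped Pointwise commutatorElement

universe u
variable {G : Type u} [Group G] [Finite G]

def SN (G : Type*) [Group G] : Prop :=
  ∀ H : Subgroup G, ¬ IsMulCommutative H → normalizer (H : Set G) = H

theorem prime_of_selfnorm (h : ∀ R : Subgroup G, R ≠ ⊥ → normalizer (R : Set G) ≤ R)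
    (h1 : Nat.card G ≠ 1) : (Nat.card G).Prime := by
  have hp := Nat.minFac_prime h1
  set p := (Nat.card G).minFac with hpd
  haveI := Fact.mk hp
  obtain ⟨T⟩ : Nonempty (Sylow p G) := inferInstance
  haveI : Nontrivial T := (T : Subgroup G).nontrivial_iff_ne_bot.2 (T.ne_bot_of_dvd_card (Nat.minFac_dvd _))
  haveI := T.isPGroup'.center_nontrivial
  obtain ⟨k, hk0, hk⟩ := (T.isPGroup'.to_subgroup (center T)).nontrivial_iff_card.1 inferInstance
  obtain ⟨⟨z, hz⟩, hz1⟩ := exists_prime_orderOf_dvd_card' (G := center T) p (hk ▸ dvd_pow_self _ hk0.ne')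
  rw [Subgroup.orderOf_mk, ← Subgroup.orderOf_coe] at hz1
  have hz0 : zpowers (z : G) ≠ ⊥ := fun e => hp.one_lt.ne' (by rw [← hz1, zpowers_eq_bot.1 e, orderOf_one])
  have h2 : (T : Subgroup G) ≤ zpowers (z : G) := by
    refine le_trans ?_ (h _ hz0)
    refine le_normalizer_of_le_centralizer ?_
    rw [centralizer_zpowers]
    intro x hx
    exact mem_centralizer_singleton_iff.2 (congrArg Subtype.val (mem_center_iff.1 hz ⟨x, hx⟩))
  obtain ⟨K, hK, hc⟩ : ∃ K : Subgroup G, K.Normal ∧ K.IsComplement' T :=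
    ⟨_, inferInstance, IsCyclic.isComplement' hpd.symm (isCyclic_of_le h2)⟩
  by_cases h0 : K = ⊥
  · have := hc.sup_eq_top
    rw [h0, bot_sup_eq] at this
    rw [← card_top, ← top_le_iff.1 (this.ge.trans h2), Nat.card_zpowers, hz1]
    exact hp
  · have := h _ h0
    rw [normalizer_eq_top, top_le_iff] at this
    have h3 := hc.disjoint
    rw [this, top_disjoint] at h3
    exact absurd h3 (T.ne_bot_of_dvd_card (Nat.minFac_dvd _))

namespace SN

theorem comm (h : SN G) {K : Subgroup G} {g : G} (hg : g ∈ normalizer (K : Set G)) (hK : g ∉ K) :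
    IsMulCommutative K := by
  by_contra hc
  exact hK (h K hc ▸ hg)

theorem prime_relIndex (h : SN G) {Q : Subgroup G} (hQ : IsMulCommutative Q)
    (h1 : (centralizer (Q : Set G)).relIndex (normalizer (Q : Set G)) ≠ 1) :
    ((centralizer (Q : Set G)).relIndex (normalizer (Q : Set G))).Prime := by
  obtain ⟨X, _, f, hf, hk⟩ := exists_section (centralizer_le_normalizer (Q : Set G))
    (centralizer_normalizer Q)
  haveI : Finite X := Finite.of_surjective f hf
  have e : Nat.card X = (centralizer (Q : Set G)).relIndex (normalizer (Q : Set G)) := by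
    rw [← card_top, ← bar_self hf, card_bar le_rfl, hk]
  rw [← e] at h1 ⊢
  refine prime_of_selfnorm (G := X) (fun R hR => ?_) h1
  have h1 : ¬ IsMulCommutative (unbar f R) := fun hc => hR (by
    rw [← bar_unbar hf R, bar_eq_bot_iff (unbar_le _), hk, le_centralizer_iff]
    refine le_trans ?_ (le_centralizer_iff_isMulCommutative.2 hc)
    exact ((le_centralizer_iff_isMulCommutative.2 hQ).trans hk.ge).trans (unbar_bot_le _))
  have := bar_mono (f := f) ((unbar_normalizer_le R).trans (h _ h1).le)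
  rwa [bar_unbar hf, bar_unbar hf] at this

theorem odd_relIndex (h : SN G) {Q : Subgroup G} (hQ : IsMulCommutative Q) {g : G}
    (hg : g ∈ normalizer (Q : Set G)) (hc : g ∉ centralizer (Q : Set G)) (ho : (orderOf g).Coprime 2) :
    ¬ 2 ∣ (centralizer (Q : Set G)).relIndex (normalizer (Q : Set G)) := by
  intro h2
  have h3 := h.prime_relIndex hQ (fun e => by rw [e] at h2; exact absurd h2 (by decide))
  have h4 := (Nat.prime_dvd_prime_iff_eq Nat.prime_two h3).1 h2
  exact hc (le_of_coprime_relIndex (zpowers_le.2 hg) (centralizer_normalizer Q)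
    (by rwa [Nat.card_zpowers, ← h4]) (mem_zpowers g))

theorem sylow_comm (h : SN G) (hn : ¬ HasNormalPComplement 2 G) (T : Sylow 2 G) :
    IsMulCommutative (T : Subgroup G) := by
  have : ∃ Q : Subgroup G, IsPGroup 2 Q ∧ ∃ g ∈ normalizer (Q : Set G), (orderOf g).Coprime 2 ∧
      g ∉ centralizer (Q : Set G) := by
    by_contra hc
    push Not at hc
    exact hn (H2.frobenius T fun Q hQ => hc Q (T.isPGroup'.to_le hQ))
  obtain ⟨Q, hQ⟩ := this
  obtain ⟨Q, -, ⟨hQ, g, hg, ho, hc⟩, hm⟩ := Finite.exists_le_maximal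
    (p := fun Q : Subgroup G => IsPGroup 2 Q ∧ ∃ g ∈ normalizer (Q : Set G), (orderOf g).Coprime 2 ∧
      g ∉ centralizer (Q : Set G)) hQ
  have h1 : IsMulCommutative Q := h.comm hg fun e => hc (by
    have := Nat.eq_one_of_dvd_coprimes (isPGroup_coprime hQ ho) (orderOf_dvd_card_of_mem e) dvd_rfl
    rw [orderOf_eq_one_iff.1 this]; exact one_mem _)
  have h2 : IsMulCommutative (centralizer (Q : Set G)) := h.comm (centralizer_normalizer Q hg) hc
  obtain ⟨P, hP, hQP⟩ := exists_isSylowIn_ge hQ (le_centralizer_iff_isMulCommutative.2 h1)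
  have h3 := hP.normalizer_le_of_normal (le_normalizer_of_le_centralizer (le_centralizer_iff.1
    (hP.le.trans (le_centralizer_iff_isMulCommutative.2 h2))))
  have h4 : P ≤ Q := hm ⟨hP.isPGroup, g, h3 (centralizer_normalizer Q hg), ho,
    fun e => hc (centralizer_le hQP e)⟩ hQP
  rw [le_antisymm h4 hQP] at hP
  have h5 : IsSylowIn 2 Q ⊤ := isSylowIn_of_normalizer le_top (by
    rw [inf_top_eq]
    exact hP.trans (centralizer_le_normalizer _) (h.odd_relIndex h1 hg hc ho))
  obtain ⟨a, -, ha⟩ := h5.conj (isSylowIn_top T)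
  rw [← ha, conj_smul_eq_map]
  infer_instance

theorem fix_free (h : SN G) {S : Subgroup G} (hS : IsMulCommutative S) {g : G}
    (hg : g ∈ normalizer (S : Set G)) (ho : (orderOf g).Coprime (Nat.card S))
    (hc : g ∉ centralizer (S : Set G)) : S ⊓ centralizer {g} = ⊥ := by
  have h1 : zpowers g ≤ normalizer (S : Set G) := zpowers_le.2 hg
  have h2 : (Nat.card (zpowers g)).Coprime (Nat.card S) := by rwa [Nat.card_zpowers]
  have h3 := commutator_commutator_eq h1 h2 (Or.inl (isSolvable_zpowers g))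
  have h4 := commutator_le_of_le_normalizer h1
  have h5 : ¬ IsMulCommutative (⁅S, zpowers g⁆ ⊔ zpowers g : Subgroup G) := fun e => hc (by
    have : ⁅⁅S, zpowers g⁆, zpowers g⁆ = ⊥ := commutator_eq_bot_iff_le_centralizer.2
      (le_sup_left.trans ((le_centralizer_iff_isMulCommutative.2 e).trans (centralizer_le (SetLike.coe_subset_coe.2 le_sup_right))))
    rw [h3, commutator_eq_bot_iff_le_centralizer, le_centralizer_iff] at this
    exact this (mem_zpowers g))
  have h6 : S ≤ ⁅S, zpowers g⁆ ⊔ zpowers g := by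
    rw [← h _ h5]
    intro s hs
    rw [mem_normalizer_iff_conj_mem]
    have : ⁅S, zpowers g⁆ ⊔ zpowers g ≤ (⁅S, zpowers g⁆ ⊔ zpowers g).comap (MulAut.conj s).toMonoidHom := by
      refine sup_le (fun x hx => ?_) fun a ha => ?_
      · show s * x * s⁻¹ ∈ ⁅S, zpowers g⁆ ⊔ zpowers g
        rw [comm_of_mem hS hs (h4 hx), mul_inv_cancel_right]
        exact mem_sup_left hx
      · show s * a * s⁻¹ ∈ ⁅S, zpowers g⁆ ⊔ zpowers g
        rw [show s * a * s⁻¹ = ⁅s, a⁆ * a by rw [commutatorElement_def]; group]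
        exact mul_mem_sup (commutator_mem_commutator hs ha) ha
    exact fun x hx => this hx
  have h7 := dedekind_left h4 (B := zpowers g) (Or.inr (normalizer_commutator_ge_right _ _))
  rw [inf_eq_right.2 h6, inf_eq_bot_of_coprime h2, sup_bot_eq] at h7
  have := abelian_centralizer_inf_commutator hS h1 h2
  rwa [← h7, centralizer_zpowers, inf_eq_left.2 inf_le_left] at this

theorem cent_comm (h : SN G) (T : Sylow 2 G) (hT : IsMulCommutative (T : Subgroup G))
    (hc : ¬ IsCyclic (T : Subgroup G)) {t : G} (ht : t ∈ (T : Subgroup G)) (h1 : t ≠ 1) :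
    IsMulCommutative (centralizer ({t} : Set G)) := by
  set M := centralizer ({t} : Set G) with hM
  have hTM : (T : Subgroup G) ≤ M := fun x hx => mem_centralizer_singleton_iff.2 (comm_of_mem hT hx ht)
  have hS : IsSylowIn 2 (T : Subgroup G) M := (isSylowIn_top T).of_le hTM le_top
  have hN : HasNormalPComplement 2 M := H2.burnside_rel hS.toH2 (by
    rintro x ⟨hx1, hx2⟩
    obtain ⟨a, ha, b, hb, rfl, h2, h3⟩ := exists_pi_part {2} x
    have ha' : zpowers a ≤ T := (isSylowIn_top T).le_of_le_normalizer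
      (isPGroup_iff_isPiNum.2 (by rwa [Nat.card_zpowers])) le_top (zpowers_le.2 (zpowers_le.2 hx2 ha))
    refine mul_mem (le_centralizer_iff_isMulCommutative.2 hT (ha' (mem_zpowers a))) ?_
    by_contra hb'
    have := h.fix_free hT (zpowers_le.2 hx2 hb) ((isPGroup_iff_isPiNum.1 T.isPGroup').coprime h3).symm hb'
    exact h1 (this.le ⟨ht, mem_centralizer_singleton_iff.2
      (mem_centralizer_singleton_iff.1 (zpowers_le.2 hx1 hb)).symm⟩))
  rw [H2.hasNPC_iff_Op] at hN
  have hd : (T : Subgroup G) ⊓ H2.Op 2 M = ⊥ := inf_eq_bot_of_coprime (isPGroup_coprime T.isPGroup' hN)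
  have hn : M ≤ normalizer (H2.Op 2 M : Set G) := le_normalizer.trans (H2.normalizer_le_normalizer_Op 2 M)
  have hO : IsMulCommutative (H2.Op 2 M) := h.comm (hn (hTM ht)) fun e => h1 (hd.le ⟨ht, e⟩)
  have hs : (T : Subgroup G) ≤ centralizer (H2.Op 2 M : Set G) := by
    intro s hs
    by_contra hsc
    have h2 : ¬ IsMulCommutative (H2.Op 2 M ⊔ zpowers s : Subgroup G) := fun e => hsc
      (centralizer_le (SetLike.coe_subset_coe.2 le_sup_left) (le_centralizer_iff_isMulCommutative.2 e (mem_sup_right (mem_zpowers s))))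
    have h3 : (T : Subgroup G) ≤ H2.Op 2 M ⊔ zpowers s := by
      rw [← h _ h2]
      exact le_normalizer_sup (hTM.trans hn) (le_normalizer_of_le_centralizer (le_centralizer_iff.1
        ((zpowers_le.2 hs).trans (le_centralizer_iff_isMulCommutative.2 hT))))
    have h4 := dedekind_right (A := H2.Op 2 M) (zpowers_le.2 hs) (Or.inr ((zpowers_le.2 (hTM hs)).trans hn))
    rw [inf_eq_right.2 h3, inf_comm, hd, bot_sup_eq] at h4
    exact hc (h4 ▸ inferInstance)
  have e : H2.Op 2 M ⊔ (T : Subgroup G) = M := hS.toH2.Op_sup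
  refine isMulCommutative_of_comm fun x hx y hy => ?_
  rw [← e] at hx hy
  obtain ⟨a, ha, b, hb, rfl⟩ := (mem_sup_of_le_normalizer_left (hTM.trans hn)).1 hx
  obtain ⟨c, hc, d, hd, rfl⟩ := (mem_sup_of_le_normalizer_left (hTM.trans hn)).1 hy
  have e1 := comm_of_mem hO ha hc
  have e2 := comm_of_mem hT hb hd
  have e3 := hs hb c hc
  have e4 := hs hd a ha
  calc a * b * (c * d) = a * (b * c) * d := by group
    _ = (a * c) * (b * d) := by rw [← e3]; group
    _ = c * (a * d) * b := by rw [e1, e2]; group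
    _ = _ := by rw [e4]; group

end SN
end H1
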