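import Cfsg.Agent.H5.Spinor

/-! The double covers of the alternating groups, built in the Clifford algebra over `ZMod 3`. -/

set_option autoImplicit false

namespace H1.Spin
open CliffordAlgebra Equiv Subgroup
open scoped commutatorElement

variable {n : ℕ}

instance : Fact (Nat.Prime 3) := ⟨Nat.prime_three⟩

instance : Invertible (2 : ZMod 3) := ⟨2, by decide, by decide⟩

def Q (n : ℕ) : QuadraticForm (ZMod 3) (Fin n → ZMod 3) := (Matrix.toBilin' 1).toQuadraticMap

abbrev C (n : ℕ) := CliffordAlgebra (Q n)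

noncomputable def e (i : Fin n) : C n := ι _ (Pi.single i 1)

theorem pol (i j : Fin n) : QuadraticMap.polar (Q n) (Pi.single i 1) (Pi.single j 1) = if i = j then 2 else 0 := by
  rw [Q, LinearMap.BilinMap.polar_toQuadraticMap]
  simp only [Matrix.toBilin'_single, Matrix.one_apply, eq_comm (a := j)]
  split_ifs <;> rfl

theorem e_sq (i : Fin n) : e i * e i = 1 := by
  rw [e, ι_sq_scalar, show Q n (Pi.single i 1) = 1 by simp [Q, Matrix.toBilin'_single], map_one]

theorem e_ac {i j : Fin n} (h : i ≠ j) : e j * e i = -(e i * e j) := by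
  rw [eq_neg_iff_add_eq_zero, add_comm, e, e, ι_mul_ι_add_swap, pol, if_neg h, map_zero]

theorem e_sq' (i : Fin n) (r : C n) : e i * (e i * r) = r := by rw [← mul_assoc, e_sq, one_mul]

theorem e_ac' {i j : Fin n} (h : i ≠ j) (r : C n) : e j * (e i * r) = -(e i * (e j * r)) := by
  rw [← mul_assoc, e_ac h, neg_mul, mul_assoc]

theorem h3 : (1 : C n) + 1 + 1 = 0 := by
  rw [← map_one (algebraMap (ZMod 3) (C n)), ← map_add, ← map_add, ← map_zero (algebraMap (ZMod 3) (C n))]
  rfl

theorem ne1 : (-1 : C n) ≠ 1 := fun h => one_ne_zero (α := C n) (by linear_combination (norm := abel) h3 + h)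

theorem e_inj {i j : Fin n} (h : e i = e j) : i = j := by
  by_contra c
  have := e_ac c
  rw [h, e_sq] at this
  exact ne1 this.symm

noncomputable def t (i j : Fin n) : C n := e i - e j

theorem t_sq {i j : Fin n} (h : i ≠ j) : t i j * t i j = -1 := by
  simp only [t, mul_sub, sub_mul, e_sq, e_ac h]
  linear_combination (norm := abel) h3

theorem t_sq' {i j : Fin n} (h : i ≠ j) (r : C n) : t i j * (t i j * r) = -r := by
  rw [← mul_assoc, t_sq h, neg_one_mul]

theorem t_ac {i j k l : Fin n} (h1 : i ≠ k) (h2 : i ≠ l) (h3 : j ≠ k) (h4 : j ≠ l) (r : C n) :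
    t k l * (t i j * r) = -(t i j * (t k l * r)) := by
  simp only [t, mul_sub, sub_mul, e_ac' h1, e_ac' h2, e_ac' h3, e_ac' h4]
  abel

def G0 (n : ℕ) : Subgroup ((C n)ˣ × Perm (Fin n)) where
  carrier := {x | ∀ i, involute (x.1 : C n) * e i = e (x.2 i) * x.1}
  one_mem' := fun i => by simp
  mul_mem' := fun {x y} hx hy i => by
    simp only [Prod.fst_mul, Units.val_mul, map_mul, Prod.snd_mul, Perm.mul_apply]
    rw [mul_assoc, hy, ← mul_assoc, hx, mul_assoc]
  inv_mem' := fun {x} hx i => by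
    have := hx (x.2⁻¹ i)
    simp only [Prod.fst_inv, Prod.snd_inv]
    rw [show x.2 (x.2⁻¹ i) = i by simp, ← Units.mul_inv_eq_iff_eq_mul] at this
    rw [← this, ← mul_assoc, ← mul_assoc, ← map_mul, Units.inv_mul, map_one, one_mul]

noncomputable def T {i j : Fin n} (h : i ≠ j) : (C n)ˣ × Perm (Fin n) :=
  (⟨t i j, -t i j, by rw [mul_neg, t_sq h, neg_neg], by rw [neg_mul, t_sq h, neg_neg]⟩, swap i j)

theorem T_mem {i j : Fin n} (h : i ≠ j) : T h ∈ G0 n := fun k => by
  change involute (t i j) * e k = e (swap i j k) * t i j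
  have : involute (t i j) = -t i j := by simp only [t, e, map_sub, involute_ι]; abel
  rw [this]
  by_cases h1 : k = i
  · subst h1; simp [t, mul_sub, sub_mul, e_sq]
  by_cases h2 : k = j
  · subst h2; simp [t, mul_sub, sub_mul, e_sq]
  rw [swap_apply_of_ne_of_ne h1 h2]
  simp only [t, mul_sub, sub_mul, neg_mul, e_ac h1, e_ac h2]
  abel

theorem lift (σ : Perm (Fin n)) : ∃ g, (g, σ) ∈ G0 n := by
  induction σ using Perm.swap_induction_on with
  | one => exact ⟨1, one_mem _⟩
  | swap_mul f x y h ih => obtain ⟨g, hg⟩ := ih; exact ⟨_, mul_mem (T_mem h) hg⟩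

theorem ker1 {g : (C n)ˣ} (h : (g, 1) ∈ G0 n) : g = 1 ∨ g = -1 := by
  obtain ⟨r, hr⟩ := H5.scalar_of_contract (x := (g : C n)) fun d => by
    have : d = ∑ i, (2 * d (Pi.single i 1)) • (Q n).polarBilin (Pi.single i 1) := by
      ext j
      simp only [LinearMap.comp_apply, LinearMap.coe_single, LinearMap.sum_apply, LinearMap.smul_apply,
        QuadraticMap.polarBilin_apply_apply, pol, smul_eq_mul, mul_ite, mul_zero, Finset.sum_ite_eq', Finset.mem_univ,
        if_true]
      generalize d (Pi.single j 1) = x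
      revert x; decide
    rw [this, map_sum, LinearMap.sum_apply]
    refine Finset.sum_eq_zero fun i _ => ?_
    rw [map_smul, LinearMap.smul_apply, ← H5.ι_mul_sub]
    exact smul_eq_zero_of_right _ (sub_eq_zero.2 (h i).symm)
  obtain rfl | rfl | rfl : r = 0 ∨ r = 1 ∨ r = -1 := by clear hr; revert r; decide
  · exact absurd (hr.trans (map_zero _)) g.ne_zero
  · exact Or.inl (Units.ext (hr.trans (map_one _)))
  · exact Or.inr (Units.ext (hr.trans (by simp)))

def Γ (n : ℕ) : Subgroup ((C n)ˣ × Perm (Fin n)) := G0 n ⊓ (alternatingGroup (Fin n)).comap (MonoidHom.snd _ _)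

theorem ext' {x y : Γ n} (h : (x.1.1 : C n) = y.1.1) : x = y :=
  Subtype.ext (Prod.ext (Units.ext h) (Equiv.ext fun i => e_inj ((Units.mul_left_inj y.1.1).1 (by
    rw [← y.2.1 i, ← h, x.2.1 i]))))

noncomputable def U {i j k l : Fin n} (h : i ≠ j) (h' : k ≠ l) : Γ n :=
  ⟨T h * T h', mul_mem (T_mem h) (T_mem h'), by
    change swap i j * swap k l ∈ alternatingGroup (Fin n)
    simp [h, h']⟩

theorem exists_cover (n : ℕ) : ∃ (G : Type) (_ : Group G) (_ : Finite G) (π : G →* alternatingGroup (Fin n)) (z : G),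
    Function.Surjective π ∧ π.ker = zpowers z ∧ z ∈ center G ∧ orderOf z = 2 ∧ (4 ≤ n → z ∈ commutator G) ∧
      (n = 8 → ∃ y, y ≠ z ∧ orderOf y = 2) := by
  let π : Γ n →* alternatingGroup (Fin n) := ((MonoidHom.snd _ _).comp (Γ n).subtype).codRestrict _ fun x => x.2.2
  let z : Γ n := ⟨(-1, 1), fun i => by simp, one_mem (alternatingGroup (Fin n))⟩
  have oz : orderOf z = 2 := orderOf_eq_prime (ext' (by simp [z])) fun c => ne1 (congrArg (fun x : Γ n => (x.1.1 : C n)) c)
  have k : π.ker = zpowers z := le_antisymm (fun x hx => by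
    have e1 : x.1.2 = 1 := congrArg Subtype.val hx
    rcases ker1 (g := x.1.1) (e1 ▸ x.2.1) with h | h
    · exact (ext' (y := 1) (congrArg Units.val h)) ▸ one_mem _
    · exact (ext' (y := z) (congrArg Units.val h)) ▸ mem_zpowers _) (zpowers_le.2 rfl)
  refine ⟨Γ n, inferInstance, π.finite_iff_finite_ker_range.2 ⟨?_, inferInstance⟩, π, z, fun σ => ?_, k,
    mem_center_iff.2 fun g => ext' (by simp [z]), oz, fun hn => ?_, ?_⟩
  · rw [k]; exact Nat.finite_of_card_ne_zero (by rw [Nat.card_zpowers, oz]; decide)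
  · obtain ⟨g, hg⟩ := lift σ.1
    exact ⟨⟨(g, σ.1), hg, σ.2⟩, rfl⟩
  · obtain ⟨i, j, k, l, h1, h2, h3, h4, h5, h6⟩ : ∃ i j k l : Fin n, i ≠ j ∧ i ≠ k ∧ i ≠ l ∧ j ≠ k ∧ j ≠ l ∧ k ≠ l :=
      ⟨⟨0, by omega⟩, ⟨1, by omega⟩, ⟨2, by omega⟩, ⟨3, by omega⟩, by simp⟩
    have : U h1 h6 * U h2 h5 = z * (U h2 h5 * U h1 h6) := ext' (by
      change t i j * t k l * (t i k * t j l) = -1 * (t i k * t j l * (t i j * t k l))
      simp only [t, mul_sub, sub_mul, mul_assoc, e_sq, e_sq', e_ac h1, e_ac h2, e_ac h3, e_ac h4, e_ac h5, e_ac h6,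
        e_ac' h1, e_ac' h2, e_ac' h3, e_ac' h4, e_ac' h5, e_ac' h6, mul_neg, neg_mul, one_mul, mul_one, neg_neg]
      abel)
    have : z = ⁅U h1 h6, U h2 h5⁆ := by rw [commutatorElement_def, this]; group
    exact this ▸ commutator_mem_commutator (mem_top _) (mem_top _)
  · rintro rfl
    let y : Γ 8 := U (i := 0) (j := 1) (k := 2) (l := 3) (by decide) (by decide) *
        U (i := 4) (j := 5) (k := 6) (l := 7) (by decide) (by decide)
    have a : π y ≠ 1 := fun c =>
      absurd (show swap (0 : Fin 8) 1 * swap 2 3 * (swap 4 5 * swap 6 7) = 1 from congrArg Subtype.val c) (by decide)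
    refine ⟨y, fun c => a (by rw [c]; rfl), orderOf_eq_prime (ext' ?_) fun c => a (by rw [c, map_one])⟩
    rw [pow_two]
    change t 0 1 * t 2 3 * (t 4 5 * t 6 7) * (t 0 1 * t 2 3 * (t 4 5 * t 6 7)) = (1 : C 8)
    simp (disch := decide) only [mul_assoc, t_ac (i := 0) (j := 1) (k := 2) (l := 3), t_ac (i := 0) (j := 1) (k := 4) (l := 5),
      t_ac (i := 0) (j := 1) (k := 6) (l := 7), t_ac (i := 2) (j := 3) (k := 4) (l := 5),
      t_ac (i := 2) (j := 3) (k := 6) (l := 7), t_ac (i := 4) (j := 5) (k := 6) (l := 7), t_sq, t_sq', mul_neg, neg_neg,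
      mul_one]

end H1.Spin
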