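import Cfsg.Agent.H1.SylAct

/-! H1.Syl22: no simple group has `22` Sylow `3`-subgroups. -/

open Pointwise Cfsg Subgroup MulAction

namespace H1

universe u

variable {G : Type u} [Group G] [Finite G]

theorem relIndex_sylow_smul {p : ℕ} (g : G) (P R : Sylow p G) :
    ((g • R : Sylow p G) : Subgroup G).relIndex (g • P : Sylow p G) = (R : Subgroup G).relIndex P :=
  relIndex_pointwise_smul (MulAut.conj g) _ _

theorem card_three_of_22 [IsSimpleGroup G] [Fact (Nat.Prime 3)] (hn : Nat.card (Sylow 3 G) = 22)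
    (P : Sylow 3 G) : Nat.card P = 3 := by
  classical
  have := Fintype.ofFinite (Sylow 3 G)
  have hn' : Fintype.card (Sylow 3 G) = 22 := by rwa [← Nat.card_eq_fintype_card]
  let nb : Sylow 3 G → Finset (Sylow 3 G) := fun X => Finset.univ.filter fun R => (R : Subgroup G).relIndex X = 3
  have hnb : ∀ X R, R ∈ nb X ↔ (R : Subgroup G).relIndex X = 3 := fun X R => by simp [nb]
  have hfix : ∀ g : (P : Subgroup G), g • P = P := fun g =>
    Sylow.smul_eq_iff_mem_normalizer.2 (le_normalizer g.2)
  have hrel : ∀ (g : (P : Subgroup G)) (R : Sylow 3 G),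
      ((g • R : Sylow 3 G) : Subgroup G).relIndex P = (R : Subgroup G).relIndex P := fun g R => by
    have := relIndex_sylow_smul (g : G) P R
    rwa [show (g : G) • P = P from hfix g] at this
  have hv : ∀ X, (nb X).card = (nb P).card := fun X => by
    obtain ⟨g, rfl⟩ := exists_smul_eq G P X
    refine (Finset.card_bijective _ (MulAction.bijective g) fun R => ?_).symm
    rw [hnb, hnb, relIndex_sylow_smul]
  have hP : P ∉ nb P := by rw [hnb, relIndex_self]; omega
  have h9 : 9 ∣ (insert P (nb P))ᶜ.card := by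
    refine H5.dvd_card_of_stab (G := (P : Subgroup G)) _ (fun g y hy => ?_) fun y hy => ?_
    · simp only [Finset.mem_compl, Finset.mem_insert, hnb, hrel, not_or] at hy ⊢
      exact ⟨fun e => hy.1 (smul_left_cancel g (e.trans (hfix g).symm)), hy.2⟩
    · simp only [Finset.mem_compl, Finset.mem_insert, hnb, not_or] at hy
      rw [index_stab_sylow]
      obtain ⟨k, hk⟩ := L.exists_relIndex_eq_pow (N := (y : Subgroup G)) P.isPGroup'
      rcases k with _ | _ | k
      · exact (hy.1 (relIndex_sylow_eq_one hk)).elim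
      · exact (hy.2 (by simpa using hk)).elim
      · exact ⟨3 ^ k, by rw [hk]; ring⟩
  have hle := Finset.card_le_univ (insert P (nb P))
  rw [Finset.card_compl, hn'] at h9
  rw [hn'] at hle
  rw [Finset.card_insert_of_notMem hP] at h9 hle
  obtain ⟨R, hR⟩ := Finset.card_pos.1 (show 0 < (nb P).card by omega)
  rw [hnb] at hR
  have hRP : R ≠ P := fun e => hP ((hnb P P).2 (e ▸ hR))
  set D : Subgroup G := (P : Subgroup G) ⊓ R with hD
  have hDP : D.relIndex P = 3 := by rwa [hD, inf_relIndex_left]
  let l : Finset (Sylow 3 G) := Finset.univ.filter fun X => D ≤ X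
  have hl : ∀ X, X ∈ l ↔ D ≤ X := fun X => by simp [l]
  have hDX : ∀ X ∈ l, D.relIndex X = 3 := fun X hX => by
    have h1 := card_mul_relIndex ((hl X).1 hX)
    have h2 := card_mul_relIndex (inf_le_left : D ≤ P)
    rw [← (isSylowIn_top P).card_eq_card (isSylowIn_top X), ← h2, hDP] at h1
    exact Nat.eq_of_mul_eq_mul_left Nat.card_pos h1
  have hinf : ∀ X ∈ l, ∀ Y ∈ l, Y ≠ X → (X : Subgroup G) ⊓ Y = D := fun X hX Y hY h =>
    adj_eq_of_le (hDX X hX) ((hl X).1 hX) ((hl Y).1 hY) h
  have hadj : ∀ X ∈ l, ∀ Y ∈ l, Y ≠ X → (Y : Subgroup G).relIndex X = 3 := fun X hX Y hY h => by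
    rw [← inf_relIndex_left, hinf X hX Y hY h, hDX X hX]
  have hPl : P ∈ l := (hl P).2 inf_le_left
  have hRl : R ∈ l := (hl R).2 inf_le_right
  have h3 : 3 ∣ (l.erase P).card := by
    refine H5.dvd_card_of_stab (G := (P : Subgroup G)) _ (fun g y hy => ?_) fun y hy => ?_
    · simp only [Finset.mem_erase, hl] at hy ⊢
      refine ⟨fun e => hy.1 (smul_left_cancel g (e.trans (hfix g).symm)), ?_⟩
      exact (conj_smul_eq_self_iff.2 (adj_normalizer hR g.2)).ge.trans (conj_smul_mono _ hy.2)
    · rw [index_stab_sylow, hadj P hPl y (Finset.mem_of_mem_erase hy) (Finset.ne_of_mem_erase hy)]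
  have h2 : 0 < (l.erase P).card := Finset.card_pos.2 ⟨R, Finset.mem_erase.2 ⟨hRP, hRl⟩⟩
  rw [Finset.card_erase_of_mem hPl] at h2 h3
  have hsub : nb P ⊆ l := by
    by_contra hc
    have h4 : l.card ≤ (nb P).card := by
      have := Finset.card_lt_card (s := l.erase P) (t := nb P) ⟨fun y hy =>
        (hnb P y).2 (hadj P hPl y (Finset.mem_of_mem_erase hy) (Finset.ne_of_mem_erase hy)),
        fun h => hc (h.trans (Finset.erase_subset _ _))⟩
      rw [Finset.card_erase_of_mem hPl] at this
      omega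
    have h5 : (l.biUnion fun X => nb X \ l).card ≤ 22 - l.card := by
      rw [← hn', ← Finset.card_compl]
      refine Finset.card_le_card fun y hy => ?_
      obtain ⟨X, -, hX⟩ := Finset.mem_biUnion.1 hy
      exact Finset.mem_compl.2 (Finset.mem_sdiff.1 hX).2
    rw [Finset.card_biUnion] at h5
    · have h6 := Finset.card_nsmul_le_sum l (fun X => (nb X \ l).card) ((nb P).card + 1 - l.card) fun X hX => by
        have h7 := Finset.card_sdiff_add_card_inter (nb X) l
        have h8 := Finset.card_le_card (s := nb X ∩ l) (t := l.erase X) fun y hy =>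
          Finset.mem_erase.2 ⟨fun e => by
            have := (hnb X y).1 (Finset.mem_inter.1 hy).1
            rw [e, relIndex_self] at this; omega, (Finset.mem_inter.1 hy).2⟩
        rw [Finset.card_erase_of_mem hX] at h8
        rw [hv] at h7
        omega
      have h7 := h6.trans h5
      rw [smul_eq_mul] at h7
      generalize l.card = k at *
      generalize (nb P).card = v at *
      have : v = 12 ∨ v = 21 := by omega
      rcases this with rfl | rfl <;> interval_cases k <;> omega
    · intro X hX Y hY hXY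
      refine Finset.disjoint_left.2 fun T h1 h2 => (Finset.mem_sdiff.1 h1).2 ((hl T).2 ?_)
      have := no_triangle (hadj X hX Y hY hXY.symm) ((hnb X T).1 (Finset.mem_sdiff.1 h1).1)
        (by rw [relIndex_sylow_comm]; exact (hnb Y T).1 (Finset.mem_sdiff.1 h2).1)
      rw [hinf X hX Y hY hXY.symm] at this
      exact this.le.trans inf_le_right
  have hN : normalizer ((P : Subgroup G) : Set G) ≤ normalizer (D : Set G) := fun n hn => by
    have h1 : n • P = P := Sylow.smul_eq_iff_mem_normalizer.2 hn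
    have h4 : n • R ∈ nb P := by
      have := relIndex_sylow_smul n P R
      rw [h1, hR] at this
      exact (hnb _ _).2 this
    rw [← conj_smul_eq_self_iff]
    refine Eq.trans ?_ (hinf P hPl _ (hsub h4) fun e => hP (e ▸ h4))
    rw [hD, smul_inf, conj_smul_eq_self_iff.2 hn]
    rfl
  have h4 := ((isSylowIn_top P).of_le (le_normalizer.trans hN) le_top).relIndex_normalizer_modEq
  have h5 := relIndex_mul_index hN
  rw [← (isSylowIn_top P).card_sylow, hn] at h5
  have h6 : (normalizer ((P : Subgroup G) : Set G)).relIndex (normalizer (D : Set G)) ≠ 1 := fun e => by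
    have h7 : (R : Subgroup G) ≤ normalizer (D : Set G) := by
      rw [hD, inf_comm]; exact adj_normalizer (by rwa [relIndex_sylow_comm])
    exact hRP (Sylow.ext (R.is_maximal' P.isPGroup' ((isSylowIn_top P).le_of_le_normalizer R.isPGroup' le_top
      (h7.trans (relIndex_eq_one.1 e)))).symm)
  have h7 : (normalizer (D : Set G)).index = 1 := by
    generalize (normalizer ((P : Subgroup G) : Set G)).relIndex (normalizer (D : Set G)) = a at *
    have h8 : a ≤ 22 := Nat.le_of_dvd (by norm_num) ⟨_, h5.symm⟩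
    unfold Nat.ModEq at h4
    interval_cases a <;> omega
  haveI := normalizer_eq_top_iff.1 (index_eq_one.1 h7)
  have h8 : D = ⊥ := eq_bot_of_le_sylows (p := 3) (by omega) fun T =>
    (isSylowIn_top T).ge_of_normal P.isPGroup'.to_inf_left le_top le_normalizer_of_normal
  rwa [h8, relIndex_bot_left] at hDP

theorem card_sylow_three [IsSimpleGroup G] : Nat.card (Sylow 3 G) ≠ 22 := by
  classical
  intro hn
  haveI : Fact (Nat.Prime 3) := ⟨by norm_num⟩
  haveI : Fact (Nat.Prime 2) := ⟨by norm_num⟩
  haveI : Fact (Nat.Prime 5) := ⟨by norm_num⟩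
  haveI : Fact (Nat.Prime 7) := ⟨by norm_num⟩
  haveI : Fact (Nat.Prime 11) := ⟨by norm_num⟩
  have := Fintype.ofFinite (Sylow 3 G)
  have hn' : Fintype.card (Sylow 3 G) = 22 := by rwa [← Nat.card_eq_fintype_card]
  have h3 := card_three_of_22 hn
  have hf := sylow_faithful (G := G) (p := 3) (by omega)
  have hc := fun P : Sylow 3 G => hn ▸ card_sylow_mul P
  obtain ⟨P⟩ : Nonempty (Sylow 3 G) := inferInstance
  have hG : ¬ (Nat.card G).Prime := fun h => by
    have := hc P
    rcases h.eq_one_or_self_of_dvd 2 ⟨11 * _, by rw [← this]; ring⟩ with e | e <;> omega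
  have hG2 : Nat.card G ≠ 2 := fun e => hG (e ▸ Nat.prime_two)
  have hG3 : 3 ∣ Nat.card G := h3 P ▸ card_subgroup_dvd_card _
  have hN : ∀ R : Sylow 3 G, Nat.card (normalizer ((R : Subgroup G) : Set G)) =
      Nat.card (centralizer ((R : Subgroup G) : Set G)) * 2 := fun R => by
    obtain ⟨e, h1, h2, h4⟩ := card_norm_eq (h3 R)
    rcases Nat.prime_two.eq_one_or_self_of_dvd e h1 with h5 | h5
    · exact (not_norm_le_cent hG hG3 R (h4 h5)).elim
    · rw [h2, h5]
  have hodd : ∀ (R : Sylow 3 G) (u : G), u • R = R → (orderOf u).Coprime 2 →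
      u ∈ centralizer ((R : Subgroup G) : Set G) := fun R u hu ho =>
    le_of_coprime_relIndex (zpowers_le.2 (Sylow.smul_eq_iff_mem_normalizer.1 hu)) (centralizer_normalizer _)
      (by rw [Nat.card_zpowers]; exact ho.coprime_dvd_right (relIndex_cent_dvd (h3 R))) (mem_zpowers u)
  have h7 : ∀ u : G, orderOf u = 7 → ∃ R : Sylow 3 G, u ∈ centralizer ((R : Subgroup G) : Set G) ∧
      ∀ T, u • T = T → T = R := fun u hu => by
    have h1 := dvd_card_sp (α := Sylow 3 G) (by norm_num) hu
    obtain ⟨R, hR⟩ : ∃ R, R ∉ sp (Sylow 3 G) u := by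
      by_contra h
      push Not at h
      rw [Finset.eq_univ_iff_forall.2 h, Finset.card_univ, hn'] at h1
      omega
    have h2 := hodd R u (not_not.1 (mt mem_sp.2 hR)) (by rw [hu]; norm_num)
    have h4 := sp_of_mem_centralizer (h3 R) h2
    have h5 := sp_card_pos hf (g := u) fun e => by simp [e] at hu
    have h6 : (sp (Sylow 3 G) u)ᶜ.card ≤ 1 := by rw [Finset.card_compl, hn']; omega
    exact ⟨R, h2, fun T hT => Finset.card_le_one.1 h6 _ (Finset.mem_compl.2 fun e => mem_sp.1 e hT) _
      (Finset.mem_compl.2 hR)⟩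
  have hcomm : ∀ (u t : G) (R : Sylow 3 G), (∀ T, u • T = T → T = R) → u • R = R → Commute u t → t • R = R :=
    fun u t R h1 h2 h4 => h1 _ (by rw [← mul_smul, h4.eq, mul_smul, h2])
  have hfix : ∀ (R : Sylow 3 G) (u : G), u ∈ centralizer ((R : Subgroup G) : Set G) → u • R = R := fun R u hu =>
    Sylow.smul_eq_iff_mem_normalizer.2 (centralizer_le_normalizer _ hu)
  have h5 : ¬ 5 ∣ Nat.card (centralizer ((P : Subgroup G) : Set G)) := fun h => by
    obtain ⟨⟨k, hk⟩, ho⟩ := exists_prime_orderOf_dvd_card' 5 h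
    rw [← orderOf_coe] at ho
    simp only at ho
    have h1 := dvd_card_sp (α := Sylow 3 G) (by norm_num) ho
    have h4 := sp_of_mem_centralizer (h3 P) hk
    have h6 := sp_card_pos hf (g := k) fun e => by simp [e] at ho
    have h8 : (sp (Sylow 3 G) k).card = 15 := by omega
    have h9 : orbit (centralizer ({k} : Set G)) P = ((sp (Sylow 3 G) k)ᶜ : Finset _) := by
      ext R
      rw [Finset.mem_coe, Finset.mem_compl, mem_sp, not_not]
      constructor
      · rintro ⟨c, rfl⟩
        change k • (c : G) • P = (c : G) • P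
        rw [← mul_smul, ← mem_centralizer_singleton_iff.1 c.2, mul_smul, hfix P k hk]
      · intro hR
        have hle : ∀ T : Sylow 3 G, k ∈ centralizer ((T : Subgroup G) : Set G) →
            IsSylowIn 3 (T : Subgroup G) (centralizer {k}) := fun T hT =>
          (isSylowIn_top T).of_le (fun x hx => mem_centralizer_singleton_iff.2 (hT x hx)) le_top
        obtain ⟨c, hc, e⟩ := (hle P hk).conj (hle R (hodd R k hR (by rw [ho]; norm_num)))
        exact ⟨⟨c, hc⟩, Sylow.ext e⟩
    have h10 := (stabilizer (centralizer ({k} : Set G)) P).index_dvd_card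
    rw [index_stabilizer, h9, Set.ncard_coe_finset, Finset.card_compl, hn', h8] at h10
    obtain ⟨⟨u, hu⟩, hou⟩ := exists_prime_orderOf_dvd_card' 7 h10
    rw [← orderOf_coe] at hou
    obtain ⟨R, r1, r2⟩ := h7 u hou
    have hku : Commute u k := mem_centralizer_singleton_iff.1 hu
    have := dvd_card_of_free (by norm_num) hou (sp (Sylow 3 G) k) (fun a ha => smul_mem_sp hku.symm ha)
      fun a ha e => mem_sp.1 ha (by rw [r2 a e]; exact hcomm u k R r2 (hfix R u r1) hku)
    omega
  obtain ⟨x, hx, x1, x2, x3⟩ := exists_gen_of_card_prime (h3 P)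
  have hCx : Nat.card (centralizer ((P : Subgroup G) : Set G)) ∣ 3 ^ 9 * (5 * 112) := by
    have h1 := card_centralizer_dvd hf x
    have h2 := Equiv.Perm.cycleType_of_pow_prime_eq_one (σ := toPermHom G (Sylow 3 G) x) (p := 3)
      (by rw [← map_pow, ← x2, pow_orderOf_eq_one, map_one])
    have h4 := (toPermHom G (Sylow 3 G) x).sum_cycleType
    have h6 : (toPermHom G (Sylow 3 G) x).support = Finset.univ.erase P := by
      ext R
      rw [Finset.mem_erase, and_iff_left (Finset.mem_univ R)]
      exact mem_sp.trans ⟨fun h e => h (e ▸ Sylow.smul_eq_iff_mem_normalizer.2 (le_normalizer hx)),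
        smul_ne_of_card_prime (h3 P) hx x1⟩
    rw [h6, Finset.card_erase_of_mem (Finset.mem_univ _), Finset.card_univ, hn', h2, Multiset.sum_replicate,
      smul_eq_mul] at h4
    rw [show Multiset.card (toPermHom G (Sylow 3 G) x).cycleType = 7 by omega] at h2
    rw [Equiv.Perm.nat_card_centralizer, h2, hn'] at h1
    refine (card_dvd_of_le (centralizer_le (Set.singleton_subset_iff.2 hx))).trans (h1.trans ?_)
    simp [Nat.factorial]
  have hC3 : (P : Subgroup G) ≤ centralizer ((P : Subgroup G) : Set G) := by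
    rw [← x3]; exact le_centralizer _
  obtain ⟨m, hm⟩ : 3 ∣ Nat.card (centralizer ((P : Subgroup G) : Set G)) :=
    (dvd_of_eq (h3 P).symm).trans (card_dvd_of_le hC3)
  have hGm : Nat.card G = 132 * m := by rw [← hc P, hN, hm]; ring
  have hm3 : ¬ 3 ∣ m := fun h => by
    have h1 := P.not_dvd_index
    have h2 := (P : Subgroup G).card_mul_index
    rw [h3 P, hGm] at h2
    omega
  have hm112 : m ∣ 112 := by
    rw [hm] at hCx h5
    have h1 := Nat.Coprime.dvd_of_dvd_mul_left (Nat.Coprime.pow_right 9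
      ((Nat.Prime.coprime_iff_not_dvd (by norm_num)).2 hm3).symm) ((Dvd.intro_left _ rfl).trans hCx)
    exact Nat.Coprime.dvd_of_dvd_mul_left ((Nat.Prime.coprime_iff_not_dvd (by norm_num)).2
      fun h => h5 (h.mul_left 3)).symm h1
  have hmle := Nat.le_of_dvd (by norm_num) hm112
  have hm11 : ¬ 11 ∣ m := fun h => absurd (h.trans hm112) (by norm_num)
  have hm5 : ¬ 5 ∣ m := fun h => absurd (h.trans hm112) (by norm_num)
  have hcard : ∀ (q : ℕ) [Fact q.Prime] (Q : Sylow q G) (j : ℕ), Nat.card G = q * j → ¬ q ∣ j →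
      Nat.card Q = q := fun q hq Q j h1 h2 =>
    eq_of_only_prime hq.out (Q.dvd_card_of_dvd_card ⟨j, h1⟩) (h1 ▸ card_subgroup_dvd_card _) h2
      (isPGroup_iff_isPiNum.1 Q.isPGroup')
  obtain ⟨Q⟩ : Nonempty (Sylow 11 G) := inferInstance
  have hQ := hcard 11 Q (12 * m) (by omega) (by omega)
  obtain ⟨y, hy, y1, y2, y3⟩ := exists_gen_of_card_prime hQ
  have hCQ : Nat.card (centralizer ((Q : Subgroup G) : Set G)) = 11 := by
    refine eq_of_only_prime (m := 12 * m) (by norm_num) ((dvd_of_eq hQ.symm).trans (card_dvd_of_le (by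
      rw [← y3]; exact le_centralizer _))) ((card_subgroup_dvd_card _).trans (dvd_of_eq (by omega))) (by omega)
      fun r hr hd => ?_
    haveI := Fact.mk hr
    obtain ⟨⟨t, ht⟩, ho⟩ := exists_prime_orderOf_dvd_card' r hd
    rw [← orderOf_coe] at ho
    simp only at ho
    have h1 := dvd_card_of_free (by norm_num) y2 (sp (Sylow 3 G) t) (fun a ha => smul_mem_sp (ht y hy).symm ha)
      fun a _ e => by
        have h2 := orderOf_dvd_card_of_mem (H := normalizer ((a : Subgroup G) : Set G))
          (Sylow.smul_eq_iff_mem_normalizer.1 e)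
        have h4 := hc a
        rw [y2] at h2
        omega
    have h2 := dvd_card_sp (α := Sylow 3 G) hr ho
    have h4 := sp_card_pos hf (g := t) fun e => hr.ne_one (by rw [← ho, e, orderOf_one])
    have h6 := Finset.card_le_univ (sp (Sylow 3 G) t)
    rw [hn'] at h6
    by_contra hr11
    have h8 : r ∣ 2 := by
      refine Nat.Coprime.dvd_of_dvd_mul_left ((Nat.coprime_primes hr (by norm_num : Nat.Prime 11)).2 hr11)
        (h2.trans ?_)
      have : (sp (Sylow 3 G) t).card = 11 ∨ (sp (Sylow 3 G) t).card = 22 := by omega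
      rcases this with e | e <;> rw [e] <;> norm_num
    have h9 := (Nat.prime_dvd_prime_iff_eq hr Nat.prime_two).1 h8
    subst h9
    have := four_dvd_card_sp (α := Sylow 3 G) hG2 (ho ▸ pow_orderOf_eq_one t)
    omega
  obtain ⟨e, e1, e2, e3⟩ := card_norm_eq hQ
  have hQc := card_sylow_mul Q
  have hQm := card_sylow_modEq_one 11 G
  have he : e = 2 := by
    have h1 : e ≠ 1 := fun h => not_norm_le_cent hG ⟨12 * m, by omega⟩ Q (e3 h)
    have h2 : ¬ 5 ∣ e := fun h => by
      have : 5 ∣ Nat.card G := by rw [← hQc, e2]; exact (h.mul_left _).mul_left _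
      omega
    have h4 := Nat.le_of_dvd (by norm_num) e1
    interval_cases e <;> omega
  rw [he, hCQ] at e2
  rw [e2, hGm] at hQc
  unfold Nat.ModEq at hQm
  have hm2 : m = 2 ∨ m = 112 := by
    have h1 : (6 * m) % 11 = 1 := by omega
    clear * - h1 hm112 hmle
    interval_cases m <;> omega
  rcases hm2 with rfl | rfl
  · have := norm_dvd_of_index (p := 11) (by norm_num) ⟨24, by omega⟩
      (H := normalizer ((Q : Subgroup G) : Set G)) (Or.inr (by rw [← (isSylowIn_top Q).card_sylow]; omega)) Q
    rw [e2] at this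
    omega
  obtain ⟨U⟩ : Nonempty (Sylow 7 G) := inferInstance
  have hU := hcard 7 U 2112 (by omega) (by omega)
  obtain ⟨u, hu, u1, u2, u3⟩ := exists_gen_of_card_prime hU
  obtain ⟨R, r1, r2⟩ := h7 u u2
  have hCR : ∀ t ∈ centralizer ((U : Subgroup G) : Set G), t • R = R := fun t ht =>
    hcomm u t R r2 (hfix R u r1) (ht u hu)
  have hCU : Nat.card (centralizer ((U : Subgroup G) : Set G)) ∣ 21 := by
    have h1 : Nat.card (centralizer ((U : Subgroup G) : Set G)) ∣ 2 ^ 5 * 21 := by
      refine (card_dvd_of_le (K := normalizer ((R : Subgroup G) : Set G))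
        fun t ht => Sylow.smul_eq_iff_mem_normalizer.1 (hCR t ht)).trans (dvd_of_eq ?_)
      have := hc R
      omega
    refine Nat.Coprime.dvd_of_dvd_mul_left (Nat.Coprime.pow_right 5
      ((Nat.Prime.coprime_iff_not_dvd Nat.prime_two).2 fun h => ?_).symm) h1
    obtain ⟨⟨t, ht⟩, ho⟩ := exists_prime_orderOf_dvd_card' 2 h
    rw [← orderOf_coe] at ho
    simp only at ho
    have h2 := dvd_card_of_free (by norm_num) u2 (sp (Sylow 3 G) t) (fun a ha => smul_mem_sp (ht u hu).symm ha)
      fun a ha e => mem_sp.1 ha (by rw [r2 a e]; exact hCR t ht)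
    have h4 := sp_card_pos hf (g := t) fun e => by simp [e] at ho
    have h6 := Finset.card_le_univ (sp (Sylow 3 G) t)
    have := four_dvd_card_sp (α := Sylow 3 G) hG2 (ho ▸ pow_orderOf_eq_one t)
    omega
  obtain ⟨e', f1, f2, -⟩ := card_norm_eq hU
  have hUc := card_sylow_mul U
  have hUm := card_sylow_modEq_one 7 G
  have h1 : Nat.card (normalizer ((U : Subgroup G) : Set G)) ∣ 21 * 6 := f2 ▸ Nat.mul_dvd_mul hCU f1
  have h2 : 7 ∣ Nat.card (normalizer ((U : Subgroup G) : Set G)) :=
    (dvd_of_eq hU.symm).trans (card_dvd_of_le le_normalizer)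
  unfold Nat.ModEq at hUm
  rw [hGm] at hUc
  generalize Nat.card (normalizer ((U : Subgroup G) : Set G)) = j at *
  have h4 := Nat.le_of_dvd (by norm_num) h1
  obtain ⟨i, rfl⟩ := h2
  have h6 : i ≤ 18 := by omega
  clear * - h1 hUc hUm h6
  interval_cases i <;> omega

end H1
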