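import Cfsg.Agent.H1.TIH
import Cfsg.Agent.H1.Gaschutz

/-! coprime action on Z-groups; π-separable groups with a TI Hall subgroup. -/

namespace H1
open Subgroup Cfsg
open scoped Pointwise

universe u
variable {G : Type u} [Group G] [Finite G]

theorem zg_of_le {H K : Subgroup G} [IsZGroup H] (h : K ≤ H) : IsZGroup K :=
  IsZGroup.of_injective (f := inclusion h) (inclusion_injective h)

theorem zg_pcyclic {H P : Subgroup G} [IsZGroup H] (h : P ≤ H) {p : ℕ} [Fact p.Prime]
    (hP : IsPGroup p P) : IsCyclic P :=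
  haveI := zg_of_le h
  (MulEquiv.isCyclic topEquiv).1 (IsPGroup.isCyclic_of_isZGroup (P := ⊤) (hP.to_subgroup ⊤))

theorem zg_comm_cyclic {H Q : Subgroup G} [IsZGroup H] (hQ : Q ≤ normalizer (H : Set G))
    (hc : (Nat.card Q).Coprime (Nat.card H)) : IsCyclic (⁅H, Q⁆ : Subgroup G) := by
  have hKK := commutator_commutator_eq hQ hc (Or.inr inferInstance)
  have hQK : Q ≤ normalizer ((⁅H, Q⁆ : Subgroup G) : Set G) := le_normalizer_commutator hQ le_normalizer
  haveI := zg_of_le (commutator_le_of_le_normalizer hQ)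
  generalize ⁅H, Q⁆ = K at *
  have e : (_root_.commutator K).map K.subtype = ⁅K, K⁆ := by
    rw [_root_.commutator_def, map_commutator, ← MonoidHom.range_eq_map, range_subtype]
  have h1 : IsCyclic (⁅K, K⁆ : Subgroup G) := by
    rw [← e]
    exact (MulEquiv.isCyclic (equivMapOfInjective _ _ K.subtype_injective)).1 (IsZGroup.isCyclic_commutator K)
  have h2 : K ≤ centralizer ((⁅K, K⁆ : Subgroup G) : Set G) := by
    refine le_trans ?_ (commutator_le_centralizer_of_isCyclic (L := K ⊔ Q) h1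
      (sup_le (le_normalizer_commutator le_normalizer le_normalizer) (le_normalizer_commutator hQK hQK)))
    conv_lhs => rw [← hKK]
    exact commutator_mono le_sup_left le_sup_right
  have h3 : (Abelianization.of (G := K)).ker ≤ center K := by
    rw [Abelianization.ker_of]
    intro x hx
    rw [mem_center_iff]
    intro y
    have : (x : G) ∈ ⁅K, K⁆ := e ▸ mem_map_of_mem _ hx
    exact Subtype.ext (mem_centralizer_iff.1 (h2 y.2) x this).symm
  let _ := commGroupOfCyclicCenterQuotient Abelianization.of h3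
  infer_instance

theorem zg_sylow_le {H Q : Subgroup G} [IsZGroup H] (hQ : Q ≤ normalizer (H : Set G))
    (hc : (Nat.card Q).Coprime (Nat.card H)) {p : ℕ} [Fact p.Prime]
    (hp : p ∣ Nat.card (H ⊓ centralizer (Q : Set G) : Subgroup G)) :
    ∃ P, IsSylowIn p P H ∧ P ≤ H ⊓ centralizer (Q : Set G) := by
  obtain ⟨P, hP, hQP⟩ := exists_invariant_sylow (p := p) hQ hc (Or.inr inferInstance)
  have h1 := hP.inf_centralizer hQ hc (Or.inr inferInstance) hQP
  have h0 : P ⊓ centralizer (Q : Set G) ≠ ⊥ := fun e => h1.eq_bot_iff.1 e hp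
  haveI := zg_pcyclic hP.le hP.isPGroup
  refine ⟨P, hP, le_inf hP.le ?_⟩
  rcases hP.isPGroup.commutator_eq_bot_or_commutator_eq_self hQP
    (coprime_of_le_right hc hP.le).symm with h | h
  · exact le_centralizer_iff.1 (commutator_eq_bot_iff_le_centralizer.1 h)
  · have := abelian_centralizer_inf_commutator (V := P) inferInstance hQP (coprime_of_le_right hc hP.le)
    rw [commutator_comm, h, inf_eq_left.2 inf_le_left] at this
    exact absurd this h0

theorem zg_inf {H Q : Subgroup G} [IsZGroup H] (hQ : Q ≤ normalizer (H : Set G))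
    (hc : (Nat.card Q).Coprime (Nat.card H)) : ⁅H, Q⁆ ⊓ centralizer (Q : Set G) = ⊥ := by
  haveI := zg_comm_cyclic hQ hc
  have := abelian_centralizer_inf_commutator (V := ⁅H, Q⁆) inferInstance
    (le_normalizer_commutator hQ le_normalizer) (coprime_of_le_right hc (commutator_le_of_le_normalizer hQ))
  rwa [commutator_commutator_eq hQ hc (Or.inr inferInstance), inf_eq_left.2 inf_le_left] at this

theorem zg_coprime {H Q : Subgroup G} [IsZGroup H] (hQ : Q ≤ normalizer (H : Set G))
    (hc : (Nat.card Q).Coprime (Nat.card H)) :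
    (Nat.card (H ⊓ centralizer (Q : Set G) : Subgroup G)).Coprime (Nat.card (⁅H, Q⁆ : Subgroup G)) := by
  refine Nat.coprime_of_dvd fun p hp h1 h2 => ?_
  haveI := Fact.mk hp
  obtain ⟨P, hP, hPC⟩ := zg_sylow_le hQ hc h1
  have := hP.inf_normal (commutator_le_of_le_normalizer hQ)
    (hP.le.trans (normalizer_commutator_ge_left H Q))
  refine this.eq_bot_iff.1 ?_ h2
  rw [eq_bot_iff, ← zg_inf hQ hc]
  exact le_inf inf_le_right (inf_le_left.trans (hPC.trans inf_le_right))

theorem zg_hall {H Q : Subgroup G} [IsZGroup H] (hQ : Q ≤ normalizer (H : Set G))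
    (hc : (Nat.card Q).Coprime (Nat.card H)) :
    (Nat.card (H ⊓ centralizer (Q : Set G) : Subgroup G)).Coprime
      ((H ⊓ centralizer (Q : Set G)).relIndex H) := by
  refine Nat.coprime_of_dvd fun p hp h1 h2 => ?_
  haveI := Fact.mk hp
  obtain ⟨P, hP, hPC⟩ := zg_sylow_le hQ hc h1
  exact hP.not_dvd_relIndex_of_le hPC h2

theorem zg_comm_cent {H Q : Subgroup G} [IsZGroup H] (hQ : Q ≤ normalizer (H : Set G))
    (hc : (Nat.card Q).Coprime (Nat.card H)) : ⁅Q, Q⁆ ≤ centralizer (H : Set G) := by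
  rw [le_centralizer_iff]
  refine le_of_forall_isSylowIn_le fun p hp _ => ?_
  obtain ⟨P, hP, hQP⟩ := exists_invariant_sylow (p := p) hQ hc (Or.inr inferInstance)
  exact ⟨P, hP, le_centralizer_iff.1
    (commutator_le_centralizer_of_isCyclic (zg_pcyclic hP.le hP.isPGroup) hQP)⟩

theorem piSep_of_hsep {H : Subgroup G}
    (hsep : ∃ (n : ℕ) (M : Fin (n + 1) → Subgroup G), M 0 = ⊥ ∧ M (Fin.last n) = ⊤ ∧ Monotone M ∧
      (∀ i, (M i).Normal) ∧ ∀ i : Fin n,
      (∀ q : ℕ, q.Prime → q ∣ (M i.castSucc).relIndex (M i.succ) → q ∣ Nat.card H) ∨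
        ((M i.castSucc).relIndex (M i.succ)).Coprime (Nat.card H)) :
    PiSep {q | q ∣ Nat.card H} G := by
  obtain ⟨n, M, h0, hn, -, hN, h⟩ := hsep
  exact piSep_of_series M h0 hn hN fun i => (h i).imp id fun h => isPiNum_compl_of_coprime h

theorem exists_core (n : ℕ) : ∃ O : Subgroup G, O = sSup {K : Subgroup G | K.Normal ∧ (Nat.card K).Coprime n} ∧
    O.Normal ∧ (Nat.card O).Coprime n ∧ ∀ K : Subgroup G, K.Normal → (Nat.card K).Coprime n → K ≤ O := by
  refine ⟨_, rfl, ?_, ?_, fun K h1 h2 => le_sSup ⟨h1, h2⟩⟩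
  · rw [sSup_eq_iSup']
    haveI : ∀ i : {K : Subgroup G | K.Normal ∧ (Nat.card K).Coprime n}, (i : Subgroup G).Normal :=
      fun i => i.2.1
    exact Subgroup.iSup_normal _
  · exact sSup_normal_prop (fun K : Subgroup G => (Nat.card K).Coprime n) (by simp)
      fun A B _ _ h1 h2 => coprime_card_sup le_normalizer_of_normal h1 h2

theorem ti_sep_sup {H O : Subgroup G} (hTI : IsTISubset (H : Set G)) (hnn : ¬ H.Normal)
    (hH : (Nat.card H).Coprime H.index) (hs : PiSep {q | q ∣ Nat.card H} G) [O.Normal]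
    (hOc : (Nat.card O).Coprime (Nat.card H))
    (hOm : ∀ K : Subgroup G, K.Normal → (Nat.card K).Coprime (Nat.card H) → K ≤ O) :
    O ⊔ normalizer (H : Set G) = ⊤ := by
  have hO : O ≠ ⊤ := by
    rintro rfl
    apply hnn
    have : H = ⊥ := by
      have := inf_eq_bot_of_coprime hOc
      rwa [top_inf_eq] at this
    rw [this]; infer_instance
  obtain ⟨M, hMn, hM0, hM⟩ := hs (G ⧸ O) (QuotientGroup.mk' O) (QuotientGroup.mk'_surjective O)
    (QuotientGroup.nontrivial_iff.2 hO)
  set K := M.comap (QuotientGroup.mk' O) with hK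
  haveI : K.Normal := hMn.comap _
  have hOK : O ≤ K := by
    intro y hy
    rw [mem_comap, show QuotientGroup.mk' O y = 1 from (QuotientGroup.eq_one_iff y).2 hy]
    exact one_mem _
  have hidx : O.relIndex K = Nat.card M := by
    have e1 := card_mul_relIndex hOK
    rw [card_comap_mk'] at e1
    exact Nat.eq_of_mul_eq_mul_left Nat.card_pos e1
  rcases hM with hM | hM
  swap
  · have : K ≤ O := hOm K inferInstance (by
      rw [card_comap_mk']
      exact Nat.Coprime.mul_left hOc (IsPiNum.coprime (π := {q | q ∣ Nat.card H}) (fun _ _ h => h) hM).symm)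
    rw [relIndex_eq_one.2 this] at hidx
    exact absurd (card_eq_one.1 hidx.symm) hM0
  have hc : (Nat.card M).Coprime (Nat.card O) := coprime_of_primes hM hOc.symm
  obtain ⟨L, hLK, hLO, hLs, hLc⟩ := exists_complement_rel hOK le_normalizer_of_normal
    (by rw [hidx]; exact hc.symm)
  obtain ⟨g, hg⟩ := ti_hall_le hH hTI L (by rw [hLc, hidx]; exact hM)
  have hL0 : L ≠ ⊥ := fun e => hM0 (card_eq_one.1 (by rw [← hidx, ← hLc, e, card_bot]))
  obtain ⟨⟨x, hx⟩, hx1⟩ := Subgroup.ne_bot_iff_exists_ne_one.1 hL0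
  rw [eq_top_iff]
  rintro y -
  obtain ⟨n, hn, hle⟩ := exists_conj_le_cop (A := L) (B := MulAut.conj (g * y * g⁻¹) • L) (N := O)
    le_normalizer_of_normal hLO
    (by rw [hLs]; exact conj_smul_le_of_mem_normalizer hLK (le_normalizer_of_normal (mem_top _)))
    (by rw [card_conj_smul, hLc, hidx]; exact hc)
  rw [conj_smul_conj_smul] at hle
  have h1 := ti_norm (ti_smul hTI g) (g := n * (g * y * g⁻¹)) (hg hx) (fun e => hx1 (Subtype.ext e))
    (hg (hle (conj_mem_conj_smul hx)))
  rw [normalizer_conj_smul, mem_conj_smul] at h1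
  have h2 : g⁻¹ * n⁻¹ * g ∈ O := by simpa using Normal.conj_mem inferInstance _ (O.inv_mem hn) g⁻¹
  have : y = (g⁻¹ * n⁻¹ * g) * (g⁻¹ * (n * (g * y * g⁻¹)) * g) := by group
  rw [this]
  exact mul_mem_sup h2 h1

theorem ti_sep_frob {H O : Subgroup G} (hTI : IsTISubset (H : Set G)) (hnn : ¬ H.Normal) [O.Normal]
    (hOc : (Nat.card O).Coprime (Nat.card H)) (h : O ⊔ normalizer (H : Set G) = ⊤) :
    ∃ (F : Type u) (_ : Group F) (_ : Finite F) (D : Subgroup F),
      IsFrobeniusComplement D ∧ Nonempty (H ≃* D) := by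
  refine exists_frob_of_cent (N := O) le_normalizer_of_normal hOc.symm ?_ ?_
  · intro hc
    apply hnn
    rw [← normalizer_eq_top_iff, eq_top_iff, ← h]
    exact sup_le (hc.trans (centralizer_le_normalizer _)) le_rfl
  · intro a hh h1 m hm e
    refine mem_centralizer_of_mem_normalizer le_normalizer_of_normal
      (inf_eq_bot_of_coprime hOc.symm) hm (ti_norm hTI hh h1 ?_)
    rw [← e]; simpa using hh

end H1
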